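import Mathlib
import Cfsg.Agent.H27.Imprimitive
import Cfsg.Agent.H25.CharValues
import Cfsg.Agent.H25.CharIntegral
import Cfsg.Agent.H43.CharTools

/-!
# Primitive linear groups of degree two
-/

set_option autoImplicit false
set_option maxHeartbeats 800000

namespace Cfsg.Agent.H43

open Module

theorem orbit_equation_sorted (n e₁ e₂ e₃ m₁ m₂ m₃ : ℕ) (h₁ : e₁ * m₁ = n) (h₂ : e₂ * m₂ = n)
    (h₃ : e₃ * m₃ = n) (he₁ : 2 ≤ e₁) (he₂ : 2 ≤ e₂) (he₃ : 2 ≤ e₃) (hm : 3 ≤ m₃) (h12 : m₂ ≤ m₁)
    (h23 : m₃ ≤ m₂) (hsum : m₁ + m₂ + m₃ = n + 2) : n = 12 ∨ n = 24 ∨ n = 60 := by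
  have hm1 : 3 ≤ m₁ := hm.trans (h23.trans h12)
  have e1 : e₁ = 2 := by
    by_contra h
    have : 3 * m₁ ≤ e₁ * m₁ := Nat.mul_le_mul_right _ (by omega)
    omega
  subst e1
  have e2 : e₂ = 2 ∨ e₂ = 3 := by
    by_contra h
    have : 4 * m₂ ≤ e₂ * m₂ := Nat.mul_le_mul_right _ (by omega)
    omega
  rcases e2 with rfl | rfl
  · omega
  have e3 : e₃ ≤ 5 := by
    by_contra h
    have : 6 * m₃ ≤ e₃ * m₃ := Nat.mul_le_mul_right _ (by omega)
    omega
  interval_cases e₃ <;> omega

theorem orbit_equation (n e₁ e₂ e₃ m₁ m₂ m₃ : ℕ) (h₁ : e₁ * m₁ = n) (h₂ : e₂ * m₂ = n)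
    (h₃ : e₃ * m₃ = n) (he₁ : 2 ≤ e₁) (he₂ : 2 ≤ e₂) (he₃ : 2 ≤ e₃) (hm₁ : 3 ≤ m₁) (hm₂ : 3 ≤ m₂)
    (hm₃ : 3 ≤ m₃) (hsum : m₁ + m₂ + m₃ = n + 2) : n = 12 ∨ n = 24 ∨ n = 60 := by
  rcases le_total m₂ m₁ with a | a <;> rcases le_total m₃ m₂ with b | b <;>
    rcases le_total m₃ m₁ with c | c
  all_goals first
    | exact orbit_equation_sorted n e₁ e₂ e₃ m₁ m₂ m₃ h₁ h₂ h₃ he₁ he₂ he₃ hm₃ (by omega) (by omega) (by omega)
    | exact orbit_equation_sorted n e₁ e₃ e₂ m₁ m₃ m₂ h₁ h₃ h₂ he₁ he₃ he₂ hm₂ (by omega) (by omega) (by omega)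
    | exact orbit_equation_sorted n e₂ e₁ e₃ m₂ m₁ m₃ h₂ h₁ h₃ he₂ he₁ he₃ hm₃ (by omega) (by omega) (by omega)
    | exact orbit_equation_sorted n e₂ e₃ e₁ m₂ m₃ m₁ h₂ h₃ h₁ he₂ he₃ he₁ hm₁ (by omega) (by omega) (by omega)
    | exact orbit_equation_sorted n e₃ e₁ e₂ m₃ m₁ m₂ h₃ h₁ h₂ he₃ he₁ he₂ hm₂ (by omega) (by omega) (by omega)
    | exact orbit_equation_sorted n e₃ e₂ e₁ m₃ m₂ m₁ h₃ h₂ h₁ he₃ he₂ he₁ hm₁ (by omega) (by omega) (by omega)

variable {G : Type*} [Group G] [Fintype G]

omit [Fintype G] in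
theorem rep_inv_apply (ρ : Representation ℂ G (Fin 2 → ℂ)) (g : G) (v : Fin 2 → ℂ) :
    ρ g⁻¹ (ρ g v) = v := by
  rw [← Module.End.mul_apply, ← map_mul, inv_mul_cancel, map_one, Module.End.one_apply]

omit [Fintype G] in
theorem map_span_rep (ρ : Representation ℂ G (Fin 2 → ℂ)) (g : G) (v : Fin 2 → ℂ) :
    (Submodule.span ℂ {v}).map (ρ g) = Submodule.span ℂ {ρ g v} := by
  rw [Submodule.map_span, Set.image_singleton]

/-- The theorem. -/
theorem index_center_of_primitive_two (ρ : Representation ℂ G (Fin 2 → ℂ)) [ρ.IsIrreducible]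
    (hinj : Function.Injective ρ)
    (hprim : ∀ H : Subgroup G, H ≠ ⊤ → ∀ θ : H → ℂ, Cfsg.IsCharacter H θ →
      ρ.character ≠ Cfsg.indFun H θ) :
    (Subgroup.center G).index = 12 ∨ (Subgroup.center G).index = 24 ∨
      (Subgroup.center G).index = 60 := by
  classical
  set Z := Subgroup.center G with hZ
  let L : Type := {W : Submodule ℂ (Fin 2 → ℂ) // ∃ v ≠ (0 : Fin 2 → ℂ), W = Submodule.span ℂ {v}}
  let act : MulAction G L :=
    { smul := fun g W => ⟨W.1.map (ρ g), by
        obtain ⟨v, hv, e⟩ := W.2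
        exact ⟨ρ g v, fun h => hv (by rw [← rep_inv_apply ρ g v, h, map_zero]),
          by rw [e, map_span_rep]⟩⟩
      one_smul := fun W => Subtype.ext (by
        show W.1.map (ρ 1) = W.1
        rw [map_one]; exact Submodule.map_id _)
      mul_smul := fun g h W => Subtype.ext (by
        show W.1.map (ρ (g * h)) = (W.1.map (ρ h)).map (ρ g)
        rw [map_mul, ← Submodule.map_comp]; rfl) }
  have hsmul : ∀ (g : G) (W : L), (g • W).1 = W.1.map (ρ g) := fun _ _ => rfl
  -- an irreducible representation has no invariant line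
  have hirr : ∀ W : L, ¬ ∀ g : G, g • W = W := by
    intro W h
    obtain ⟨v, hv, e⟩ := W.2
    rcases ((H26.isIrreducible_iff_forall ρ).1 inferInstance).2 W.1
      (fun g w hw => by rw [← congrArg Subtype.val (h g), hsmul]; exact Submodule.mem_map_of_mem hw)
      with h0 | h1
    · exact hv (Submodule.span_singleton_eq_bot.mp (e ▸ h0))
    · have h2 := congrArg (fun U : Submodule ℂ (Fin 2 → ℂ) => finrank ℂ U) (e ▸ h1)
      simp only [finrank_span_singleton hv, finrank_top, Module.finrank_fin_fun] at h2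
      omega
  -- a non-central element fixes two lines
  have htwo : ∀ g : G, g ∉ Z → ∃ A B : L, A ≠ B ∧ g • A = A ∧ g • B = B ∧
      ∀ W : L, g • W = W → W = A ∨ W = B := by
    intro g hg
    obtain ⟨b, μ, hb, hμ⟩ := H25.exists_eigenbasis_of_pow_eq_one (ρ g) (n := orderOf g)
      (Nat.cast_ne_zero.mpr (orderOf_pos g).ne') (by rw [← map_pow, pow_orderOf_eq_one, map_one])
    let b' := b.reindex (finCongr (Module.finrank_fin_fun ℂ))
    set ν : Fin 2 → ℂ := fun i => μ ((finCongr (Module.finrank_fin_fun ℂ (n := 2))).symm i)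
    have hb' : ∀ i, ρ g (b' i) = ν i • b' i := fun i => by
      simp only [b', Basis.reindex_apply]; exact hb _
    have hne : ν 0 ≠ ν 1 := by
      intro he
      apply hg
      rw [hZ, Subgroup.mem_center_iff]
      intro h
      apply hinj
      have hs : ρ g = ν 0 • (1 : Module.End ℂ (Fin 2 → ℂ)) := b'.ext fun i => by
        rw [hb', LinearMap.smul_apply, Module.End.one_apply]
        fin_cases i
        · rfl
        · simp [he]
      rw [map_mul, map_mul, hs, smul_mul_assoc, mul_smul_comm, one_mul, mul_one]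
    have hνne : ∀ i, ν i ≠ 0 := fun i h0 => by
      have := hμ ((finCongr (Module.finrank_fin_fun ℂ (n := 2))).symm i)
      rw [show μ _ = ν i from rfl, h0, zero_pow (orderOf_pos g).ne'] at this
      exact zero_ne_one this
    let A : L := ⟨Submodule.span ℂ {b' 0}, b' 0, b'.ne_zero 0, rfl⟩
    let B : L := ⟨Submodule.span ℂ {b' 1}, b' 1, b'.ne_zero 1, rfl⟩
    have hfix : ∀ i, (Submodule.span ℂ {b' i}).map (ρ g) = Submodule.span ℂ {b' i} := fun i => by
      rw [map_span_rep, hb', Submodule.span_singleton_smul_eq (IsUnit.mk0 _ (hνne i))]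
    refine ⟨A, B, fun h => ?_, Subtype.ext (hfix 0), Subtype.ext (hfix 1), fun W hW => ?_⟩
    · have he' : Submodule.span ℂ {b' 0} = Submodule.span ℂ {b' 1} := congrArg Subtype.val h
      have h1 : b' 0 ∈ Submodule.span ℂ {b' 1} :=
        he' ▸ Submodule.mem_span_singleton_self (b' 0)
      obtain ⟨c, hc⟩ := Submodule.mem_span_singleton.mp h1
      have := congrArg (fun v => b'.repr v 0) hc
      simp at this
    · obtain ⟨v, hv, e⟩ := W.2
      have h1 : ρ g v ∈ Submodule.span ℂ {v} := by
        rw [← e, ← congrArg Subtype.val hW, hsmul]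
        exact Submodule.mem_map_of_mem (e ▸ Submodule.mem_span_singleton_self v)
      obtain ⟨c, hc⟩ := Submodule.mem_span_singleton.mp h1
      have hrep : ∀ i, c * b'.repr v i = ν i * b'.repr v i := by
        intro i
        have h2 := congrArg (fun w => b'.repr w i) hc
        simp only [map_smul, Finsupp.smul_apply, smul_eq_mul] at h2
        rw [h2]
        conv_lhs => rw [← b'.sum_repr v, map_sum, map_sum, Finsupp.finset_sum_apply]
        rw [Finset.sum_eq_single i]
        · simp [map_smul, hb', mul_comm]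
        · intro j _ hj; simp [map_smul, hb', hj]
        · simp
      have hv' : v = b'.repr v 0 • b' 0 + b'.repr v 1 • b' 1 := by
        conv_lhs => rw [← b'.sum_repr v, Fin.sum_univ_two]
      by_cases h0 : b'.repr v 1 = 0
      · left
        rw [h0, zero_smul, add_zero] at hv'
        refine Subtype.ext (e.trans ?_)
        have hne0 : b'.repr v 0 ≠ 0 := fun h => hv (by rw [hv', h, zero_smul])
        rw [hv', Submodule.span_singleton_smul_eq (IsUnit.mk0 _ hne0)]
      · right
        have hc1 : c = ν 1 := mul_right_cancel₀ h0 (hrep 1)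
        have h00 : b'.repr v 0 = 0 := by
          have h3 := hrep 0
          rw [hc1] at h3
          by_contra h00
          exact hne (mul_right_cancel₀ h00 h3).symm
        rw [h00, zero_smul, zero_add] at hv'
        refine Subtype.ext (e.trans ?_)
        rw [hv', Submodule.span_singleton_smul_eq (IsUnit.mk0 _ h0)]
  -- central elements fix every line
  have hcent : ∀ z ∈ Z, ∀ W : L, z • W = W := by
    intro z hz W
    have hs := H25.eq_smul_id_of_comm ρ (ρ z) (fun g => by
      rw [← Module.End.mul_eq_comp, ← Module.End.mul_eq_comp, ← map_mul, ← map_mul,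
        Subgroup.mem_center_iff.mp hz g])
    obtain ⟨v, hv, e⟩ := W.2
    refine Subtype.ext ?_
    rw [hsmul, e, map_span_rep, hs, LinearMap.smul_apply, LinearMap.id_apply]
    refine Submodule.span_singleton_smul_eq (IsUnit.mk0 _ fun h0 => hv ?_) _
    rw [← rep_inv_apply ρ z v, hs, h0, zero_smul, LinearMap.zero_apply, map_zero]
  -- the poles
  let Om : SubMulAction G L :=
    { carrier := {W | ∃ g ∉ Z, g • W = W}
      smul_mem' := fun h W hW => by
        obtain ⟨g, hg, hgW⟩ := hW
        refine ⟨h * g * h⁻¹, fun hc => hg ?_, by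
          rw [mul_smul, mul_smul, inv_smul_smul, hgW]⟩
        have := (inferInstance : Z.Normal).conj_mem _ hc h⁻¹
        rwa [show h⁻¹ * (h * g * h⁻¹) * h⁻¹⁻¹ = g by group] at this }
  choose! A B hAB hA hB honly using htwo
  have : Finite Om := by
    refine Finite.of_surjective (fun q : {g : G // g ∉ Z} × Bool =>
      (if q.2 then ⟨A q.1.1 q.1.2, q.1.1, q.1.2, hA q.1.1 q.1.2⟩
        else ⟨B q.1.1 q.1.2, q.1.1, q.1.2, hB q.1.1 q.1.2⟩ : Om)) ?_
    rintro ⟨W, g, hg, hgW⟩
    rcases honly g hg W hgW with rfl | rfl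
    · exact ⟨(⟨g, hg⟩, true), rfl⟩
    · exact ⟨(⟨g, hg⟩, false), rfl⟩
  have := Fintype.ofFinite Om
  set n := Z.index with hn
  set z := Nat.card Z with hz
  have hNG : Nat.card G = n * z := by rw [hn, hz, mul_comm, Subgroup.card_mul_index]
  have hZle : ∀ W : Om, Z ≤ MulAction.stabilizer G W := fun W x hx =>
    MulAction.mem_stabilizer_iff.mpr (Subtype.ext (hcent x hx W.1))
  let e : Om → ℕ := fun W => Z.relIndex (MulAction.stabilizer G W)
  let m : Om → ℕ := fun W => (MulAction.stabilizer G W).index
  have hem : ∀ W, e W * m W = n := fun W => Subgroup.relIndex_mul_index (hZle W)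
  have he2 : ∀ W, 2 ≤ e W := by
    intro W
    have h0 : e W ≠ 0 := fun h => by
      have := hem W; rw [h, zero_mul] at this; exact Z.index_ne_zero_of_finite this.symm
    have h1 : e W ≠ 1 := fun h => by
      obtain ⟨g, hg, hgW⟩ := W.2
      exact hg (Subgroup.relIndex_eq_one.mp h (MulAction.mem_stabilizer_iff.mpr (Subtype.ext hgW)))
    omega
  have hm1 : ∀ W, m W ≠ 1 := fun W h => hirr W.1 fun g => congrArg Subtype.val
    (MulAction.mem_stabilizer_iff.mp ((Subgroup.index_eq_one.mp h) ▸ Subgroup.mem_top g) :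
      g • W = W)
  have hm2 : ∀ W, m W ≠ 2 := by
    intro W h2
    set T := MulAction.stabilizer G W with hT
    have hTn : T.Normal := Subgroup.normal_of_index_eq_two h2
    have hTne : T ≠ ⊤ := fun h => by rw [show m W = T.index from rfl, h, Subgroup.index_top] at h2; omega
    obtain ⟨g0, -, hg0⟩ := SetLike.exists_of_lt (lt_top_iff_ne_top.mpr hTne)
    obtain ⟨v, hv, ev⟩ := W.1.2
    set w := ρ g0 v with hw
    have hgT : ∀ g, g ∉ T → g⁻¹ * g0 ∈ T := fun g hg => by
      rw [Subgroup.mul_mem_iff_of_index_two h2, inv_mem_iff]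
      exact iff_of_false hg hg0
    have hline : ∀ t ∈ T, ∃ c : ℂ, ρ t v = c • v := by
      intro t ht
      have h1 : ρ t v ∈ (t • W.1).1 := Submodule.mem_map_of_mem (ev ▸ Submodule.mem_span_singleton_self v)
      rw [show t • W.1 = W.1 from congrArg Subtype.val (MulAction.mem_stabilizer_iff.mp ht), ev] at h1
      obtain ⟨c, hc⟩ := Submodule.mem_span_singleton.mp h1
      exact ⟨c, hc.symm⟩
    have hli : LinearIndependent ℂ ![v, w] := by
      rw [LinearIndependent.pair_iff' hv]
      intro c hc
      apply hg0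
      refine MulAction.mem_stabilizer_iff.mpr (Subtype.ext (Subtype.ext ?_))
      show W.1.1.map (ρ g0) = W.1.1
      rw [ev, map_span_rep, ← hw, ← hc]
      refine Submodule.span_singleton_smul_eq (IsUnit.mk0 _ fun h0 => hv ?_) _
      rw [← rep_inv_apply ρ g0 v, ← hw, ← hc, h0, zero_smul, map_zero]
    let bb := basisOfLinearIndependentOfCardEqFinrank hli (by simp)
    have hbb : ∀ i, bb i = ![v, w] i := fun i => by
      rw [coe_basisOfLinearIndependentOfCardEqFinrank]
    let P : Module.End ℂ (Fin 2 → ℂ) := bb.constr ℂ ![v, 0]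
    have hPv : P v = v := by
      have h := bb.constr_basis ℂ ![v, 0] 0
      rw [hbb 0] at h
      exact h
    have hPw : P w = 0 := by
      have h := bb.constr_basis ℂ ![v, 0] 1
      rw [hbb 1] at h
      exact h
    obtain ⟨σ, -, -, hind, -⟩ := H27.exists_indFun_of_block ρ T P
      (bb.ext fun i => by
        rw [hbb, Module.End.mul_apply]
        fin_cases i
        · simp [hPv]
        · simp [hPw])
      (fun h => hv (by rw [← hPv, h, LinearMap.zero_apply]))
      (fun t ht => bb.ext fun i => by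
        rw [hbb, Module.End.mul_apply, Module.End.mul_apply]
        obtain ⟨c, hc⟩ := hline t ht
        obtain ⟨c', hc'⟩ := hline (g0⁻¹ * t * g0) (by simpa using hTn.conj_mem t ht g0⁻¹)
        have hcw : ρ t w = c' • w := by
          rw [hw, ← map_smul, ← hc', ← Module.End.mul_apply, ← Module.End.mul_apply, ← map_mul,
            ← map_mul]
          congr 2
          group
        fin_cases i
        · simp [hc, hPv]
        · simp [hcw, hPw])
      (fun g hg => bb.ext fun i => by
        rw [hbb, Module.End.mul_apply, Module.End.mul_apply, LinearMap.zero_apply]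
        obtain ⟨c, hc⟩ := hline _ (T.inv_mem (hgT g hg))
        fin_cases i
        · have h1 : ρ (g0⁻¹ * g) v = c • v := by
            rw [mul_inv_rev, inv_inv] at hc; exact hc
          have h2 : ρ g v = c • w := by
            rw [hw, ← map_smul, ← h1, ← Module.End.mul_apply, ← map_mul, mul_inv_cancel_left]
          simp [hPv, h2, hPw]
        · simp [hPw])
    exact hprim T hTne _ (H26.isCharacter_char σ) hind
  -- count the incidences
  have hcount : ∑ W : Om, ((MulAction.stabilizer G W : Subgroup G) : Set G).ncard =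
      2 * (n * z - z) + z * Fintype.card Om := by
    have h1 : ∀ W : Om, ((MulAction.stabilizer G W : Subgroup G) : Set G).ncard =
        ∑ g : G, if g • W = W then 1 else 0 := fun W => by
      rw [← Finset.card_filter, ← Set.ncard_coe_finset]
      congr 1
      ext g; simp
    simp only [h1]
    rw [Finset.sum_comm, ← Finset.sum_filter_add_sum_filter_not Finset.univ (fun g : G => g ∈ Z),
      add_comm]
    congr 1
    · rw [Finset.sum_congr rfl fun g hg => show (∑ W : Om, if g • W = W then 1 else 0) = 2 by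
        have hg' : g ∉ Z := (Finset.mem_filter.mp hg).2
        rw [← Finset.card_filter]
        rw [show (Finset.univ.filter fun W : Om => g • W = W) =
          {⟨A g hg', g, hg', hA g hg'⟩, ⟨B g hg', g, hg', hB g hg'⟩} from by
          ext W
          simp only [Finset.mem_filter, Finset.mem_univ, true_and, Finset.mem_insert,
            Finset.mem_singleton]
          constructor
          · intro h
            rcases honly g hg' W.1 (congrArg Subtype.val h) with h' | h'
            · exact Or.inl (Subtype.ext h')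
            · exact Or.inr (Subtype.ext h')
          · rintro (rfl | rfl)
            · exact Subtype.ext (hA g hg')
            · exact Subtype.ext (hB g hg'),
          Finset.card_pair fun h => hAB g hg' (congrArg Subtype.val h)],
        Finset.sum_const, smul_eq_mul, mul_comm 2]
      congr 1
      rw [← Fintype.card_subtype, Fintype.card_subtype_compl, ← Nat.card_eq_fintype_card,
        ← Nat.card_eq_fintype_card, hNG]
    · rw [Finset.sum_congr rfl fun g hg => show (∑ W : Om, if g • W = W then 1 else 0) =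
          Fintype.card Om by
        rw [Finset.sum_congr rfl fun W _ => if_pos (Subtype.ext
          (hcent g (Finset.mem_filter.mp hg).2 W.1)), Finset.sum_const, smul_eq_mul, mul_one,
          Finset.card_univ],
        Finset.sum_const, smul_eq_mul]
      congr 1
      rw [← Fintype.card_subtype, ← Nat.card_eq_fintype_card]
  have hstab : ∀ W : Om,
      ((MulAction.stabilizer G W : Subgroup G) : Set G).ncard = z * e W := fun W => by
    rw [← Nat.card_coe_set_eq, SetLike.coe_sort_coe,
      ← Subgroup.card_mul_index (Z.subgroupOf (MulAction.stabilizer G W)),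
      Nat.card_congr (Subgroup.subgroupOfEquivOfLe (hZle W)).toEquiv]
    rfl
  -- sum over orbits
  let Q := MulAction.orbitRel.Quotient G Om
  let _ : Fintype Q := Fintype.ofFinite Q
  let q : Om → Q := Quotient.mk _
  let r : Q → Om := Quotient.out
  have hconst : ∀ (W : Om) (o : Q), q W = o → m W = m (r o) ∧ e W = e (r o) := by
    intro W o ho
    have h1 : r o ∈ MulAction.orbit G W := by
      rw [← MulAction.orbitRel_apply]
      exact Quotient.exact ((Quotient.out_eq o).trans ho.symm)
    have h2 : m W = m (r o) := by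
      simp only [m, MulAction.index_stabilizer, MulAction.orbit_eq_iff.mpr h1]
    refine ⟨h2, Nat.eq_of_mul_eq_mul_right (m := m W) ?_ ?_⟩
    · have := hem W
      rcases Nat.eq_zero_or_pos (m W) with h0 | h0
      · rw [h0, mul_zero] at this; exact absurd this.symm Z.index_ne_zero_of_finite
      · exact h0
    · rw [hem W, h2, hem]
  have hfib : ∀ o : Q, (Finset.univ.filter fun W : Om => q W = o).card = m (r o) := by
    intro o
    simp only [m, MulAction.index_stabilizer, ← Set.ncard_coe_finset]
    congr 1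
    ext W
    simp only [Finset.coe_filter, Finset.mem_univ, true_and, Set.mem_setOf_eq]
    rw [← MulAction.orbitRel_apply]
    constructor
    · intro h; exact Quotient.exact (h.trans (Quotient.out_eq o).symm)
    · intro h; exact (Quotient.sound h).trans (Quotient.out_eq o)
  have hS1 : ∑ W : Om, e W = Fintype.card Q * n := by
    rw [← Finset.sum_fiberwise Finset.univ q, Finset.sum_congr rfl fun o _ =>
      show ∑ W with q W = o, e W = n by
        rw [Finset.sum_congr rfl fun W hW => (hconst W o (Finset.mem_filter.mp hW).2).2,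
          Finset.sum_const, hfib, smul_eq_mul, mul_comm, hem],
      Finset.sum_const, smul_eq_mul, Finset.card_univ]
  have hS2 : Fintype.card Om = ∑ o : Q, m (r o) := by
    rw [← Finset.card_univ, Finset.card_eq_sum_card_fiberwise (f := q) (t := Finset.univ)
      (fun _ _ => Finset.mem_univ _)]
    exact Finset.sum_congr rfl fun o _ => hfib o
  simp only [hstab, ← Finset.mul_sum, hS1, hS2] at hcount
  have hzpos : 0 < z := Nat.card_pos
  have hn0 : 0 < n := Nat.pos_of_ne_zero Z.index_ne_zero_of_finite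
  have hmain : Fintype.card Q * n + 2 = 2 * n + ∑ o : Q, m (r o) := by
    refine Nat.eq_of_mul_eq_mul_left hzpos ?_
    have : z ≤ n * z := Nat.le_mul_of_pos_left z hn0
    rw [mul_add, mul_add, hcount, show z * (2 * n) = 2 * (n * z) by ring]
    omega
  have hm3 : ∀ o : Q, 3 ≤ m (r o) := fun o => by
    have := hm1 (r o); have := hm2 (r o)
    have : m (r o) ≠ 0 := Subgroup.index_ne_zero_of_finite
    omega
  have hmle : 2 * ∑ o : Q, m (r o) ≤ Fintype.card Q * n := by
    rw [Finset.mul_sum, ← Finset.card_univ, ← smul_eq_mul, ← Finset.sum_const]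
    exact Finset.sum_le_sum fun o _ => (Nat.mul_le_mul_right _ (he2 (r o))).trans (hem (r o)).le
  have hm3s : 3 * Fintype.card Q ≤ ∑ o : Q, m (r o) := by
    rw [mul_comm, ← Finset.card_univ, ← smul_eq_mul, ← Finset.sum_const]
    exact Finset.sum_le_sum fun o _ => hm3 o
  have hn1 : n ≠ 1 := by
    intro h1
    refine hirr ⟨_, Pi.single 0 1, by simp, rfl⟩ fun g => hcent g ?_ _
    rw [Subgroup.index_eq_one.mp h1]
    exact Subgroup.mem_top g
  have hk3 : Fintype.card Q = 3 := by
    obtain ⟨k, hk⟩ : ∃ k, Fintype.card Q = k := ⟨_, rfl⟩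
    rw [hk] at hmain hmle hm3s ⊢
    rcases Nat.lt_or_ge k 4 with h4 | h4
    · interval_cases k <;> omega
    · have : 4 * n ≤ k * n := Nat.mul_le_mul_right n h4
      omega
  rw [← Finset.card_univ, Finset.card_eq_three] at hk3
  obtain ⟨a, b, c, hab, hac, hbc, huniv⟩ := hk3
  have hcQ : Fintype.card Q = 3 := by
    rw [← Finset.card_univ, huniv, Finset.card_eq_three]
    exact ⟨a, b, c, hab, hac, hbc, rfl⟩
  rw [hcQ, huniv, Finset.sum_insert (by simp [hab, hac]), Finset.sum_insert (by simp [hbc]),
    Finset.sum_singleton] at hmain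
  exact orbit_equation n (e (r a)) (e (r b)) (e (r c)) (m (r a)) (m (r b)) (m (r c)) (hem _) (hem _)
    (hem _) (he2 _) (he2 _) (he2 _) (hm3 a) (hm3 b) (hm3 c) (by omega)

end Cfsg.Agent.H43
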