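import Cfsg.Agent.H43.GlaubermanSolvable
import Cfsg.Agent.H43.InvariantAbove

/-!
# An invariant character over a central character, coprime solvable operators
-/

namespace Cfsg.Agent.H43

open scoped ComplexConjugate

variable {G : Type*} [Group G]

/-- A central element acts on an irreducible character by the scalar it has on any constituent
of the restriction to a central subgroup. -/
theorem apply_mul_central [Fintype G] (γ : Cfsg.IrrCharacter G) (Z : Subgroup G) [Fintype Z]
    (hZ : Z ≤ Subgroup.center G) (μ : Z →* ℂˣ)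
    (hμ : mult (fun z : Z => γ.1 z) (irrTwist (H26.oneIrr Z) μ) ≠ 0) (g : G) (z : Z) :
    γ.1 (g * z) = (μ z : ℂ) * γ.1 g := by
  obtain ⟨n, ρ, hρ, e⟩ := γ.2
  obtain ⟨c, hc⟩ : ∃ c : ℂ, ∀ x : G, γ.1 (x * z) = c * γ.1 x := by
    refine ⟨LinearMap.trace ℂ _ (ρ z) / (Module.finrank ℂ (Fin n → ℂ) : ℂ), fun x => ?_⟩
    have hsc := H25.eq_smul_id_of_comm ρ (ρ z) fun y => by
      rw [← Module.End.mul_eq_comp, ← Module.End.mul_eq_comp, ← map_mul, ← map_mul,
        Subgroup.mem_center_iff.mp (hZ z.2) y]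
    rw [← e, Representation.character, Representation.character, map_mul]
    conv_lhs => rw [hsc]
    rw [mul_smul_comm, map_smul, smul_eq_mul]
    rfl
  set S : ℂ := ∑ y : Z, γ.1 (y : G) * conj ((irrTwist (H26.oneIrr Z) μ).1 y) with hS
  have hS0 : S ≠ 0 := by
    have h := classInner_eq_mult (φ := fun y : Z => γ.1 y)
      (H26.isCharacter_comp (H26.irr_isCharacter γ) Z.subtype) (irrTwist (H26.oneIrr Z) μ)
    rw [Cfsg.classInner] at h
    intro h0
    rw [← hS, h0, mul_zero] at h
    exact hμ (Nat.cast_eq_zero.mp h.symm)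
  have key : S = c * conj (μ z : ℂ) * S := by
    rw [hS, Finset.mul_sum]
    refine (Fintype.sum_equiv (Equiv.mulRight z) _ _ fun y => ?_).symm
    simp only [Equiv.coe_mulRight, irrTwist_apply, H26.oneIrr_val, one_mul, map_mul,
      Units.val_mul, Subgroup.coe_mul, hc]
    ring
  have h1 : c * conj (μ z : ℂ) = 1 := by
    have h2 : (c * conj (μ z : ℂ) - 1) * S = 0 := by rw [sub_mul, one_mul, ← key, sub_self]
    exact sub_eq_zero.mp ((mul_eq_zero.mp h2).resolve_right hS0)
  have h2 : c = (μ z : ℂ) := by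
    calc c = c * ((μ z : ℂ) * conj (μ z : ℂ)) := by rw [hom_mul_conj, mul_one]
      _ = (μ z : ℂ) * (c * conj (μ z : ℂ)) := by ring
      _ = _ := by rw [h1, mul_one]
  rw [hc g, h2]

/-- Over a linear character of a central subgroup there is an invariant irreducible character,
when the index of the central subgroup is prime to the order of the solvable factor acting. -/
theorem exists_central_invariant [Finite G] (H Z : Subgroup G) [H.Normal] (hZH : Z ≤ H)
    (hZc : Z ≤ Subgroup.center G) (μ : Z →* ℂˣ) (hcop : H.index.Coprime (Z.relIndex H))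
    (hsolv : Group.IsSolvable (G ⧸ H)) [Fintype H] :
    ∃ η : Cfsg.IrrCharacter H,
      (∀ (x : G) (h : H), η.1 (MulAut.conjNormal x h) = η.1 h) ∧
      ∀ (h : H) (z : Z), η.1 (h * ⟨z, hZH z.2⟩) = (μ z : ℂ) * η.1 h := by
  classical
  haveI := Fintype.ofFinite G
  set m := H.index with hmdef
  -- the part of `Z` whose order is a product of primes of `m`
  let A : Subgroup G :=
    { carrier := {z | z ∈ Z ∧ ∃ k : ℕ, z ^ (m ^ k) = 1}
      one_mem' := ⟨Z.one_mem, 0, one_pow _⟩
      mul_mem' := fun {a b} ha hb => by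
        obtain ⟨ha, i, hi⟩ := ha
        obtain ⟨hb, j, hj⟩ := hb
        refine ⟨Z.mul_mem ha hb, i + j, ?_⟩
        have hc : Commute a b := Subgroup.mem_center_iff.mp (hZc hb) a
        rw [hc.mul_pow, pow_add, pow_mul, hi, one_pow, one_mul, mul_comm, pow_mul, hj, one_pow]
      inv_mem' := fun {a} ha => by
        obtain ⟨ha, i, hi⟩ := ha
        exact ⟨Z.inv_mem ha, i, by rw [inv_pow, hi, inv_one]⟩ }
  have hA : ∀ z, z ∈ A ↔ z ∈ Z ∧ ∃ k : ℕ, z ^ (m ^ k) = 1 := fun z => Iff.rfl
  have hAZ : A ≤ Z := fun z hz => hz.1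
  haveI : A.Normal := ⟨fun a ha g => by
    rw [Subgroup.mem_center_iff.mp (hZc (hAZ ha)) g, mul_inv_cancel_right]; exact ha⟩
  have hAdvd : ∀ {r : ℕ}, r.Prime → r ∣ Nat.card A → r ∣ m := fun {r} hr h => by
    haveI := Fact.mk hr
    obtain ⟨a, ha⟩ := exists_prime_orderOf_dvd_card' r h
    obtain ⟨-, k, hk⟩ := a.2
    refine hr.dvd_of_dvd_pow (n := k) ?_
    rw [← ha, ← Subgroup.orderOf_coe]
    exact orderOf_dvd_of_pow_eq_one hk
  have hcopA : ∀ n : ℕ, n.Coprime m → (Nat.card A).Coprime n := fun n hn =>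
    Nat.coprime_of_dvd fun r hr h1 h2 => hr.not_dvd_one (hn.gcd_eq_one ▸
      Nat.dvd_gcd h2 (hAdvd hr h1))
  have hAH : (A.relIndex H).Coprime m := by
    refine Nat.coprime_of_dvd fun r hr h1 h2 => ?_
    rw [← Subgroup.relIndex_mul_relIndex A Z H hAZ hZH] at h1
    rcases hr.dvd_mul.mp h1 with h | h
    · haveI := Fact.mk hr
      set A' := A.subgroupOf Z
      haveI : A'.Normal := inferInstance
      obtain ⟨x, hx⟩ := exists_prime_orderOf_dvd_card' (G := Z ⧸ A') r h
      obtain ⟨z, rfl⟩ := QuotientGroup.mk_surjective x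
      have hzr : z ^ r ∈ A' := by
        rw [← QuotientGroup.eq_one_iff, QuotientGroup.mk_pow, ← hx, pow_orderOf_eq_one]
      obtain ⟨-, k, hk'⟩ := (hzr : ((z ^ r : Z) : G) ∈ A)
      have hk : ((z : G) ^ r) ^ (m ^ k) = 1 := hk'
      have hz : z ∈ A' := by
        obtain ⟨s, hs⟩ := h2
        refine ⟨z.2, k + 1, ?_⟩
        show (z : G) ^ (m ^ (k + 1)) = 1
        rw [show m ^ (k + 1) = r * m ^ k * s by rw [pow_succ]; nth_rw 2 [hs]; ring,
          pow_mul, pow_mul, hk, one_pow]
      rw [(QuotientGroup.eq_one_iff z).mpr hz, orderOf_one] at hx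
      exact hr.ne_one hx.symm
    · exact Nat.not_coprime_of_dvd_of_dvd hr.one_lt h2 h hcop
  have hAle : A ≤ H := hAZ.trans hZH
  set AH : Subgroup H := A.subgroupOf H with hAHdef
  haveI : AH.Normal := inferInstance
  have hcardA : Nat.card AH = Nat.card A :=
    Nat.card_congr (Subgroup.subgroupOfEquivOfLe hAle).toEquiv
  obtain ⟨B, hB⟩ := Subgroup.exists_right_complement'_of_coprime (N := AH)
    (by rw [hcardA]; exact hcopA _ hAH)
  have hBcard : Nat.card B = A.relIndex H := hB.symm.index_eq_card.symm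
  haveI hBn : B.Normal := by
    refine ⟨fun b hb g => ?_⟩
    obtain ⟨⟨⟨a, ha⟩, ⟨b', hb'⟩⟩, rfl⟩ := hB.2 g
    have hca : ∀ y : H, a * y = y * a := fun y => Subtype.ext
      (Subgroup.mem_center_iff.mp (hZc (hAZ ha)) y).symm
    show a * b' * b * (a * b')⁻¹ ∈ B
    rw [show a * b' * b * (a * b')⁻¹ = a * (b' * b * b'⁻¹) * a⁻¹ by group, hca, mul_inv_cancel_right]
    exact B.mul_mem (B.mul_mem hb' hb) (B.inv_mem hb')
  have hBA : B.IsComplement' AH := hB.symm
  set p : H →* B := hBA.QuotientMulEquiv.toMonoidHom.comp (QuotientGroup.mk' AH) with hp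
  have hpsurj : Function.Surjective p :=
    hBA.QuotientMulEquiv.surjective.comp (QuotientGroup.mk'_surjective _)
  have hpA : ∀ a ∈ AH, p a = 1 := fun a ha => by
    rw [hp, MonoidHom.comp_apply, QuotientGroup.mk'_apply, (QuotientGroup.eq_one_iff a).mpr ha,
      map_one]
  have hqmem : ∀ h : H, (p h : H)⁻¹ * h ∈ AH := fun h => by
    rw [← QuotientGroup.eq]
    exact hBA.QuotientMulEquiv.symm_apply_apply (QuotientGroup.mk' AH h)
  have hpuniq : ∀ (h : H) (b : B), (b : H)⁻¹ * h ∈ AH → p h = b := fun h b hb => by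
    have h1 : p b = p h := by
      rw [← mul_inv_cancel_left (b : H) h, map_mul, hpA _ hb, mul_one]
    have h2 : (p b : H)⁻¹ * b ∈ AH := hqmem b
    have h3 : (p b : H)⁻¹ * b = 1 :=
      Subgroup.mem_bot.mp (hBA.disjoint.le_bot ⟨B.mul_mem (B.inv_mem (p b).2) b.2, h2⟩)
    rw [← h1]
    exact Subtype.ext (inv_mul_eq_one.mp h3)
  have hBord : ∀ b : H, b ∈ B ↔ (orderOf b).Coprime m := by
    intro b
    refine ⟨fun hb => ?_, fun hb => ?_⟩
    · refine hAH.coprime_dvd_left ?_
      rw [← hBcard, show orderOf b = orderOf (⟨b, hb⟩ : B) from (Subgroup.orderOf_mk b hb).symm]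
      exact orderOf_dvd_natCard _
    · have h1 := hqmem b
      set a := (p b : H)⁻¹ * b
      suffices a = 1 by
        rw [show b = (p b : H) from (inv_mul_eq_one.mp this).symm]; exact (p b).2
      have hcomm : Commute (p b : H) a := Subtype.ext
        (Subgroup.mem_center_iff.mp (hZc (hAZ h1)) _)
      have h2 : a ^ orderOf b = ((p b : H) ^ orderOf b)⁻¹ := by
        rw [eq_inv_iff_mul_eq_one, ← hcomm.symm.mul_pow, ← hcomm.eq,
          show (p b : H) * a = b from mul_inv_cancel_left _ _, pow_orderOf_eq_one]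
      have h3 : a ^ orderOf b = 1 := Subgroup.mem_bot.mp (hBA.disjoint.le_bot
        ⟨h2 ▸ B.inv_mem (B.pow_mem (p b).2 _), AH.pow_mem h1 _⟩)
      exact orderOf_eq_one_iff.mp (Nat.eq_one_of_dvd_coprimes
        (hcopA _ hb).symm (orderOf_dvd_of_pow_eq_one h3)
        (by rw [← hcardA, show orderOf a = orderOf (⟨a, h1⟩ : AH) from
          (Subgroup.orderOf_mk a h1).symm]; exact orderOf_dvd_natCard _))
  -- the normal `m'`-part and a complement
  set B' : Subgroup G := B.map H.subtype with hB'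
  haveI : B'.Normal := by
    refine ⟨?_⟩
    rintro _ ⟨b, hb, rfl⟩ g
    refine ⟨MulAut.conjNormal g b, ?_, MulAut.conjNormal_apply g b⟩
    show MulAut.conjNormal g b ∈ B
    rw [hBord, MulEquiv.orderOf_eq]
    exact (hBord b).mp hb
  have hB'card : Nat.card B' = A.relIndex H := by
    rw [hB', Subgroup.card_map_of_injective H.subtype_injective, hBcard]
  have hcardG : Nat.card G = Nat.card A * A.relIndex H * m := by
    rw [← hcardA, ← hBcard, hB.card_mul_card, ← H.card_mul_index]
  have hB'idx : B'.index = Nat.card A * m := by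
    refine mul_left_cancel₀ (Nat.card_pos (α := B')).ne' ?_
    rw [B'.card_mul_index, hB'card, hcardG]
    ring
  have hcopB : (Nat.card B').Coprime B'.index := by
    rw [hB'card, hB'idx]
    exact Nat.Coprime.mul_right (hcopA _ hAH).symm hAH
  obtain ⟨C, hC⟩ := Subgroup.exists_right_complement'_of_coprime hcopB
  have hCsolv : Group.IsSolvable C := by
    set f : C →* G ⧸ H := (QuotientGroup.mk' H).comp C.subtype
    haveI := hsolv
    haveI : Group.IsSolvable A := Group.isSolvable_of_comm fun a b =>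
      Subtype.ext (Subgroup.mem_center_iff.mp (hZc (hAZ b.2)) a)
    haveI : Group.IsSolvable f.ker := by
      have hk : ∀ c : f.ker, ((c : C) : G) ∈ H := fun c => (QuotientGroup.eq_one_iff _).mp c.2
      let g : f.ker →* H := (C.subtype.comp f.ker.subtype).codRestrict H hk
      let g' : f.ker →* H ⧸ B := (QuotientGroup.mk' B).comp g
      have hinj : Function.Injective g' := by
        rw [← MonoidHom.ker_eq_bot_iff, eq_bot_iff]
        intro c hc
        have h1 : g c ∈ B := (QuotientGroup.eq_one_iff _).mp hc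
        have h2 : ((c : C) : G) ∈ B' ⊓ C := ⟨⟨g c, h1, rfl⟩, (c : C).2⟩
        rw [Subgroup.mem_bot.mp (hC.disjoint.le_bot h2) |> fun e =>
          (Subtype.ext (Subtype.ext e) : c = 1)]
        exact one_mem _
      haveI : Group.IsSolvable (H ⧸ B) := by
        haveI : Group.IsSolvable AH := Group.isSolvable_of_surjective
          (f := (Subgroup.subgroupOfEquivOfLe hAle).symm.toMonoidHom) (MulEquiv.surjective _)
        exact Group.isSolvable_of_surjective (f := hB.QuotientMulEquiv.symm.toMonoidHom)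
          (MulEquiv.surjective _)
      exact Group.isSolvable_of_isSolvable_injective hinj
    exact Group.isSolvable_of_ker_le_range f.ker.subtype f (by rw [Subgroup.range_subtype])
  haveI : Fintype B' := Fintype.ofFinite _
  set φ : C →* MulAut B' := (MulAut.conjNormal).comp C.subtype
  set Z' : Subgroup B' := Z.subgroupOf B'
  haveI : Fintype Z' := Fintype.ofFinite _
  haveI : Z'.Normal := ⟨fun z hz g => by
    show ((g : G) * (z : G) * (g : G)⁻¹) ∈ Z
    have hz' : (z : G) ∈ Z := hz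
    rw [Subgroup.mem_center_iff.mp (hZc hz') g, mul_inv_cancel_right]; exact hz'⟩
  let j : Z' →* Z := (B'.subtype.comp Z'.subtype).codRestrict Z fun z => z.2
  have hfix : ∀ (c : C) (z : B'), (z : G) ∈ Z → φ c z = z := fun c z hz => Subtype.ext (by
    show (c : G) * (z : G) * (c : G)⁻¹ = z
    rw [Subgroup.mem_center_iff.mp (hZc hz) c, mul_inv_cancel_right])
  obtain ⟨γ, hγ, hγμ⟩ := exists_invFun_above _ (G := B') (S := C) rfl hCsolv (by
      rw [← hC.symm.index_eq_card]; exact hcopB) φ Z'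
    (fun c z hz => by rw [hfix c z hz]; exact hz) (irrTwist (H26.oneIrr Z') (μ.comp j))
    (fun c z => congrArg _ (Subtype.ext (hfix c z z.2)))
  have hγc : ∀ (b : B') (z : Z'), γ.1 (b * z) = (μ (j z) : ℂ) * γ.1 b := fun b z =>
    apply_mul_central γ Z' (fun z hz => Subgroup.mem_center_iff.mpr fun b => Subtype.ext
      (Subgroup.mem_center_iff.mp (hZc hz) b)) (μ.comp j) hγμ b z
  -- assemble
  let p' : H →* B' := (B.equivMapOfInjective H.subtype H.subtype_injective).toMonoidHom.comp p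
  have hp'coe : ∀ h, (p' h : G) = ((p h : H) : G) := fun h => rfl
  have hp'surj : Function.Surjective p' :=
    (B.equivMapOfInjective H.subtype H.subtype_injective).surjective.comp hpsurj
  let qf : H → Z := fun h => ⟨(((p h : H)⁻¹ * h : H) : G), hAZ (hqmem h)⟩
  let q : H →* Z := MonoidHom.mk' qf fun a b => Subtype.ext (by
    show (((p (a * b) : H)⁻¹ * (a * b) : H) : G) =
      (((p a : H)⁻¹ * a : H) : G) * (((p b : H)⁻¹ * b : H) : G)
    rw [← Subgroup.coe_mul]
    congr 1
    have hc : ∀ y : H, y * ((p a : H)⁻¹ * a) = ((p a : H)⁻¹ * a) * y := fun y => Subtype.ext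
      (Subgroup.mem_center_iff.mp (hZc (hAZ (hqmem a))) y)
    rw [map_mul, Subgroup.coe_mul, mul_inv_rev]
    conv_rhs => rw [← mul_assoc, ← hc]
    group)
  obtain ⟨k, ρ, hρ, e⟩ := γ.2
  set η₀ : Cfsg.IrrCharacter H := ⟨fun h => γ.1 (p' h), ⟨k, ρ.comp p',
    isIrreducible_comp_surjective ρ p' hp'surj, by rw [← e]; rfl⟩⟩
  refine ⟨irrTwist η₀ (μ.comp q), fun x h => ?_, fun h z => ?_⟩
  · have hpx : ((p (MulAut.conjNormal x h) : H)) = MulAut.conjNormal x (p h : H) := by
      have hmem : MulAut.conjNormal x (p h : H) ∈ B := by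
        rw [hBord, MulEquiv.orderOf_eq]; exact (hBord _).mp (p h).2
      refine congrArg Subtype.val (hpuniq _ ⟨_, hmem⟩ ?_)
      rw [← map_inv, ← map_mul]
      show (MulAut.conjNormal x ((p h : H)⁻¹ * h) : G) ∈ A
      rw [MulAut.conjNormal_apply]
      exact Subgroup.Normal.conj_mem (H := A) inferInstance (((p h : H)⁻¹ * h : H) : G) (hqmem h) x
    obtain ⟨⟨⟨b, hb⟩, ⟨c, hc⟩⟩, rfl⟩ := hC.2 x
    rw [irrTwist_apply, irrTwist_apply]
    congr 1
    · show γ.1 (p' _) = γ.1 (p' h)
      have e1 : p' (MulAut.conjNormal (b * c) h) = ⟨b, hb⟩ * φ ⟨c, hc⟩ (p' h) * (⟨b, hb⟩ : B')⁻¹ := by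
        refine Subtype.ext ?_
        rw [hp'coe, hpx, MulAut.conjNormal_apply]
        show b * c * ((p h : H) : G) * (b * c)⁻¹ = b * (c * ((p h : H) : G) * c⁻¹) * b⁻¹
        group
      rw [e1, H26.irr_conj, hγ]
    · show (μ (q (MulAut.conjNormal (b * c) h)) : ℂ) = (μ (q h) : ℂ)
      congr 2
      refine Subtype.ext ?_
      show (((p (MulAut.conjNormal (b * c) h) : H)⁻¹ * MulAut.conjNormal (b * c) h : H) : G) =
        (((p h : H)⁻¹ * h : H) : G)
      rw [hpx, ← map_inv, ← map_mul, MulAut.conjNormal_apply]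
      have hm : ∀ y : G, y * (((p h : H)⁻¹ * h : H) : G) = (((p h : H)⁻¹ * h : H) : G) * y :=
        fun y => Subgroup.mem_center_iff.mp (hZc (hAZ (hqmem h))) y
      rw [hm, mul_inv_cancel_right]
  · set zH : H := ⟨(z : G), hZH z.2⟩
    have hpz : (p' zH : G) ∈ Z := by
      rw [hp'coe]
      have h1 : ((p zH : H) : G) = (z : G) * (((p zH : H)⁻¹ * zH : H) : G)⁻¹ := by
        simp [zH]
      rw [h1]
      exact Z.mul_mem z.2 (Z.inv_mem (hAZ (hqmem zH)))
    rw [irrTwist_apply, irrTwist_apply]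
    show γ.1 (p' (h * zH)) * (μ (q (h * zH)) : ℂ) = _
    rw [map_mul, hγc (p' h) ⟨p' zH, hpz⟩, map_mul, map_mul, Units.val_mul]
    have e2 : (μ (j ⟨p' zH, hpz⟩) : ℂ) * (μ (q zH) : ℂ) = (μ z : ℂ) := by
      rw [← Units.val_mul, ← map_mul]
      congr 2
      refine Subtype.ext ?_
      show ((p zH : H) : G) * (((p zH : H)⁻¹ * zH : H) : G) = (z : G)
      rw [← Subgroup.coe_mul, mul_inv_cancel_left]
    show (μ (j ⟨p' zH, hpz⟩) : ℂ) * γ.1 (p' h) * ((μ (q h) : ℂ) * (μ (q zH) : ℂ)) =
      (μ z : ℂ) * (γ.1 (p' h) * (μ (q h) : ℂ))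
    rw [← e2]
    ring

end Cfsg.Agent.H43
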