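import Cfsg.Agent.H43.GlaubermanSolvable
import Cfsg.Agent.H43.SubgroupAction
import Cfsg.Agent.H43.PPrimeDegree
import Cfsg.Agent.H43.CoprimeExt
import Cfsg.Agent.H20.Sylow
import Cfsg.Agent.H84.PSolvable
import Cfsg.Agent.H35.Constrained
import Cfsg.Agent.H44.Inflation
import Cfsg.Agent.H44.NormalDegrees
import Cfsg.Agent.H86.Basic

/-!
# Degrees prime to `p` and degrees prime to `q`
-/

namespace Cfsg.Agent.H43

universe u

variable {G : Type*} [Group G] [Finite G] {p q : ℕ}

/-- A `q`-subgroup of index prime to `q` in `R` has the order of a Sylow subgroup of `R`. -/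
theorem card_eq_sylow_of_not_dvd [hq : Fact q.Prime] {Q R : Subgroup G} (hQR : Q ≤ R)
    (hQ : IsPGroup q Q) (hidx : ¬ q ∣ Q.relIndex R) :
    Nat.card Q = q ^ (Nat.card R).factorization q := by
  obtain ⟨n, hn⟩ := hQ.exists_card_eq
  have h := (Q.subgroupOf R).card_mul_index
  rw [Nat.card_congr (Subgroup.subgroupOfEquivOfLe hQR).toEquiv, hn] at h
  have hne : Q.relIndex R ≠ 0 := fun h0 => hidx (h0 ▸ dvd_zero q)
  rw [hn, ← h, show (Q.subgroupOf R).index = Q.relIndex R from rfl,
    Nat.factorization_mul (pow_ne_zero _ hq.out.ne_zero) hne, Finsupp.add_apply,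
    Nat.factorization_eq_zero_of_not_dvd hidx, hq.out.factorization_pow, Finsupp.single_eq_same,
    add_zero]

omit [Finite G] in
/-- A `p`-group and a `q`-group, one normalising the other, generate a soluble group. -/
theorem isSolvable_sup_of_le_normalizer [Finite G] [Fact p.Prime] [Fact q.Prime]
    {P Q : Subgroup G} (hP : IsPGroup p P) (hQ : IsPGroup q Q)
    (hPQ : P ≤ Subgroup.normalizer (Q : Set G)) : Group.IsSolvable ↥(P ⊔ Q) := by
  haveI : (Q.subgroupOf (P ⊔ Q)).Normal :=
    Subgroup.normal_subgroupOf_of_le_normalizer (sup_le hPQ Subgroup.le_normalizer)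
  have hQ' : IsPGroup q (Q.subgroupOf (P ⊔ Q)) :=
    hQ.comap_of_injective (P ⊔ Q).subtype (P ⊔ Q).subtype_injective
  let f : P →* ↥(P ⊔ Q) ⧸ Q.subgroupOf (P ⊔ Q) :=
    (QuotientGroup.mk' _).comp (Subgroup.inclusion le_sup_left)
  have hf : Function.Surjective f := by
    intro x
    obtain ⟨⟨y, hy⟩, rfl⟩ := QuotientGroup.mk_surjective x
    have hy' : y ∈ ((P ⊔ Q : Subgroup G) : Set G) := hy
    rw [Subgroup.coe_mul_of_left_le_normalizer_right P Q hPQ] at hy'
    obtain ⟨a, ha, b, hb, hab⟩ := Set.mem_mul.mp hy'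
    refine ⟨⟨a, ha⟩, (QuotientGroup.eq.mpr ?_)⟩
    show ((⟨a, _⟩ : ↥(P ⊔ Q))⁻¹ * ⟨y, hy⟩ : ↥(P ⊔ Q)).1 ∈ Q
    show a⁻¹ * y ∈ Q
    simpa [← hab] using hb
  haveI : Group.IsNilpotent P := hP.isNilpotent
  haveI : Group.IsNilpotent (Q.subgroupOf (P ⊔ Q)) := hQ'.isNilpotent
  haveI : Group.IsSolvable (↥(P ⊔ Q) ⧸ Q.subgroupOf (P ⊔ Q)) := solvable_of_surjective hf
  exact solvable_of_ker_le_range (Q.subgroupOf (P ⊔ Q)).subtype
    (QuotientGroup.mk' (Q.subgroupOf (P ⊔ Q))) (by simp)

/-- Every subgroup acts on a normal subgroup. -/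
abbrev normHom (N : Subgroup G) [N.Normal] (A : Subgroup G) : A →* MulAut N :=
  conjHom N A fun a _ n hn => Subgroup.Normal.conj_mem inferInstance n hn a

/-- If the characters of `N` fixed by `P` are fixed by `Q`, then `Q` centralises `C_N(P)`. -/
theorem centralizes_of_invFun [Fact p.Prime] [Fact q.Prime] {P Q N : Subgroup G} [N.Normal]
    (hP : IsPGroup p P) (hQ : IsPGroup q Q) (hPQ : P ≤ Subgroup.normalizer (Q : Set G))
    (hpN : ¬ p ∣ Nat.card N) (hqN : ¬ q ∣ Nat.card N)
    (h : ∀ θ : Cfsg.IrrCharacter N, InvFun (normHom N P) θ.1 → InvFun (normHom N Q) θ.1) :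
    ∀ x ∈ N, x ∈ Subgroup.centralizer (P : Set G) → x ∈ Subgroup.centralizer (Q : Set G) := by
  classical
  set A := P ⊔ Q with hA
  have hAsolv : Group.IsSolvable A := isSolvable_sup_of_le_normalizer hP hQ hPQ
  have hPsolv : Group.IsSolvable P := by haveI := hP.isNilpotent; infer_instance
  obtain ⟨a, hPa⟩ := hP.exists_card_eq
  obtain ⟨b, hQb⟩ := hQ.exists_card_eq
  have hcP : (Nat.card N).Coprime (Nat.card P) := by
    rw [hPa]; exact ((Fact.out : p.Prime).coprime_iff_not_dvd.mpr hpN).symm.pow_right a
  have hcQ : (Nat.card N).Coprime (Nat.card Q) := by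
    rw [hQb]; exact ((Fact.out : q.Prime).coprime_iff_not_dvd.mpr hqN).symm.pow_right b
  have hcA : (Nat.card N).Coprime (Nat.card A) := by
    haveI : (Q.subgroupOf A).Normal :=
      Subgroup.normal_subgroupOf_of_le_normalizer (sup_le hPQ Subgroup.le_normalizer)
    have hsup : P.subgroupOf A ⊔ Q.subgroupOf A = ⊤ := by
      rw [← Subgroup.subgroupOf_sup le_sup_left le_sup_right, Subgroup.subgroupOf_self]
    have hd : Nat.card A ∣ Nat.card P * Nat.card Q := by
      have h1 := H19.card_sup_dvd (Q.subgroupOf A) (P.subgroupOf A)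
      rw [sup_comm, hsup, Subgroup.card_top,
        Nat.card_congr (Subgroup.subgroupOfEquivOfLe (show Q ≤ A from le_sup_right)).toEquiv,
        Nat.card_congr (Subgroup.subgroupOfEquivOfLe (show P ≤ A from le_sup_left)).toEquiv,
        mul_comm] at h1
      exact h1
    exact Nat.Coprime.coprime_dvd_right hd (hcP.mul_right hcQ)
  -- a character fixed by `P` is fixed by `A`
  have hinv : ∀ θ : Cfsg.IrrCharacter N, InvFun (normHom N P) θ.1 → InvFun (normHom N A) θ.1 := by
    intro θ hθ
    have hle : A ≤ H44.inertia N θ.1 := by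
      refine sup_le (fun s hs => ?_) (fun s hs => ?_)
      · exact funext fun n => hθ ⟨s, hs⟩ n
      · exact funext fun n => h θ hθ ⟨s, hs⟩ n
    intro s n
    exact congrFun (hle s.2) n
  -- hence a class fixed by `P` is fixed by `A`
  have hres : ∀ K : ConjClasses N, InvClass (normHom N A) K → InvClass (normHom N P) K :=
    fun K hK s g hg => hK ⟨s, le_sup_left (b := Q) s.2⟩ g hg
  have e1 := card_invFun_eq_card_invClass _ (rfl : Nat.card P = Nat.card P) hPsolv hcP (normHom N P)
  have e2 := card_invFun_eq_card_invClass _ (rfl : Nat.card A = Nat.card A) hAsolv hcA (normHom N A)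
  have e3 : Nat.card {θ : Cfsg.IrrCharacter N // InvFun (normHom N P) θ.1} =
      Nat.card {θ : Cfsg.IrrCharacter N // InvFun (normHom N A) θ.1} :=
    Nat.card_congr (Equiv.subtypeEquivRight fun θ =>
      ⟨hinv θ, fun hθ s g => hθ ⟨s, le_sup_left (b := Q) s.2⟩ g⟩)
  have hclass : ∀ K : ConjClasses N, InvClass (normHom N P) K → InvClass (normHom N A) K := by
    intro K hK
    let f : {K : ConjClasses N // InvClass (normHom N A) K} →
        {K : ConjClasses N // InvClass (normHom N P) K} := fun K => ⟨K.1, hres _ K.2⟩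
    have hf : Function.Bijective f := by
      have : Fintype {K : ConjClasses N // InvClass (normHom N A) K} := Fintype.ofFinite _
      have : Fintype {K : ConjClasses N // InvClass (normHom N P) K} := Fintype.ofFinite _
      refine (Fintype.bijective_iff_injective_and_card f).mpr
        ⟨fun x y hxy => Subtype.ext (congrArg (fun z => z.1) hxy), ?_⟩
      rw [← Nat.card_eq_fintype_card, ← Nat.card_eq_fintype_card, ← e1, ← e2, e3]
    obtain ⟨K', hK'⟩ := hf.2 ⟨K, hK⟩
    have : K'.1 = K := congrArg Subtype.val hK'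
    exact this ▸ K'.2
  -- the fixed points of `P` are covered by conjugates of those of `A`
  set X := N ⊓ Subgroup.centralizer (P : Set G) with hX
  set X₀ : Subgroup X := (Subgroup.centralizer (Q : Set G)).subgroupOf X
  have hXN : X ≤ N := inf_le_left
  have hgd := glaubermanData_of_subgroup N P
    (fun a _ n hn => Subgroup.Normal.conj_mem inferInstance n hn a) (Fact.out : p.Prime) hP hpN X
    rfl hXN
  have hcover : ∀ x : X, ∃ a : X, a⁻¹ * x * a ∈ X₀ := by
    intro x
    have hxP : InvClass (normHom N P) (ConjClasses.mk (Subgroup.inclusion hXN x)) := by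
      intro s g hg
      rw [ConjClasses.mk_eq_mk_iff_isConj] at hg ⊢
      have h1 := (normHom N P s).toMonoidHom.map_isConj hg
      have h2 : normHom N P s (Subgroup.inclusion hXN x) = Subgroup.inclusion hXN x :=
        hgd.fixed_apply s x
      rw [MulEquiv.coe_toMonoidHom, h2] at h1
      exact h1
    have hxA := hclass _ hxP
    letI : MulAction G G := MulAction.compHom G MulAut.conj
    let Y : Set G := {y | ∃ n : N, IsConj (Subgroup.inclusion hXN x) n ∧ (n : G) = y}
    obtain ⟨y, ⟨n, hn, rfl⟩, hy⟩ := H20.exists_fixed_point (A := A) (K := N) (X := G)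
      (fun a _ => by rw [Subgroup.normalizer_eq_top (H := N)]; trivial) hcA.symm (Or.inl hAsolv)
      Y ⟨_, Subgroup.inclusion hXN x, IsConj.refl _, rfl⟩
      (by
        rintro a ha _ ⟨n, hn, rfl⟩
        refine ⟨normHom N A ⟨a, ha⟩ n, ?_, rfl⟩
        have := hxA ⟨a, ha⟩ n (ConjClasses.mk_eq_mk_iff_isConj.mpr hn.symm)
        exact (ConjClasses.mk_eq_mk_iff_isConj.mp this).symm)
      (by
        rintro k hk _ ⟨n, hn, rfl⟩
        refine ⟨⟨k, hk⟩ * n * ⟨k, hk⟩⁻¹, hn.trans (isConj_iff.mpr ⟨⟨k, hk⟩, rfl⟩), rfl⟩)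
      (by
        rintro _ ⟨n, hn, rfl⟩ _ ⟨m, hm, rfl⟩
        obtain ⟨k, hk⟩ := isConj_iff.mp (hn.symm.trans hm)
        exact ⟨k, k.2, by rw [← hk]; rfl⟩)
    have hcen : ∀ s ∈ A, s * (n : G) = (n : G) * s := fun s hs =>
      mul_inv_eq_iff_eq_mul.mp (hy s hs)
    have hnX : (n : G) ∈ X := ⟨n.2, Subgroup.mem_centralizer_iff.mpr fun s hs =>
      hcen s (le_sup_left (b := Q) hs)⟩
    have hconj : IsConj x ⟨n, hnX⟩ := by
      refine hgd.isConj_of_isConj ?_
      exact hn
    obtain ⟨a, ha⟩ := isConj_iff.mp hconj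
    refine ⟨a⁻¹, ?_⟩
    rw [inv_inv, ha]
    exact Subgroup.mem_centralizer_iff.mpr fun s hs => hcen s (le_sup_right (a := P) hs)
  intro x hx hxc
  have htop := H86.eq_top_of_conjugates_cover X₀ hcover
  have : (⟨x, hx, hxc⟩ : X) ∈ X₀ := htop ▸ Subgroup.mem_top _
  exact this

open Pointwise

/-- Conjugation into itself suffices to normalise a finite subgroup. -/
theorem mem_normalizer_of_conj_mem {Q : Subgroup G} {c : G} (h : ∀ y ∈ Q, c * y * c⁻¹ ∈ Q) :
    c ∈ Subgroup.normalizer (Q : Set G) := by
  have hle : Q.map (MulAut.conj c).toMonoidHom ≤ Q := by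
    rintro _ ⟨y, hy, rfl⟩
    exact h y hy
  have heq := Subgroup.eq_of_le_of_card_ge hle
    (le_of_eq (Nat.card_congr (Q.equivMapOfInjective _ (MulAut.conj c).injective).toEquiv))
  rw [Subgroup.mem_normalizer_iff]
  refine fun y => ⟨fun hy => h y hy, fun hy => ?_⟩
  have h1 : c * y * c⁻¹ ∈ Q.map (MulAut.conj c).toMonoidHom := heq.symm ▸ hy
  obtain ⟨z, hz, e⟩ := h1
  have : z = y := (MulAut.conj c).injective (e.trans (MulAut.conj_apply c y).symm)
  exact this ▸ hz

/-- If every character of the `p'`-group `R` fixed by `P` has degree prime to `q`, then `C_R(P)`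
normalises the `P`-invariant Sylow `q`-subgroup `Q`. -/
theorem normalizes_sylow_of_invariant_degrees [Fact p.Prime] [Fact q.Prime] :
    ∀ (n : ℕ) {Γ : Type u} [Group Γ] [Finite Γ] (R P Q : Subgroup Γ) [R.Normal] [Fintype R],
      Nat.card Γ = n → IsPGroup p P → ¬ p ∣ Nat.card R → Cfsg.IsPSolvable q Γ → Q ≤ R →
      IsPGroup q Q → ¬ q ∣ Q.relIndex R → P ≤ Subgroup.normalizer (Q : Set Γ) →
      (∀ χ : Cfsg.IrrCharacter R, InvFun (normHom R P) χ.1 → ¬ q ∣ Cfsg.charDegree χ.1) →
      ∀ c ∈ R, c ∈ Subgroup.centralizer (P : Set Γ) → c ∈ Subgroup.normalizer (Q : Set Γ) := by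
  classical
  intro n
  induction n using Nat.strong_induction_on with
  | _ n ih =>
    intro Γ _ _ R P Q _ _ hn hP hpR hqs hQR hQ hQi hPQ hdeg
    subst hn
    by_cases hR1 : R = ⊥
    · intro c hc _
      rw [hR1, Subgroup.mem_bot] at hc
      rw [hc]; exact one_mem _
    obtain ⟨N, ⟨hNn, hN1, hNR⟩, hmin⟩ :=
      (Set.toFinite {N : Subgroup Γ | N.Normal ∧ N ≠ ⊥ ∧ N ≤ R}).exists_minimal
        ⟨R, inferInstance, hR1, le_rfl⟩
    haveI := hNn
    haveI : Fintype N := Fintype.ofFinite N
    haveI : Fintype (Γ ⧸ N) := Fintype.ofFinite _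
    -- by induction `C_R(P)` normalises `Q ⊔ N`
    set π := QuotientGroup.mk' N with hπdef
    have hπ : Function.Surjective π := QuotientGroup.mk'_surjective N
    have hstep : ∀ c ∈ R, c ∈ Subgroup.centralizer (P : Set Γ) →
        ∀ y ∈ Q, c * y * c⁻¹ ∈ Q ⊔ N := by
      intro c hc hcP y hy
      haveI : (R.map π).Normal := Subgroup.Normal.map inferInstance _ hπ
      haveI : Fintype (R.map π) := Fintype.ofFinite _
      have hlt : Nat.card (Γ ⧸ N) < Nat.card Γ := by
        rw [← N.index_mul_card, ← Subgroup.index_eq_card]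
        exact lt_mul_of_one_lt_right (Nat.pos_of_ne_zero Subgroup.index_ne_zero_of_finite)
          (N.one_lt_card_iff_ne_bot.mpr hN1)
      have h := ih _ hlt (R.map π) (P.map π) (Q.map π) rfl (hP.map π)
        (fun h => hpR (h.trans (Subgroup.card_map_dvd R π)))
        (H84.isPSolvable_of_surjective π hπ hqs) (Subgroup.map_mono hQR) (hQ.map π)
        (fun h => hQi (by
          rw [Subgroup.relIndex_map_map] at h
          refine h.trans ?_
          rw [sup_eq_left.mpr (show π.ker ≤ R by rw [QuotientGroup.ker_mk']; exact hNR)]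
          exact Subgroup.relIndex_dvd_of_le_left R le_sup_left))
        ((Subgroup.map_mono hPQ).trans (Subgroup.le_normalizer_map π))
        (by
          intro ψ hψ
          let f := π.subgroupMap R
          let χ : Cfsg.IrrCharacter R :=
            ⟨fun r => ψ.1 (f r), H44.isIrrCharacter_comp_surjective f
              (π.subgroupMap_surjective R) ψ.2⟩
          have hχ : InvFun (normHom R P) χ.1 := by
            intro s r
            show ψ.1 (f (normHom R P s r)) = ψ.1 (f r)
            rw [← hψ ⟨π s, Subgroup.mem_map_of_mem π s.2⟩ (f r)]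
            congr 1
          have hd : Cfsg.charDegree χ.1 = Cfsg.charDegree ψ.1 := by
            simp [Cfsg.charDegree, χ]
          exact hd ▸ hdeg χ hχ)
        (π c) (Subgroup.mem_map_of_mem π hc) (by
          refine Subgroup.mem_centralizer_iff.mpr ?_
          rintro _ ⟨s, hs, rfl⟩
          rw [← map_mul, ← map_mul, Subgroup.mem_centralizer_iff.mp hcP s hs])
      have h2 := (Subgroup.mem_normalizer_iff.mp h (π y)).mp (Subgroup.mem_map_of_mem π hy)
      rw [← map_inv, ← map_mul, ← map_mul] at h2
      have h3 : c * y * c⁻¹ ∈ (Q.map π).comap π := h2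
      rwa [Subgroup.comap_map_eq, QuotientGroup.ker_mk'] at h3
    -- the minimal normal subgroup is a `q`-group or a `q'`-group
    have hNdich : IsPGroup q N ∨ ¬ q ∣ Nat.card N := by
      haveI : Nontrivial N := (Subgroup.nontrivial_iff_ne_bot N).mpr hN1
      have key : ∀ C : Subgroup N, C.Characteristic → C ≠ ⊥ → C = ⊤ := by
        intro C hC hC1
        haveI := hC
        have hCn : (C.map N.subtype).Normal := ConjAct.normal_of_characteristic_of_normal
        have hC1' : C.map N.subtype ≠ ⊥ := fun h =>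
          hC1 ((Subgroup.map_eq_bot_iff_of_injective _ N.subtype_injective).mp h)
        have hle : N ≤ C.map N.subtype :=
          hmin ⟨hCn, hC1', (Subgroup.map_subtype_le C).trans hNR⟩ (Subgroup.map_subtype_le C)
        refine eq_top_iff.mpr fun x _ => ?_
        obtain ⟨y, hy, e⟩ := hle x.2
        exact (Subtype.ext e : y = x) ▸ hy
      rcases H84.pCore_ne_bot_or_pPrimeCore_ne_bot (H35.isPSolvable_subgroup hqs N) with h | h
      · left
        have h2 := key _ (H19.pCore_characteristic q N) h
        exact (h2 ▸ H19.pCore_isPGroup (G := N) q).of_equiv Subgroup.topEquiv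
      · right
        have h2 := key _ (H19.pPrimeCore_characteristic q N) h
        have h3 := H19.pPrimeCore_coprime (G := N) q
        rw [h2, Subgroup.card_top] at h3
        exact (Fact.out : q.Prime).coprime_iff_not_dvd.mp h3.symm
    intro c hc hcP
    have hQcard := card_eq_sylow_of_not_dvd hQR hQ hQi
    rcases hNdich with hNq | hqN
    · have hsup : IsPGroup q (Q ⊔ N : Subgroup Γ) := hQ.to_sup_of_normal_right hNq
      obtain ⟨m, hm⟩ := hsup.exists_card_eq
      have hle : Nat.card (Q ⊔ N : Subgroup Γ) ≤ Nat.card Q := by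
        rw [hQcard, hm]
        refine Nat.pow_le_pow_right (Fact.out : q.Prime).pos ?_
        have hd : q ^ m ∣ Nat.card R := hm ▸ Subgroup.card_dvd_of_le (sup_le hQR hNR)
        exact ((Fact.out : q.Prime).pow_dvd_iff_le_factorization Nat.card_pos.ne').mp hd
      have hQN : Q ⊔ N = Q := (Subgroup.eq_of_le_of_card_ge le_sup_left hle).symm
      exact mem_normalizer_of_conj_mem fun y hy => hQN ▸ hstep c hc hcP y hy
    · have hpN : ¬ p ∣ Nat.card N := fun h => hpR (h.trans (Subgroup.card_dvd_of_le hNR))
      -- `Q` centralises `C_N(P)`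
      have hQX : ∀ x ∈ N, x ∈ Subgroup.centralizer (P : Set Γ) →
          x ∈ Subgroup.centralizer (Q : Set Γ) := by
        refine centralizes_of_invFun hP hQ hPQ hpN hqN fun θ hθ => ?_
        set N' := N.subgroupOf R
        haveI : Fintype N' := Fintype.ofFinite _
        set θ' : Cfsg.IrrCharacter N' := irrCongr (Subgroup.subgroupOfEquivOfLe hNR) θ
        have hN' : ∀ s : P, ∀ g ∈ N', normHom R P s g ∈ N' := fun s g hg =>
          (inferInstance : N.Normal).conj_mem g hg s
        have hθ' : InvFun (restrictAut (normHom R P) N' hN') θ'.1 := by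
          intro s g
          exact hθ s ⟨(g : R), g.2⟩
        obtain ⟨χ, hχ, hres⟩ := exists_invFun_above _ (rfl : Nat.card P = Nat.card P)
          (by haveI := hP.isNilpotent; infer_instance)
          (by
            obtain ⟨a, ha⟩ := hP.exists_card_eq
            rw [ha]; exact ((Fact.out : p.Prime).coprime_iff_not_dvd.mpr hpR).symm.pow_right a)
          (normHom R P) N' hN' θ' hθ'
        have hci : Cfsg.classInner (fun n : N' => χ.1 n) θ'.1 ≠ 0 := by
          rw [classInner_eq_mult (isCharacter_restr N' χ) θ', Nat.cast_ne_zero]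
          exact hres
        have hT := (dvd_mul_right _ _).trans (H44.degree_mul_index_inertia_dvd N' χ θ' hci)
        set T := R ⊓ H44.inertia N θ.1 with hTdef
        have hTi : ¬ q ∣ T.relIndex R := by
          intro h
          apply hdeg χ hχ
          refine h.trans (dvd_trans (dvd_of_eq ?_) hT)
          show (T.subgroupOf R).index = _
          congr 1
          ext r
          simp only [Subgroup.mem_subgroupOf, hTdef, Subgroup.mem_inf, SetLike.coe_mem, true_and,
            H44.mem_inertia]
          constructor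
          · intro h
            exact funext fun m => congrFun h ⟨(m : R), m.2⟩
          · intro h
            exact funext fun m => congrFun h ⟨⟨m, hNR m.2⟩, m.2⟩
        have hPT : P ≤ Subgroup.normalizer (T : Set Γ) := by
          intro s hs
          refine mem_normalizer_of_conj_mem fun y hy => ⟨(inferInstance : R.Normal).conj_mem y hy.1 s, ?_⟩
          have hsI : s ∈ H44.inertia N θ.1 := funext fun m => hθ ⟨s, hs⟩ m
          exact Subgroup.mul_mem (H44.inertia N θ.1) (Subgroup.mul_mem _ hsI hy.2) (Subgroup.inv_mem _ hsI)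
        have hcop : (Nat.card P).Coprime (Nat.card R) := by
          obtain ⟨a, ha⟩ := hP.exists_card_eq
          rw [ha]; exact ((Fact.out : p.Prime).coprime_iff_not_dvd.mpr hpR).pow_left a
        have hPsolv : Group.IsSolvable P := by haveI := hP.isNilpotent; infer_instance
        obtain ⟨Q', hQ'T, hQ'P, hQ'q, hQ'c⟩ := H20.exists_invariant_sylow_subgroup hPT
          (hcop.coprime_dvd_right (Subgroup.card_dvd_of_le inf_le_left)) (Or.inl hPsolv) q
        have hfac : (Nat.card T).factorization q = (Nat.card R).factorization q := by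
          have h := (T.subgroupOf R).card_mul_index
          rw [Nat.card_congr (Subgroup.subgroupOfEquivOfLe (show T ≤ R from inf_le_left)).toEquiv,
            show (T.subgroupOf R).index = T.relIndex R from rfl] at h
          rw [← h, Nat.factorization_mul Nat.card_pos.ne' (fun h0 => hTi (by rw [h0]; exact dvd_zero q)),
            Finsupp.add_apply, Nat.factorization_eq_zero_of_not_dvd hTi, add_zero]
        rw [hfac] at hQ'c
        obtain ⟨c₀, ⟨hc₀R, hc₀P⟩, hc₀⟩ := H20.invariant_sylow_subgroup_conj
          (fun s _ => by rw [Subgroup.normalizer_eq_top (H := R)]; trivial) hcop (Or.inl hPsolv)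
          hQR (hQ'T.trans inf_le_left) hQcard hQ'c hPQ hQ'P
        have hle : Q ⊔ N ≤ (H44.inertia N θ.1).comap (MulAut.conj c₀).toMonoidHom := by
          refine sup_le (fun y hy => ?_) (fun y hy => ?_)
          · have h : MulAut.conj c₀ y ∈ Q' := hc₀ ▸ Subgroup.smul_mem_pointwise_smul y _ Q hy
            exact (hQ'T h).2
          · exact H44.le_inertia N (H26.irr_isClassFunction θ)
              ((inferInstance : N.Normal).conj_mem y hy c₀)
        intro s m
        have hy' := hle (hstep c₀⁻¹ (Subgroup.inv_mem _ hc₀R) (Subgroup.inv_mem _ hc₀P) s s.2)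
        have hsI : (s : Γ) ∈ H44.inertia N θ.1 := by
          simpa [mul_assoc] using hy'
        exact congrFun hsI m
      -- the conjugate of `Q` by `c` is a conjugate by a fixed point of `Q ⊔ N`
      set K := Q ⊔ N with hK
      have hKR : K ≤ R := sup_le hQR hNR
      have hPK : P ≤ Subgroup.normalizer (K : Set Γ) := by
        intro s hs
        refine mem_normalizer_of_conj_mem fun y hy => ?_
        have h1 : K ≤ K.comap (MulAut.conj s).toMonoidHom := sup_le
          (fun z hz => Subgroup.mem_sup_left ((Subgroup.mem_normalizer_iff.mp (hPQ hs) z).mp hz))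
          (fun z hz => Subgroup.mem_sup_right ((inferInstance : N.Normal).conj_mem z hz s))
        exact h1 hy
      have hQK : ¬ q ∣ Q.relIndex K := fun h =>
        hQi (h.trans (Dvd.intro _ (Subgroup.relIndex_mul_relIndex Q K R le_sup_left hKR)))
      have hQKcard := card_eq_sylow_of_not_dvd (show Q ≤ K from le_sup_left) hQ hQK
      set Q₁ := Q.map (MulAut.conj c).toMonoidHom with hQ₁
      have hQ₁K : Q₁ ≤ K := by
        rintro _ ⟨y, hy, rfl⟩
        exact hstep c hc hcP y hy
      have hQ₁c : Nat.card Q₁ = Nat.card Q :=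
        (Nat.card_congr (Q.equivMapOfInjective _ (MulAut.conj c).injective).toEquiv).symm
      have hQ₁P : P ≤ Subgroup.normalizer (Q₁ : Set Γ) := by
        intro s hs
        refine mem_normalizer_of_conj_mem ?_
        rintro _ ⟨y, hy, rfl⟩
        refine ⟨s * y * s⁻¹, (Subgroup.mem_normalizer_iff.mp (hPQ hs) y).mp hy, ?_⟩
        have e := Subgroup.mem_centralizer_iff.mp hcP s hs
        simp only [MulEquiv.coe_toMonoidHom, MulAut.conj_apply]
        calc c * (s * y * s⁻¹) * c⁻¹ = (c * s) * y * (c * s)⁻¹ := by group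
          _ = (s * c) * y * (s * c)⁻¹ := by rw [e]
          _ = s * (c * y * c⁻¹) * s⁻¹ := by group
      have hcopK : (Nat.card P).Coprime (Nat.card K) := by
        obtain ⟨a, ha⟩ := hP.exists_card_eq
        rw [ha]
        exact (((Fact.out : p.Prime).coprime_iff_not_dvd.mpr hpR).coprime_dvd_right
          (Subgroup.card_dvd_of_le hKR)).pow_left a
      obtain ⟨k, ⟨hkK, hkP⟩, hk⟩ := H20.invariant_sylow_subgroup_conj hPK hcopK
        (Or.inl (by haveI := hP.isNilpotent; infer_instance)) (show Q ≤ K from le_sup_left) hQ₁K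
        hQKcard (hQ₁c.trans hQKcard) hPQ hQ₁P
      obtain ⟨a, ha, m, hm, rfl⟩ := Subgroup.mem_sup_of_normal_right.mp hkK
      have hdisj : ∀ z ∈ Q, z ∈ N → z = 1 := by
        intro z hzQ hzN
        obtain ⟨j, hj⟩ := hQ.exists_card_eq
        refine orderOf_eq_one_iff.mp (Nat.eq_one_of_dvd_coprimes
          (a := q ^ j) (b := Nat.card N) ?_ ?_ ?_)
        · exact ((Fact.out : q.Prime).coprime_iff_not_dvd.mpr hqN).pow_left j
        · rw [← hj]; exact Subgroup.orderOf_dvd_natCard Q hzQ
        · exact Subgroup.orderOf_dvd_natCard N hzN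
      have hmP : m ∈ Subgroup.centralizer (P : Set Γ) := by
        refine Subgroup.mem_centralizer_iff.mpr fun s hs => ?_
        have e := Subgroup.mem_centralizer_iff.mp hkP s hs
        have h1 : (s * a * s⁻¹)⁻¹ * a = (s * m * s⁻¹) * m⁻¹ := by
          calc (s * a * s⁻¹)⁻¹ * a = s * a⁻¹ * s⁻¹ * (a * m) * m⁻¹ := by group
            _ = s * a⁻¹ * s⁻¹ * ((s * (a * m)) * s⁻¹) * m⁻¹ := by rw [e]; group
            _ = (s * m * s⁻¹) * m⁻¹ := by group
        have h2 := hdisj _ (mul_mem (inv_mem ((Subgroup.mem_normalizer_iff.mp (hPQ hs) a).mp ha)) ha)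
          (h1 ▸ mul_mem ((inferInstance : N.Normal).conj_mem m hm s) (inv_mem hm))
        rw [h1, mul_inv_eq_one] at h2
        exact mul_inv_eq_iff_eq_mul.mp h2
      have hmQ := Subgroup.mem_centralizer_iff.mp (hQX m hm hmP)
      refine mem_normalizer_of_conj_mem fun y hy => ?_
      have hy1 : c * y * c⁻¹ ∈ Q₁ := ⟨y, hy, rfl⟩
      rw [← hk] at hy1
      obtain ⟨z, hz, e⟩ := hy1
      have e' : a * m * z * (a * m)⁻¹ = c * y * c⁻¹ := e
      rw [← e', show a * m * z * (a * m)⁻¹ = a * (m * z) * m⁻¹ * a⁻¹ by group, ← hmQ z hz,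
        show a * (z * m) * m⁻¹ * a⁻¹ = a * z * a⁻¹ by group]
      exact mul_mem (mul_mem ha hz) (inv_mem ha)

/-- The order of the join of a normal subgroup and a subgroup meeting it trivially. -/
theorem card_sup_eq_mul_of_inf_eq_bot (U A : Subgroup G) [U.Normal] (h : U ⊓ A = ⊥) :
    Nat.card (U ⊔ A : Subgroup G) = Nat.card U * Nat.card A := by
  have h2 := (U.subgroupOf (U ⊔ A)).card_mul_index
  rw [Nat.card_congr (Subgroup.subgroupOfEquivOfLe le_sup_left).toEquiv,
    show (U.subgroupOf (U ⊔ A)).index = U.relIndex (U ⊔ A) from rfl, sup_comm,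
    Subgroup.relIndex_sup_right, ← Subgroup.inf_relIndex_right, h,
    Subgroup.relIndex_bot_left] at h2
  rw [sup_comm]
  exact h2.symm

omit [Finite G] in
/-- A character of the normal subgroup fixed by a complement extends. -/
theorem exists_hom_sup (U A : Subgroup G) [U.Normal] (h : U ⊓ A = ⊥) (f : U →* ℂˣ)
    (hf : ∀ a : A, ∀ u : U, f (MulAut.conjNormal (H := U) a u) = f u) :
    ∃ g : ↥(U ⊔ A) →* ℂˣ, ∀ u : U, g ⟨u, Subgroup.mem_sup_left u.2⟩ = f u := by
  classical
  have hex : ∀ x : ↥(U ⊔ A), ∃ ua : U × A, (ua.1 : G) * ua.2 = x := fun x => by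
    obtain ⟨u, hu, a, ha, e⟩ := Subgroup.mem_sup_of_normal_left.mp x.2
    exact ⟨(⟨u, hu⟩, ⟨a, ha⟩), e⟩
  choose d hd using hex
  have huniq : ∀ (x : ↥(U ⊔ A)) (u : U) (a : A), (u : G) * a = x → (d x).1 = u := by
    intro x u a e
    have h1 : ((d x).1 : G) * (d x).2 = (u : G) * a := (hd x).trans e.symm
    have h2 : ((u : G)⁻¹ * (d x).1) ∈ U ⊓ A := by
      refine ⟨Subgroup.mul_mem U (Subgroup.inv_mem U u.2) (d x).1.2, ?_⟩
      have : (u : G)⁻¹ * (d x).1 = a * ((d x).2 : G)⁻¹ := by
        rw [eq_mul_inv_iff_mul_eq, mul_assoc, h1, inv_mul_cancel_left]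
      rw [this]
      exact Subgroup.mul_mem A a.2 (Subgroup.inv_mem A (d x).2.2)
    rw [h, Subgroup.mem_bot, inv_mul_eq_one] at h2
    exact Subtype.ext h2.symm
  refine ⟨MonoidHom.mk' (fun x => f (d x).1) fun x y => ?_, fun u => ?_⟩
  · show f (d (x * y)).1 = f (d x).1 * f (d y).1
    rw [huniq (x * y) ((d x).1 * MulAut.conjNormal (H := U) (d x).2 (d y).1) ((d x).2 * (d y).2) ?_, map_mul, hf]
    simp only [Subgroup.coe_mul, MulAut.conjNormal_apply]
    rw [← hd x, ← hd y]
    group
  · show f (d _).1 = f u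
    rw [huniq ⟨(u : G), Subgroup.mem_sup_left u.2⟩ u 1 (by simp)]

/-- If every irreducible character of degree prime to `p` has degree prime to `q`, then `q` does not
divide the index of `O_{p'}(G)`, for `p`- and `q`-soluble `G`. -/
theorem not_dvd_index_of_degrees [Fact p.Prime] [Fact q.Prime] (hpq : p ≠ q) :
    ∀ (n : ℕ) {G : Type u} [Group G] [Finite G], Nat.card G = n →
      Cfsg.IsPSolvable p G → Cfsg.IsPSolvable q G →
      (∀ χ : Cfsg.IrrCharacter G, ¬ p ∣ Cfsg.charDegree χ.1 → ¬ q ∣ Cfsg.charDegree χ.1) →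
      ¬ q ∣ (Cfsg.pPrimeCore p G).index := by
  classical
  intro n
  induction n using Nat.strong_induction_on with
  | _ n ih =>
    intro G _ _ hn hps hqs hdeg
    subst hn
    haveI := Fintype.ofFinite G
    have hpas : ∀ (N : Subgroup G) [N.Normal] (χ : Cfsg.IrrCharacter (G ⧸ N)),
        ¬ p ∣ Cfsg.charDegree χ.1 → ¬ q ∣ Cfsg.charDegree χ.1 := by
      intro N _ χ hχ
      haveI := Fintype.ofFinite (G ⧸ N)
      rw [← H44.charDegree_inflate N χ] at hχ ⊢
      exact hdeg _ hχ
    have hquot : ∀ (N : Subgroup G) [N.Normal], N ≠ ⊥ →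
        ¬ q ∣ (Cfsg.pPrimeCore p (G ⧸ N)).index := by
      intro N _ hN
      refine ih _ ?_ rfl (H84.isPSolvable_of_surjective _ (QuotientGroup.mk'_surjective N) hps)
        (H84.isPSolvable_of_surjective _ (QuotientGroup.mk'_surjective N) hqs) (hpas N)
      rw [← N.index_mul_card, ← Subgroup.index_eq_card]
      exact lt_mul_of_one_lt_right (Nat.pos_of_ne_zero Subgroup.index_ne_zero_of_finite)
        (N.one_lt_card_iff_ne_bot.mpr hN)
    haveI := H19.pPrimeCore_normal p G
    by_cases hcore : Cfsg.pPrimeCore p G = ⊥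
    swap
    · have h := hquot _ hcore
      rwa [H19.pPrimeCore_quotient_pPrimeCore, Subgroup.index_bot, ← Subgroup.index_eq_card] at h
    rw [hcore, Subgroup.index_bot]
    rcases subsingleton_or_nontrivial G with hG | hG
    · rw [Nat.card_eq_one_iff_unique.mpr ⟨hG, inferInstance⟩]
      exact (Fact.out : q.Prime).not_dvd_one
    -- a minimal normal subgroup
    obtain ⟨U, ⟨hUn, hU1⟩, hmin⟩ :=
      (Set.toFinite {N : Subgroup G | N.Normal ∧ N ≠ ⊥}).exists_minimal
        ⟨⊤, inferInstance, top_ne_bot⟩
    haveI := hUn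
    haveI : Nontrivial U := (Subgroup.nontrivial_iff_ne_bot U).mpr hU1
    have key : ∀ C : Subgroup U, C.Characteristic → C = ⊥ ∨ C = ⊤ := by
      intro C hC
      haveI := hC
      rcases eq_or_ne C ⊥ with hC1 | hC1
      · exact Or.inl hC1
      · refine Or.inr (eq_top_iff.mpr fun x _ => ?_)
        have hC1' : C.map U.subtype ≠ ⊥ := fun h =>
          hC1 ((Subgroup.map_eq_bot_iff_of_injective _ U.subtype_injective).mp h)
        have hle : U ≤ C.map U.subtype :=
          hmin ⟨ConjAct.normal_of_characteristic_of_normal, hC1'⟩ (Subgroup.map_subtype_le C)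
        obtain ⟨y, hy, e⟩ := hle x.2
        exact (Subtype.ext e : y = x) ▸ hy
    have hUp : IsPGroup p U := by
      rcases H84.pCore_ne_bot_or_pPrimeCore_ne_bot (H35.isPSolvable_subgroup hps U) with h | h
      · have h2 := (key _ (H19.pCore_characteristic p U)).resolve_left h
        exact (h2 ▸ H19.pCore_isPGroup (G := U) p).of_equiv Subgroup.topEquiv
      · exfalso
        have h2 := (key _ (H19.pPrimeCore_characteristic p U)).resolve_left h
        have h3 := H19.pPrimeCore_coprime (G := U) p
        rw [h2, Subgroup.card_top] at h3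
        exact hU1 (le_bot_iff.mp (hcore ▸ H19.le_pPrimeCore hUn h3))
    have hUsolv : Group.IsSolvable U := by haveI := hUp.isNilpotent; infer_instance
    have hcomm : ∀ a b : U, a * b = b * a := by
      intro a b
      rcases key (commutator U) inferInstance with h | h
      · exact mul_inv_eq_iff_eq_mul.mp (by
          have h1 : a * b * a⁻¹ * b⁻¹ ∈ commutator U :=
            Subgroup.commutator_mem_commutator (Subgroup.mem_top a) (Subgroup.mem_top b)
          rw [h, Subgroup.mem_bot] at h1
          exact mul_inv_eq_one.mp h1)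
      · exact absurd h (Group.IsSolvable.commutator_lt_top_of_nontrivial U).ne
    obtain ⟨m, hm⟩ := hUp.exists_card_eq
    -- the preimage of the `p'`-core of the quotient, and a complement
    haveI := H19.pPrimeCore_normal p (G ⧸ U)
    set K := (Cfsg.pPrimeCore p (G ⧸ U)).comap (QuotientGroup.mk' U) with hK
    haveI hKn : K.Normal := Subgroup.Normal.comap inferInstance _
    have hUK : U ≤ K := (QuotientGroup.ker_mk' U).symm.le.trans (Subgroup.ker_le_comap _ _)
    have hKi : ¬ q ∣ K.index := by
      rw [hK, Subgroup.index_comap_of_surjective _ (QuotientGroup.mk'_surjective U)]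
      exact hquot U hU1
    have hqc : (Nat.card (Cfsg.pPrimeCore p (G ⧸ U))).Coprime p := H19.pPrimeCore_coprime p
    have hidx : (U.subgroupOf K).index = Nat.card (Cfsg.pPrimeCore p (G ⧸ U)) := by
      change U.relIndex K = _
      have : U = (⊥ : Subgroup (G ⧸ U)).comap (QuotientGroup.mk' U) := by
        rw [MonoidHom.comap_bot, QuotientGroup.ker_mk']
      conv_lhs => rw [this]
      rw [Subgroup.relIndex_comap, hK, Subgroup.map_comap_eq_self_of_surjective
        (QuotientGroup.mk'_surjective U), Subgroup.relIndex_bot_left]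
    have hco : (Nat.card (U.subgroupOf K)).Coprime (U.subgroupOf K).index := by
      rw [Nat.card_congr (Subgroup.subgroupOfEquivOfLe hUK).toEquiv, hidx, hm]
      exact hqc.symm.pow_left m
    obtain ⟨H', hH'⟩ := Subgroup.exists_right_complement'_of_coprime hco
    have hH'card : Nat.card H' = Nat.card (Cfsg.pPrimeCore p (G ⧸ U)) := by
      rw [← hidx, hH'.symm.index_eq_card]
    set R := H'.map K.subtype with hR
    have hRK : R ≤ K := Subgroup.map_subtype_le _
    have hpR : ¬ p ∣ Nat.card R := by
      rw [hR, ← Nat.card_congr (H'.equivMapOfInjective _ K.subtype_injective).toEquiv, hH'card]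
      exact (Fact.out : p.Prime).coprime_iff_not_dvd.mp hqc.symm
    have hsup : U ⊔ R = K := by
      have := congrArg (Subgroup.map K.subtype) hH'.sup_eq_top
      rwa [Subgroup.map_sup, Subgroup.map_subgroupOf_eq_of_le hUK, ← MonoidHom.range_eq_map,
        Subgroup.range_subtype] at this
    have hUR : U ⊓ R = ⊥ := by
      rw [eq_bot_iff]
      rintro _ ⟨hxU, y, hy, rfl⟩
      have : y ∈ U.subgroupOf K ⊓ H' := ⟨hxU, hy⟩
      rw [hH'.disjoint.eq_bot, Subgroup.mem_bot] at this
      rw [this, map_one]; exact one_mem _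
    set NR := Subgroup.normalizer (R : Set G) with hNR
    have hfr : U ⊔ NR = ⊤ := by
      rw [eq_top_iff]
      intro g _
      let a : MulAut K := MulAut.conjNormal g
      have hc : Nat.card (H'.map a.toMonoidHom) = Nat.card H' :=
        (Nat.card_congr (H'.equivMapOfInjective _ a.injective).toEquiv).symm
      obtain ⟨k, hk⟩ := H19.sz_conj_of_solvable (U.subgroupOf K)
        (by haveI := (hUp.comap_of_injective K.subtype K.subtype_injective).isNilpotent
            exact (inferInstance : Group.IsSolvable (U.comap K.subtype))) hco (H := H')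
        (K := H'.map a.toMonoidHom) (by rw [hH'card, hidx]) (by rw [hc, hH'card, hidx])
      have hn : (k : G)⁻¹ * g ∈ NR := by
        have hmap : R.map (MulAut.conj ((k : G)⁻¹ * g)).toMonoidHom = R := by
          have e : (MulAut.conj ((k : G)⁻¹ * g)).toMonoidHom.comp K.subtype
              = K.subtype.comp ((MulAut.conj k⁻¹).toMonoidHom.comp a.toMonoidHom) := by
            ext y
            simp [a, MulAut.conjNormal_apply, mul_assoc]
          rw [hR, Subgroup.map_map, e, ← Subgroup.map_map, ← Subgroup.map_map, ← hk]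
          congr 1
          show MulAut.conj k⁻¹ • (MulAut.conj k • H') = H'
          rw [← mul_smul, ← map_mul, inv_mul_cancel, map_one, one_smul]
        exact mem_normalizer_of_conj_mem fun y hy => hmap.le ⟨y, hy, rfl⟩
      have hKle : K ≤ U ⊔ NR := hsup ▸ sup_le le_sup_left
        (Subgroup.le_normalizer.trans le_sup_right)
      have := mul_mem (hKle k.2) (Subgroup.mem_sup_right (S := U) hn)
      rwa [mul_inv_cancel_left] at this
    have hnormal : ∀ X : Subgroup G, (∀ u ∈ U, ∀ x ∈ X, u * x * u⁻¹ ∈ X) →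
        (∀ g ∈ NR, ∀ x ∈ X, g * x * g⁻¹ ∈ X) → X.Normal := by
      intro X h1 h2
      refine ⟨fun x hx g => ?_⟩
      obtain ⟨u, hu, b, hb, rfl⟩ := Subgroup.mem_sup_of_normal_left.mp
        (hfr.symm ▸ Subgroup.mem_top g : g ∈ U ⊔ NR)
      rw [show u * b * x * (u * b)⁻¹ = u * (b * x * b⁻¹) * u⁻¹ by group]
      exact h1 u hu _ (h2 b hb x hx)
    have hCR : R ⊓ Subgroup.centralizer (U : Set G) = ⊥ := by
      have hnrm : (R ⊓ Subgroup.centralizer (U : Set G)).Normal := by
        refine hnormal _ (fun u hu x hx => ?_) (fun g hg x hx => ⟨?_, ?_⟩)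
        · rw [Subgroup.mem_centralizer_iff.mp hx.2 u hu, mul_inv_cancel_right]
          exact hx
        · exact (Subgroup.mem_normalizer_iff.mp hg x).mp hx.1
        · exact Subgroup.Normal.conj_mem inferInstance x hx.2 g
      refine le_bot_iff.mp (hcore ▸ H19.le_pPrimeCore hnrm ?_)
      exact ((Fact.out : p.Prime).coprime_iff_not_dvd.mpr hpR).symm.coprime_dvd_left
        (Subgroup.card_dvd_of_le inf_le_left)
    intro hqG
    have hqK : q ∣ Nat.card K := by
      rw [← K.card_mul_index] at hqG
      exact ((Fact.out : q.Prime).dvd_mul.mp hqG).resolve_right hKi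
    have hcardK : Nat.card K = Nat.card U * Nat.card R := by
      rw [← hsup]; exact card_sup_eq_mul_of_inf_eq_bot U R hUR
    have hqR : q ∣ Nat.card R := by
      rw [hcardK, hm] at hqK
      refine ((Fact.out : q.Prime).dvd_mul.mp hqK).resolve_left fun h => hpq ?_
      exact ((Nat.prime_dvd_prime_iff_eq Fact.out Fact.out).mp
        ((Fact.out : q.Prime).dvd_of_dvd_pow h)).symm
    have hUN : U ⊓ NR = ⊥ := by
      have hnrm : (U ⊓ NR).Normal := by
        refine hnormal _ (fun u hu x hx => ?_) (fun g hg x hx => ⟨?_, ?_⟩)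
        · have h := hcomm ⟨u, hu⟩ ⟨x, hx.1⟩
          rw [show u * x = x * u from congrArg Subtype.val h, mul_inv_cancel_right]
          exact hx
        · exact hUn.conj_mem x hx.1 g
        · exact Subgroup.mul_mem NR (Subgroup.mul_mem NR hg hx.2) (Subgroup.inv_mem NR hg)
      by_contra hne
      have hUle : U ≤ NR := le_trans (hmin ⟨hnrm, hne⟩ inf_le_left) inf_le_right
      have hRC : R ≤ R ⊓ Subgroup.centralizer (U : Set G) := by
        refine le_inf le_rfl fun r hr => Subgroup.mem_centralizer_iff.mpr fun u hu => ?_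
        have h1 : u * r * u⁻¹ * r⁻¹ ∈ U ⊓ R := by
          refine ⟨?_, Subgroup.mul_mem R ((Subgroup.mem_normalizer_iff.mp (hUle hu) r).mp hr) (Subgroup.inv_mem R hr)⟩
          rw [show u * r * u⁻¹ * r⁻¹ = u * (r * u⁻¹ * r⁻¹) by group]
          exact mul_mem hu (hUn.conj_mem _ (inv_mem hu) r)
        rw [hUR, Subgroup.mem_bot, mul_inv_eq_one] at h1
        exact mul_inv_eq_iff_eq_mul.mp h1
      rw [hCR, le_bot_iff] at hRC
      rw [hRC, Subgroup.card_bot] at hqR
      exact (Fact.out : q.Prime).not_dvd_one hqR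
    -- inside the normaliser of `R`
    haveI : Fintype NR := Fintype.ofFinite _
    obtain ⟨P₀⟩ : Nonempty (Sylow p NR) := inferInstance
    set R' := R.subgroupOf NR with hR'
    haveI hR'n : R'.Normal := Subgroup.normal_in_normalizer
    haveI : Fintype R' := Fintype.ofFinite _
    have hR'c : Nat.card R' = Nat.card R :=
      Nat.card_congr (Subgroup.subgroupOfEquivOfLe Subgroup.le_normalizer).toEquiv
    have hR'deg : ∀ χ : Cfsg.IrrCharacter R',
        InvFun (normHom R' (P₀ : Subgroup NR)) χ.1 → ¬ q ∣ Cfsg.charDegree χ.1 := by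
      intro χ hχ hqd
      set J := R' ⊔ (P₀ : Subgroup NR)
      set R'' := R'.subgroupOf J
      haveI : Fintype J := Fintype.ofFinite _
      haveI : Fintype R'' := Fintype.ofFinite _
      set θ := irrCongr (Subgroup.subgroupOfEquivOfLe (show R' ≤ J from le_sup_left)) χ
      have hJI : J ≤ H44.inertia R' χ.1 :=
        sup_le (H44.le_inertia R' (H26.irr_isClassFunction χ))
          (fun s hs => funext fun n => hχ ⟨s, hs⟩ n)
      have hθd : Cfsg.charDegree θ.1 = Cfsg.charDegree χ.1 := charDegree_irrCongr _ _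
      have hpd : ∀ d, d ∣ Nat.card R' → Nat.Coprime R''.index d := by
        intro d hd
        obtain ⟨k, hk⟩ := P₀.2.exists_card_eq
        have h1 : R''.index ∣ p ^ k := by
          rw [← hk]
          show R'.relIndex J ∣ _
          rw [show J = (P₀ : Subgroup NR) ⊔ R' from sup_comm _ _, Subgroup.relIndex_sup_right]
          exact Subgroup.relIndex_dvd_card _ _
        refine Nat.Coprime.coprime_dvd_left h1 (Nat.Coprime.pow_left k ?_)
        exact ((Fact.out : p.Prime).coprime_iff_not_dvd.mpr fun h =>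
          hpR (hR'c ▸ h.trans hd))
      have hR''c : Nat.card R'' = Nat.card R' :=
        Nat.card_congr (Subgroup.subgroupOfEquivOfLe (show R' ≤ J from le_sup_left)).toEquiv
      obtain ⟨χ₁, hχ₁, -⟩ := exists_coprime_ext (N := R'') θ (fun x => Subtype.ext (funext fun n => by
          have h := congrFun (hJI x.2) ⟨((n : J) : NR), n.2⟩
          exact h))
        (Nat.Coprime.mul_right (hpd _ (by
            obtain ⟨f, -, ho⟩ := exists_detHom (H26.irr_isCharacter θ)
            rw [ho]
            refine orderOf_dvd_of_pow_eq_one (MonoidHom.ext fun g => ?_)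
            rw [MonoidHom.pow_apply, ← map_pow, ← hR''c, pow_card_eq_one', map_one,
              MonoidHom.one_apply]))
          (hpd _ (hR''c ▸ H44.charDegree_dvd_card θ)))
      have hd1 : Cfsg.charDegree χ₁.1 = Cfsg.charDegree θ.1 := by
        simp only [Cfsg.charDegree]
        rw [← hχ₁ 1, Subgroup.coe_one]
      have hpχ₁ : ¬ p ∣ Cfsg.charDegree χ₁.1 := by
        rw [hd1, hθd]
        exact fun h => hpR (hR'c ▸ h.trans (H44.charDegree_dvd_card χ))
      have hpJ : ¬ p ∣ J.index := fun h =>
        P₀.not_dvd_index (h.trans (Subgroup.index_dvd_of_le le_sup_right))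
      obtain ⟨ψ, hψd, hψ⟩ := exists_above_not_dvd J χ₁ hpJ hpχ₁
      have hψχ : Cfsg.classInner (fun n : R' => ψ.1 n) χ.1 ≠ 0 := by
        have hc : Cfsg.IsCharacter R' (fun n : R' => ψ.1 n) :=
          H26.isCharacter_comp (H26.irr_isCharacter ψ) R'.subtype
        rw [classInner_eq_mult hc χ, Nat.cast_ne_zero]
        have h := mult_comp (Subgroup.inclusion (show R' ≤ J from le_sup_left))
          (φ := fun h : J => ψ.1 h) (H26.isCharacter_comp (H26.irr_isCharacter ψ) J.subtype) χ
        intro h0
        have h0' : mult (fun d : R' => ψ.1 ((Subgroup.inclusion (show R' ≤ J from le_sup_left) d : J) : NR)) χ = 0 := h0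
        rw [h, Finset.sum_eq_zero_iff] at h0'
        rcases mul_eq_zero.mp (h0' χ₁ (Finset.mem_univ _)) with h1 | h1
        · exact hψ h1
        · have h2 : (fun d : R' => χ₁.1 (Subgroup.inclusion (show R' ≤ J from le_sup_left) d)) = χ.1 := by
            funext d
            exact hχ₁ ⟨⟨d, Subgroup.mem_sup_left d.2⟩, d.2⟩
          rw [h2] at h1
          have h3 := classInner_eq_mult (H26.irr_isCharacter χ) χ
          rw [H57.irr_inner_self χ.2, h1] at h3
          simp at h3
      have hdvd := (dvd_mul_left _ _).trans (H44.degree_mul_index_inertia_dvd R' ψ χ hψχ)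
      -- `ψ` is a character of `G`
      have hf : Function.Bijective ((QuotientGroup.mk' U).comp NR.subtype) := by
        constructor
        · rw [← MonoidHom.ker_eq_bot_iff, eq_bot_iff]
          intro x hx
          have h : (x : G) ∈ U ⊓ NR := ⟨(QuotientGroup.eq_one_iff _).mp hx, x.2⟩
          rw [hUN, Subgroup.mem_bot] at h
          exact Subgroup.mem_bot.mpr (Subtype.ext h)
        · intro y
          obtain ⟨g, rfl⟩ := QuotientGroup.mk_surjective y
          obtain ⟨u, hu, b, hb, rfl⟩ := Subgroup.mem_sup_of_normal_left.mp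
            (hfr.symm ▸ Subgroup.mem_top g : g ∈ U ⊔ NR)
          refine ⟨⟨b, hb⟩, ?_⟩
          show ((b : G) : G ⧸ U) = _
          rw [QuotientGroup.mk_mul, (QuotientGroup.eq_one_iff u).mpr hu, one_mul]
      let e := MulEquiv.ofBijective _ hf
      have hd2 : Cfsg.charDegree (irrCongr e.symm ψ).1 = Cfsg.charDegree ψ.1 :=
        charDegree_irrCongr _ _
      exact hpas U (irrCongr e.symm ψ) (hd2 ▸ hψd) (hd2 ▸ hqd.trans hdvd)
    have hcop : (Nat.card (P₀ : Subgroup NR)).Coprime (Nat.card R') := by
      obtain ⟨k, hk⟩ := P₀.2.exists_card_eq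
      rw [hk]
      exact ((Fact.out : p.Prime).coprime_iff_not_dvd.mpr (hR'c.symm ▸ hpR)).pow_left k
    have hP₀solv : Group.IsSolvable (P₀ : Subgroup NR) := by
      haveI := P₀.2.isNilpotent; infer_instance
    have hP₀R : (P₀ : Subgroup NR) ≤ Subgroup.normalizer (R' : Set NR) := by
      rw [Subgroup.normalizer_eq_top (H := R')]; exact le_top
    obtain ⟨Q, hQR, hQP, hQq, hQc⟩ :=
      H20.exists_invariant_sylow_subgroup hP₀R hcop (Or.inl hP₀solv) q
    have hQi : ¬ q ∣ Q.relIndex R' := by
      have h := (Q.subgroupOf R').card_mul_index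
      rw [Nat.card_congr (Subgroup.subgroupOfEquivOfLe hQR).toEquiv, hQc,
        show (Q.subgroupOf R').index = Q.relIndex R' from rfl] at h
      intro hd
      have := mul_dvd_mul (dvd_refl (q ^ (Nat.card R').factorization q)) hd
      rw [h, ← pow_succ] at this
      exact Nat.pow_succ_factorization_not_dvd Nat.card_pos.ne' Fact.out this
    have hCQ := normalizes_sylow_of_invariant_degrees _ R' (P₀ : Subgroup NR) Q rfl P₀.2
      (hR'c.symm ▸ hpR) (H35.isPSolvable_subgroup hqs NR) hQR hQq hQi hQP hR'deg
    -- a linear character of `U` fixed by `P₀` is fixed by `Q`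
    set A := (P₀ : Subgroup NR).map NR.subtype with hA
    haveI : Fintype U := Fintype.ofFinite _
    have hfix : ∀ f : U →* ℂˣ, (∀ s ∈ (P₀ : Subgroup NR), ∀ u : U, f (MulAut.conjNormal (H := U) (s : G) u) = f u) →
        ∀ y ∈ Q, ∀ u : U, f (MulAut.conjNormal (H := U) (y : G) u) = f u := by
      intro f hf
      have hUA : U ⊓ A = ⊥ :=
        le_bot_iff.mp ((inf_le_inf_left U (Subgroup.map_subtype_le _)).trans hUN.le)
      set J := U ⊔ A with hJ
      obtain ⟨g, hg⟩ : ∃ g : J →* ℂˣ, ∀ u : U, g ⟨u, Subgroup.mem_sup_left u.2⟩ = f u :=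
        exists_hom_sup U A hUA f (by
        rintro ⟨_, s, hs, rfl⟩ u
        exact hf s hs u)
      haveI : Fintype J := Fintype.ofFinite _
      have hJi : ¬ p ∣ J.index := by
        have h1 : Nat.card J = Nat.card U * Nat.card A := card_sup_eq_mul_of_inf_eq_bot U A hUA
        have h2 : Nat.card G = Nat.card U * Nat.card NR := by
          rw [← Subgroup.card_top, ← hfr]; exact card_sup_eq_mul_of_inf_eq_bot U NR hUN
        have h3 : Nat.card A = Nat.card (P₀ : Subgroup NR) :=
          (Nat.card_congr ((P₀ : Subgroup NR).equivMapOfInjective _ NR.subtype_injective).toEquiv).symm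
        have h4 : J.index = (P₀ : Subgroup NR).index := by
          have e := J.card_mul_index
          rw [h1, h2, h3, ← (P₀ : Subgroup NR).card_mul_index] at e
          have hpos : 0 < Nat.card U * Nat.card (P₀ : Subgroup NR) :=
            Nat.mul_pos Nat.card_pos Nat.card_pos
          exact Nat.eq_of_mul_eq_mul_left hpos (by rw [e]; ring)
        rw [h4]; exact P₀.not_dvd_index
      set η : Cfsg.IrrCharacter J := ⟨_, H26.isIrrCharacter_hom g⟩
      have hη : ¬ p ∣ Cfsg.charDegree η.1 := by
        have : Cfsg.charDegree η.1 = 1 := by simp [Cfsg.charDegree, η]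
        rw [this]; exact (Fact.out : p.Prime).not_dvd_one
      obtain ⟨χ, hχd, hχ⟩ := exists_above_not_dvd J η hJi hη
      set lam : Cfsg.IrrCharacter U := ⟨_, H26.isIrrCharacter_hom f⟩
      have hχl : Cfsg.classInner (fun n : U => χ.1 n) lam.1 ≠ 0 := by
        have hc : Cfsg.IsCharacter U (fun n : U => χ.1 n) :=
          H26.isCharacter_comp (H26.irr_isCharacter χ) U.subtype
        rw [classInner_eq_mult hc lam, Nat.cast_ne_zero]
        have h := mult_comp (Subgroup.inclusion (show U ≤ J from le_sup_left))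
          (φ := fun h : J => χ.1 h) (H26.isCharacter_comp (H26.irr_isCharacter χ) J.subtype) lam
        intro h0
        have h0' : mult (fun d : U => χ.1 ((Subgroup.inclusion (show U ≤ J from le_sup_left) d : J) : G)) lam = 0 := h0
        rw [h, Finset.sum_eq_zero_iff] at h0'
        rcases mul_eq_zero.mp (h0' η (Finset.mem_univ _)) with h1 | h1
        · exact hχ h1
        · have h2 : (fun d : U => η.1 (Subgroup.inclusion (show U ≤ J from le_sup_left) d)) = lam.1 := by
            funext d
            exact congrArg Units.val (hg d)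
          rw [h2] at h1
          have h3 := classInner_eq_mult (H26.irr_isCharacter lam) lam
          rw [H57.irr_inner_self lam.2, h1] at h3
          simp at h3
      set I := H44.inertia U lam.1 with hI
      have hIi : ¬ q ∣ I.index := fun h => hdeg χ hχd
        (h.trans ((dvd_mul_right _ _).trans (H44.degree_mul_index_inertia_dvd U χ lam hχl)))
      have hUI : U ≤ I := H44.le_inertia U (H26.irr_isClassFunction lam)
      have hIK : ¬ q ∣ I.relIndex K := by
        intro h
        have h1 : (K ⊓ I).relIndex K * K.index = (K ⊓ I).index :=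
          Subgroup.relIndex_mul_index inf_le_left
        have h2 : (K ⊓ I).relIndex I * I.index = (K ⊓ I).index :=
          Subgroup.relIndex_mul_index inf_le_right
        rw [Subgroup.inf_relIndex_left] at h1
        rw [Subgroup.inf_relIndex_right] at h2
        have h3 : q ∣ K.relIndex I * I.index := by rw [h2, ← h1]; exact h.mul_right _
        rcases (Fact.out : q.Prime).dvd_mul.mp h3 with h4 | h4
        · exact hKi (h4.trans (Subgroup.relIndex_dvd_index_of_normal K I))
        · exact hIi h4
      have hKI : K ⊓ I = U ⊔ (R ⊓ I) := by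
        refine le_antisymm (fun x hx => ?_) (sup_le (le_inf hUK hUI) (inf_le_inf_right I hRK))
        obtain ⟨u, hu, r, hr, rfl⟩ := Subgroup.mem_sup_of_normal_left.mp
          (hsup.symm ▸ hx.1 : x ∈ U ⊔ R)
        refine Subgroup.mul_mem_sup hu ⟨hr, ?_⟩
        have := Subgroup.mul_mem I (Subgroup.inv_mem I (hUI hu)) hx.2
        rwa [inv_mul_cancel_left] at this
      have hIR : I.relIndex K = I.relIndex R := by
        have e1 := (I.subgroupOf K).card_mul_index
        have e2 := (I.subgroupOf R).card_mul_index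
        have c1 : Nat.card (I.subgroupOf K) = Nat.card U * Nat.card (R ⊓ I : Subgroup G) := by
          rw [← card_sup_eq_mul_of_inf_eq_bot U (R ⊓ I)
              (le_bot_iff.mp ((inf_le_inf_left U inf_le_left).trans hUR.le)), ← hKI,
            ← Subgroup.inf_subgroupOf_left I K]
          exact Nat.card_congr (Subgroup.subgroupOfEquivOfLe inf_le_left).toEquiv
        have c2 : Nat.card (I.subgroupOf R) = Nat.card (R ⊓ I : Subgroup G) := by
          rw [← Subgroup.inf_subgroupOf_left I R]
          exact Nat.card_congr (Subgroup.subgroupOfEquivOfLe inf_le_left).toEquiv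
        rw [c1, hcardK] at e1
        rw [c2] at e2
        rw [← e2, ← mul_assoc] at e1
        exact Nat.eq_of_mul_eq_mul_left (Nat.mul_pos Nat.card_pos Nat.card_pos) e1
      -- a conjugate of `Q` fixed by `C_R(P₀)` fixes `f`
      set T := R' ⊓ I.subgroupOf NR with hT
      have hTi : ¬ q ∣ T.relIndex R' := by
        rw [hT, Subgroup.inf_relIndex_left, hR', Subgroup.relIndex_subgroupOf Subgroup.le_normalizer,
          ← hIR]
        exact hIK
      have hP₀T : (P₀ : Subgroup NR) ≤ Subgroup.normalizer (T : Set NR) := by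
        intro s hs
        refine mem_normalizer_of_conj_mem fun y hy => ⟨hR'n.conj_mem y hy.1 s, ?_⟩
        have hsI : (s : G) ∈ I := funext fun u => congrArg Units.val (hf s hs u)
        exact Subgroup.mul_mem I (Subgroup.mul_mem I hsI hy.2) (Subgroup.inv_mem I hsI)
      obtain ⟨Q', hQ'T, hQ'P, hQ'q, hQ'c⟩ := H20.exists_invariant_sylow_subgroup hP₀T
        (hcop.coprime_dvd_right (Subgroup.card_dvd_of_le inf_le_left)) (Or.inl hP₀solv) q
      have hfac : (Nat.card T).factorization q = (Nat.card R').factorization q := by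
        have h := (T.subgroupOf R').card_mul_index
        rw [Nat.card_congr (Subgroup.subgroupOfEquivOfLe (show T ≤ R' from inf_le_left)).toEquiv,
          show (T.subgroupOf R').index = T.relIndex R' from rfl] at h
        rw [← h, Nat.factorization_mul Nat.card_pos.ne'
            (fun h0 => hTi (by rw [h0]; exact dvd_zero q)),
          Finsupp.add_apply, Nat.factorization_eq_zero_of_not_dvd hTi, add_zero]
      rw [hfac] at hQ'c
      obtain ⟨c₀, ⟨hc₀R, hc₀P⟩, hc₀⟩ := H20.invariant_sylow_subgroup_conj hP₀R hcop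
        (Or.inl hP₀solv) hQR (hQ'T.trans inf_le_left) hQc hQ'c hQP hQ'P
      intro y hy u
      have hnz := hCQ c₀⁻¹ (Subgroup.inv_mem _ hc₀R) (Subgroup.inv_mem _ hc₀P)
      have h1 : c₀⁻¹ * y * c₀ ∈ Q := by
        simpa using (Subgroup.mem_normalizer_iff.mp hnz y).mp hy
      have h2 : MulAut.conj c₀ (c₀⁻¹ * y * c₀) ∈ Q' :=
        hc₀ ▸ Subgroup.smul_mem_pointwise_smul _ _ Q h1
      have h3 : y ∈ Q' := by simpa [mul_assoc] using h2
      have hyI : (y : G) ∈ I := (hQ'T h3).2
      exact Units.ext (congrFun hyI u)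
    -- the kernel of the norm of `Q`
    letI : CommGroup U := { (inferInstance : Group U) with mul_comm := hcomm }
    let act : G → (U →* ℂˣ) →* (U →* ℂˣ) := fun g =>
      { toFun := fun f => f.comp (MulAut.conjNormal (H := U) g).toMonoidHom
        map_one' := rfl
        map_mul' := fun _ _ => rfl }
    have hact : ∀ g h f, act g (act h f) = act (h * g) f := fun g h f => by
      refine MonoidHom.ext fun u => ?_
      show f (MulAut.conjNormal (H := U) h (MulAut.conjNormal (H := U) g u)) = f (MulAut.conjNormal (H := U) (h * g) u)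
      congr 1
      exact Subtype.ext (by simp [mul_assoc])
    have hact1 : ∀ f, act 1 f = f := fun f => MonoidHom.ext fun u => by
      show f (MulAut.conjNormal (H := U) 1 u) = f u
      congr 1
      exact Subtype.ext (by simp)
    haveI : Fintype Q := Fintype.ofFinite _
    let nrm : (U →* ℂˣ) →* (U →* ℂˣ) :=
      { toFun := fun f => ∏ y : Q, act ((y : NR) : G) f
        map_one' := Finset.prod_eq_one fun _ _ => map_one _
        map_mul' := fun f g => by
          simp only [map_mul]
          exact Finset.prod_mul_distrib }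
    haveI : Finite nrm.ker := Subtype.finite
    have hker : nrm.ker = ⊥ := by
      by_contra hne
      letI : MulAction (P₀ : Subgroup NR) nrm.ker :=
        { smul := fun s f => ⟨act (((s : NR) : G))⁻¹ f, by
            have hs : (s : NR) ∈ Subgroup.normalizer (Q : Set NR) := hQP s.2
            rw [MonoidHom.mem_ker]
            have hf : nrm f = 1 := f.2
            rw [← map_one (act (((s : NR) : G))⁻¹), ← hf]
            show (∏ y : Q, act ((y : NR) : G) (act (((s : NR) : G))⁻¹ (f : U →* ℂˣ))) =
              act (((s : NR) : G))⁻¹ (∏ y : Q, act ((y : NR) : G) f)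
            rw [map_prod]
            let e : Q ≃ Q :=
              { toFun := fun y => ⟨(s : NR) * y * (s : NR)⁻¹,
                  (Subgroup.mem_normalizer_iff.mp hs (y : NR)).mp y.2⟩
                invFun := fun y => ⟨(s : NR)⁻¹ * y * (s : NR), by
                  simpa using (Subgroup.mem_normalizer_iff.mp (inv_mem hs) (y : NR)).mp y.2⟩
                left_inv := fun y => Subtype.ext (by simp [mul_assoc])
                right_inv := fun y => Subtype.ext (by simp [mul_assoc]) }
            refine (Fintype.prod_equiv e _ _ fun y => ?_).symm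
            rw [hact, hact]
            congr 1
            simp [e, mul_assoc]⟩
          one_smul := fun f => Subtype.ext (by
            show act (((1 : (P₀ : Subgroup NR)) : NR) : G)⁻¹ f = f
            simpa using hact1 f)
          mul_smul := fun s t f => Subtype.ext (by
            show act ((((s * t : (P₀ : Subgroup NR)) : NR) : G))⁻¹ f =
              act (((s : NR) : G))⁻¹ (act (((t : NR) : G))⁻¹ f)
            rw [hact]
            simp) }
      have hW : ∀ f : U →* ℂˣ, f ^ p ^ m = 1 := fun f => MonoidHom.ext fun u => by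
        rw [MonoidHom.pow_apply, ← map_pow, ← hm, pow_card_eq_one', map_one, MonoidHom.one_apply]
      have hkp : IsPGroup p nrm.ker := fun f => ⟨m, Subtype.ext (hW f)⟩
      obtain ⟨j, hj⟩ := hkp.exists_card_eq
      have hj1 : p ∣ Nat.card nrm.ker := by
        rw [hj]
        refine dvd_pow_self p fun h0 => hne ?_
        rw [h0, pow_zero] at hj
        exact Subgroup.card_eq_one.mp hj
      obtain ⟨b, hb, hb1⟩ := P₀.2.exists_fixed_point_of_prime_dvd_card_of_fixed_point nrm.ker hj1
        (a := 1) (fun s => Subtype.ext (map_one _))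
      have hbP : ∀ s ∈ (P₀ : Subgroup NR), ∀ u : U,
          (b : U →* ℂˣ) (MulAut.conjNormal (H := U) (s : G) u) = (b : U →* ℂˣ) u := by
        intro s hs u
        have h := DFunLike.congr_fun (congrArg Subtype.val (hb ⟨s⁻¹, inv_mem hs⟩)) u
        have h' : (b : U →* ℂˣ) (MulAut.conjNormal (H := U) (((s⁻¹ : NR) : G))⁻¹ u) = (b : U →* ℂˣ) u := h
        simpa using h'
      have hbQ := hfix b hbP
      have hb2 : nrm (b : U →* ℂˣ) = (b : U →* ℂˣ) ^ Nat.card Q := by
        show ∏ y : Q, act ((y : NR) : G) (b : U →* ℂˣ) = _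
        rw [Finset.prod_congr rfl (fun (y : Q) _ => (show act ((y : NR) : G) (b : U →* ℂˣ) = b from
          MonoidHom.ext fun u => hbQ y y.2 u)), Finset.prod_const, Finset.card_univ,
          Nat.card_eq_fintype_card]
      have hb3 : (b : U →* ℂˣ) ^ Nat.card Q = 1 := hb2 ▸ b.2
      obtain ⟨i, hi⟩ := hQq.exists_card_eq
      have hb4 : orderOf (b : U →* ℂˣ) = 1 := by
        refine Nat.eq_one_of_dvd_coprimes (a := q ^ i) (b := p ^ m) ?_
          (hi ▸ orderOf_dvd_of_pow_eq_one hb3) (orderOf_dvd_of_pow_eq_one (hW _))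
        exact Nat.Coprime.pow _ _ ((Nat.coprime_primes Fact.out Fact.out).mpr hpq.symm)
      exact hb1 (Subtype.ext (orderOf_eq_one_iff.mp hb4).symm)
    have hQU : ∀ y ∈ Q, (y : G) ∈ Subgroup.centralizer (U : Set G) := by
      intro y hy
      have hall : ∀ f : U →* ℂˣ, act (y : G) f = f := by
        intro f
        refine (nrm.ker_eq_bot_iff).mp hker ?_
        show (∏ z : Q, act ((z : NR) : G) (act (y : G) f)) = ∏ z : Q, act ((z : NR) : G) f
        refine Fintype.prod_equiv (Equiv.mulLeft ⟨y, hy⟩) _ _ fun z => ?_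
        rw [hact]
        rfl
      refine Subgroup.mem_centralizer_iff.mpr fun u hu => ?_
      by_contra hne
      have hne' : (MulAut.conjNormal (H := U) (y : G) ⟨u, hu⟩ : U) * (⟨u, hu⟩ : U)⁻¹ ≠ 1 := fun h => by
        rw [mul_inv_eq_one] at h
        have h' := congrArg Subtype.val h
        simp [mul_inv_eq_iff_eq_mul] at h'
        exact hne h'.symm
      obtain ⟨f, hf⟩ := CommGroup.exists_apply_ne_one_of_hasEnoughRootsOfUnity U ℂ hne'
      refine hf ?_
      rw [map_mul, map_inv, mul_inv_eq_one]
      exact DFunLike.congr_fun (hall f) ⟨u, hu⟩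
    have hQ1 : Q = ⊥ := by
      rw [eq_bot_iff]
      intro y hy
      have h : (y : G) ∈ R ⊓ Subgroup.centralizer (U : Set G) := ⟨hQR hy, hQU y hy⟩
      rw [hCR, Subgroup.mem_bot] at h
      exact Subgroup.mem_bot.mpr (Subtype.ext h)
    rw [hQ1, Subgroup.relIndex_bot_left, hR'c] at hQi
    exact hQi hqR

end Cfsg.Agent.H43
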