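import Cfsg.Agent.H43.DetChar
import Cfsg.Agent.H45.Galois

/-!
# Field automorphisms and determinantal order
-/

namespace Cfsg.Agent.H43

open Module

/-- A field automorphism does not change the determinantal order. -/
theorem detOrder_ringAut {G : Type*} [Group G] [Finite G] {χ : G → ℂ}
    (hχ : Cfsg.IsCharacter G χ) (σ : ℂ ≃+* ℂ) :
    Cfsg.detOrder (fun g => σ (χ g)) = Cfsg.detOrder χ := by
  classical
  obtain ⟨n, ρ, rfl⟩ := hχ
  let A : G →* Matrix (Fin n) (Fin n) ℂ :=
    { toFun := fun g => (LinearMap.toMatrix' (ρ g)).map σ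
      map_one' := by
        rw [map_one, Module.End.one_eq_id, LinearMap.toMatrix'_id]
        exact Matrix.map_one _ (map_zero σ) (map_one σ)
      map_mul' := fun g h => by
        rw [map_mul, LinearMap.toMatrix'_mul]
        exact Matrix.map_mul (f := σ) }
  let ρ' : Representation ℂ G (Fin n → ℂ) := Matrix.toLinAlgEquiv'.toMonoidHom.comp A
  have hchar : (fun g => σ (ρ.character g)) = ρ'.character := funext fun g => by
    show σ (LinearMap.trace ℂ _ (ρ g)) = LinearMap.trace ℂ _ (Matrix.toLin' (A g))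
    rw [LinearMap.trace_eq_matrix_trace ℂ (Pi.basisFun ℂ (Fin n)),
      LinearMap.trace_eq_matrix_trace ℂ (Pi.basisFun ℂ (Fin n)), LinearMap.toMatrix_eq_toMatrix',
      LinearMap.toMatrix'_toLin']
    exact AddMonoidHom.map_trace σ.toAddMonoidHom _
  rw [hchar, detOrder_eq, detOrder_eq]
  have hdet : ∀ g, (detHom ρ' g : ℂ) = σ (detHom ρ g : ℂ) := fun g => by
    rw [detHom_coe, detHom_coe, ← LinearMap.det_toMatrix', ← LinearMap.det_toMatrix',
      RingEquiv.map_det]
    congr 1
    show LinearMap.toMatrix' (Matrix.toLin' (A g)) = _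
    rw [LinearMap.toMatrix'_toLin']
    rfl
  have hpow : ∀ k : ℕ, detHom ρ' ^ k = 1 ↔ detHom ρ ^ k = 1 := fun k => by
    rw [MonoidHom.ext_iff, MonoidHom.ext_iff]
    refine forall_congr' fun g => ?_
    rw [MonoidHom.pow_apply, MonoidHom.pow_apply, MonoidHom.one_apply, ← Units.val_inj,
      Units.val_pow_eq_pow_val, hdet, ← map_pow, Units.val_one, map_eq_one_iff σ σ.injective,
      ← Units.val_pow_eq_pow_val, Units.val_eq_one]
  exact Nat.dvd_antisymm (orderOf_dvd_of_pow_eq_one ((hpow _).mpr (pow_orderOf_eq_one _)))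
    (orderOf_dvd_of_pow_eq_one ((hpow _).mp (pow_orderOf_eq_one _)))

end Cfsg.Agent.H43
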