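import Mathlib

/-!
# Derived subgroup of a group with a normal subgroup of prime index
-/

namespace Cfsg.Agent.H43

variable {P : Type*} [Group P]

/-- For `N` normal and `x : P`, the homomorphism `n ↦ x n x⁻¹ n⁻¹` from `N` to `N / N'`. -/
noncomputable def commToAb (N : Subgroup P) [hN : N.Normal] (x : P) : N →* Abelianization N where
  toFun n := Abelianization.of ⟨x * n * x⁻¹, hN.conj_mem n n.2 x⟩ / Abelianization.of n
  map_one' := by
    have : (⟨x * ((1 : N) : P) * x⁻¹, hN.conj_mem _ (1 : N).2 x⟩ : N) = 1 := by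
      ext; simp
    rw [this, map_one, div_one]
  map_mul' a b := by
    have : (⟨x * ((a * b : N) : P) * x⁻¹, hN.conj_mem _ (a * b).2 x⟩ : N) =
        ⟨x * a * x⁻¹, hN.conj_mem _ a.2 x⟩ * ⟨x * b * x⁻¹, hN.conj_mem _ b.2 x⟩ := by
      ext; simp [mul_assoc]
    rw [this, map_mul, map_mul, mul_div_mul_comm]

theorem commToAb_apply (N : Subgroup P) [hN : N.Normal] (x : P) (n : N) :
    commToAb N x n = Abelianization.of
      (⟨x * n * x⁻¹ * (n : P)⁻¹, N.mul_mem (hN.conj_mem n n.2 x) (N.inv_mem n.2)⟩ : N) := by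
  have h : (⟨x * n * x⁻¹ * (n : P)⁻¹, N.mul_mem (hN.conj_mem n n.2 x) (N.inv_mem n.2)⟩ : N) =
      ⟨x * n * x⁻¹, hN.conj_mem n n.2 x⟩ / n := by
    ext; simp [div_eq_mul_inv]
  rw [h, map_div]
  rfl

theorem commToAb_eq_one_iff (N : Subgroup P) [hN : N.Normal] (x : P) (n : N) :
    commToAb N x n = 1 ↔ x * n * x⁻¹ * (n : P)⁻¹ ∈ (commutator N).map N.subtype := by
  rw [commToAb_apply, ← MonoidHom.mem_ker, Abelianization.ker_of, Subgroup.mem_map]
  constructor
  · intro h; exact ⟨_, h, rfl⟩
  · rintro ⟨m, hm, hmx⟩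
    convert hm using 1
    exact Subtype.ext hmx.symm

/-- If `N` is a normal subgroup of prime index and `x ∉ N`, then
`|{n ∈ N : [x,n] ∈ N'}| * |P'| = |N| * |N'|`. -/
theorem card_centralizer_mul_card_commutator [Finite P] (N : Subgroup P) [hN : N.Normal]
    (hp : N.index.Prime) {x : P} (hx : x ∉ N) :
    Nat.card {n : N // x * n * x⁻¹ * (n : P)⁻¹ ∈ (commutator N).map N.subtype} *
        Nat.card (commutator P) = Nat.card N * Nat.card (commutator N) := by
  classical
  set f := commToAb N x with hf
  set R : Subgroup N := f.range.comap Abelianization.of with hR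
  have hN'R : commutator N ≤ R := by
    intro n hn
    rw [← Abelianization.ker_of, MonoidHom.mem_ker] at hn
    rw [hR, Subgroup.mem_comap, hn]
    exact one_mem _
  set R' : Subgroup P := R.map N.subtype with hR'
  have hfR : ∀ n : N, x * n * x⁻¹ * (n : P)⁻¹ ∈ R' := by
    intro n
    refine ⟨⟨x * n * x⁻¹ * (n : P)⁻¹, N.mul_mem (hN.conj_mem n n.2 x) (N.inv_mem n.2)⟩, ?_, rfl⟩
    exact ⟨n, commToAb_apply N x n⟩
  have hNN : ∀ a b : N, (a : P) * b * (a : P)⁻¹ * (b : P)⁻¹ ∈ R' := by
    intro a b
    refine ⟨a * b * a⁻¹ * b⁻¹, hN'R ?_, by simp⟩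
    exact Subgroup.commutator_mem_commutator (Subgroup.mem_top a) (Subgroup.mem_top b)
  have hR'N : R' ≤ N := Subgroup.map_subtype_le _
  have htop : ∀ K : Subgroup P, N ≤ K → x ∈ K → K = ⊤ := by
    intro K hNK hxK
    have hd := Subgroup.relIndex_mul_index hNK
    rcases hp.eq_one_or_self_of_dvd K.index (Subgroup.index_dvd_of_le hNK) with h | h
    · exact Subgroup.index_eq_one.mp h
    · exfalso
      rw [h] at hd
      have h1 : N.relIndex K = 1 := by
        have := hp.pos
        nlinarith
      exact hx (Subgroup.relIndex_eq_one.mp h1 hxK)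
  have hnorm : R'.Normal := by
    have : Subgroup.normalizer (R' : Set P) = ⊤ := by
      refine htop _ ?_ ?_
      · intro n hn
        refine Subgroup.mem_normalizer_iff.mpr fun r => ⟨fun hr => ?_, fun hr => ?_⟩
        · have h := R'.mul_mem (hNN ⟨n, hn⟩ ⟨r, hR'N hr⟩) hr
          simpa using h
        · have hrN : r ∈ N := by
            have h := hN.conj_mem _ (hR'N hr) n⁻¹
            simpa [mul_assoc] using h
          have h := R'.mul_mem (R'.inv_mem (hNN ⟨n, hn⟩ ⟨r, hrN⟩)) hr
          simpa [mul_assoc] using h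
      · refine Subgroup.mem_normalizer_iff.mpr fun r => ⟨fun hr => ?_, fun hr => ?_⟩
        · have h := R'.mul_mem (hfR ⟨r, hR'N hr⟩) hr
          simpa using h
        · have hrN : r ∈ N := by
            have h := hN.conj_mem _ (hR'N hr) x⁻¹
            simpa [mul_assoc] using h
          have h := R'.mul_mem (R'.inv_mem (hfR ⟨r, hrN⟩)) hr
          simpa [mul_assoc] using h
    exact Subgroup.normalizer_eq_top_iff.mp this
  set π := QuotientGroup.mk' R' with hπ
  have hcomm : ∀ g h : P, g * h * g⁻¹ * h⁻¹ ∈ R' → Commute (π g) (π h) := by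
    intro g h hgh
    have h1 : π (g * h * g⁻¹ * h⁻¹) = 1 := by
      rw [hπ, QuotientGroup.mk'_apply, QuotientGroup.eq_one_iff]; exact hgh
    rw [map_mul, map_mul, map_mul, map_inv, map_inv] at h1
    have h2 := mul_eq_one_iff_eq_inv.mp h1
    rw [inv_inv, mul_inv_eq_iff_eq_mul] at h2
    exact h2
  have hNle : N ≤ (Subgroup.center (P ⧸ R')).comap π := by
    intro n hn
    rw [Subgroup.mem_comap, Subgroup.mem_center_iff]
    intro q
    obtain ⟨g, rfl⟩ := QuotientGroup.mk'_surjective R' q
    have : (Subgroup.centralizer {π n}).comap π = ⊤ := by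
      refine htop _ ?_ ?_
      · intro m hm
        rw [Subgroup.mem_comap, Subgroup.mem_centralizer_singleton_iff]
        exact (hcomm m n (hNN ⟨m, hm⟩ ⟨n, hn⟩)).eq
      · rw [Subgroup.mem_comap, Subgroup.mem_centralizer_singleton_iff]
        exact (hcomm x n (hfR ⟨n, hn⟩)).eq
    have hg : g ∈ (Subgroup.centralizer {π n}).comap π := this ▸ Subgroup.mem_top g
    rw [Subgroup.mem_comap, Subgroup.mem_centralizer_singleton_iff] at hg
    exact hg
  have hcen : (Subgroup.center (P ⧸ R')).comap π = ⊤ := by
    refine htop _ hNle ?_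
    rw [Subgroup.mem_comap, Subgroup.mem_center_iff]
    intro q
    obtain ⟨g, rfl⟩ := QuotientGroup.mk'_surjective R' q
    have : (Subgroup.centralizer {π x}).comap π = ⊤ := by
      refine htop _ ?_ ?_
      · intro m hm
        rw [Subgroup.mem_comap, Subgroup.mem_centralizer_singleton_iff]
        exact ((hcomm x m (hfR ⟨m, hm⟩)).eq).symm
      · rw [Subgroup.mem_comap, Subgroup.mem_centralizer_singleton_iff]
    have hg : g ∈ (Subgroup.centralizer {π x}).comap π := this ▸ Subgroup.mem_top g
    rw [Subgroup.mem_comap, Subgroup.mem_centralizer_singleton_iff] at hg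
    exact hg
  have hle : commutator P ≤ R' := by
    rw [commutator_def, Subgroup.commutator_le]
    intro g _ h _
    have hg : π g ∈ Subgroup.center (P ⧸ R') := by
      rw [← Subgroup.mem_comap, hcen]; exact Subgroup.mem_top g
    rw [Subgroup.mem_center_iff] at hg
    rw [← QuotientGroup.eq_one_iff, ← QuotientGroup.mk'_apply, map_commutatorElement,
      commutatorElement_eq_one_iff_mul_comm]
    exact (hg (π h)).symm
  have hge : R' ≤ commutator P := by
    rintro _ ⟨r, hr, rfl⟩
    obtain ⟨n, hn⟩ := hr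
    rw [hf, commToAb_apply] at hn
    set c : N := ⟨x * n * x⁻¹ * (n : P)⁻¹, N.mul_mem (hN.conj_mem n n.2 x) (N.inv_mem n.2)⟩
    have hker : c⁻¹ * r ∈ commutator N := by
      rw [← Abelianization.ker_of, MonoidHom.mem_ker, map_mul, map_inv, hn, inv_mul_cancel]
    have h1 : (commutator N).map N.subtype ≤ commutator P := Subgroup.map_subtype_commutator N ▸
      Subgroup.commutator_mono le_top le_top
    have h2 : (c : P) ∈ commutator P :=
      Subgroup.commutator_mem_commutator (Subgroup.mem_top x) (Subgroup.mem_top (n : P))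
    have h3 := (commutator P).mul_mem h2 (h1 ⟨_, hker, rfl⟩)
    simpa [← mul_assoc] using h3
  have hcardR' : Nat.card (commutator P) = Nat.card R := by
    rw [le_antisymm hle hge, hR']
    exact Nat.card_congr (R.equivMapOfInjective _ (Subgroup.subtype_injective N)).toEquiv.symm
  have hcardR : Nat.card R = Nat.card f.range * Nat.card (commutator N) := by
    set g := (Abelianization.of (G := N)).comp R.subtype with hg
    have hgr : g.range = f.range := by
      rw [hg, MonoidHom.range_eq_map, ← Subgroup.map_map, ← MonoidHom.range_eq_map,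
        Subgroup.range_subtype, hR]
      refine Subgroup.map_comap_eq_self_of_surjective ?_ _
      exact QuotientGroup.mk_surjective
    have hgk : Nat.card g.ker = Nat.card (commutator N) := by
      rw [hg, ← MonoidHom.comap_ker, Abelianization.ker_of]
      exact Nat.card_congr (Subgroup.subgroupOfEquivOfLe hN'R).toEquiv
    rw [← hgr, ← hgk, ← Subgroup.index_ker g, mul_comm, Subgroup.card_mul_index]
  have hkerf : Nat.card {n : N // x * n * x⁻¹ * (n : P)⁻¹ ∈ (commutator N).map N.subtype} =
      Nat.card f.ker :=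
    Nat.card_congr (Equiv.subtypeEquivRight fun n => (commToAb_eq_one_iff N x n).symm)
  rw [hkerf, hcardR', hcardR, ← Subgroup.card_mul_index f.ker, Subgroup.index_ker f]
  ring

/-- `[P : P'] * |N'| = p * |{n ∈ N : [x,n] ∈ N'}|` for `N` normal of index `p`, `x ∉ N`. -/
theorem index_commutator_mul [Finite P] (N : Subgroup P) [N.Normal]
    (hp : N.index.Prime) {x : P} (hx : x ∉ N) :
    (commutator P).index * Nat.card (commutator N) = N.index *
      Nat.card {n : N // x * n * x⁻¹ * (n : P)⁻¹ ∈ (commutator N).map N.subtype} := by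
  have h := card_centralizer_mul_card_commutator N hp hx
  have h1 := Subgroup.card_mul_index (commutator P)
  have h2 := Subgroup.card_mul_index N
  have h3 : 0 < Nat.card (commutator P) := Nat.card_pos
  apply Nat.eq_of_mul_eq_mul_left h3
  rw [← mul_assoc, h1, ← h2]
  linear_combination (N.index) * h.symm

end Cfsg.Agent.H43
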