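import Cfsg.Agent.H43.CentralInvariant
import Cfsg.Agent.H43.CoprimeExt
import Cfsg.Agent.H26.CharReal

/-!
# The finite group of normalised intertwiners of an invariant character, and invariant characters
above invariant characters when the operators are solvable
-/

namespace Cfsg.Agent.H43

open Module
open scoped ComplexConjugate

section Trace

variable {N : Type*} [Group N] [Fintype N] {n : ℕ}

/-- `∑ tr(B σ(g)) tr(σ(g)⁻¹ B⁻¹) = |N|` for irreducible `σ`. -/
theorem sum_trace_mul_trace (σ : Representation ℂ N (Fin n → ℂ)) [σ.IsIrreducible]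
    (B B' : Matrix (Fin n) (Fin n) ℂ) (hB : B * B' = 1) :
    ∑ g : N, (B * H26.matHom σ g).trace * (H26.matHom σ g⁻¹ * B').trace = (Nat.card N : ℂ) := by
  classical
  set A := H26.matHom σ
  have hn : (n : ℂ) ≠ 0 := by
    have := H25.finrank_pos_of_isIrreducible σ
    rw [Module.finrank_fin_fun] at this
    exact_mod_cast this.ne'
  have key : ∀ i j k l : Fin n, ∑ g : N, A g j i * A g⁻¹ k l =
      if i = k ∧ j = l then (Nat.card N : ℂ) / n else 0 := by
    intro i j k l
    set Q : Matrix (Fin n) (Fin n) ℂ := ∑ g : N, A g * Matrix.single i k 1 * A g⁻¹ with hQ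
    have hcomm : ∀ x, A x * Q = Q * A x := fun x => by
      rw [hQ, Finset.mul_sum, Finset.sum_mul]
      refine Fintype.sum_equiv (Equiv.mulLeft x) _ _ fun g => ?_
      simp only [Equiv.coe_mulLeft, mul_inv_rev, map_mul, mul_assoc]
      rw [← map_mul A x⁻¹ x, inv_mul_cancel, map_one, mul_one]
    obtain ⟨c, hc⟩ := H26.matrix_schur σ Q hcomm
    have htr : Q.trace = if i = k then (Nat.card N : ℂ) else 0 := by
      rw [hQ, Matrix.trace_sum]
      have h1 : ∀ g : N, (A g * Matrix.single i k (1 : ℂ) * A g⁻¹).trace =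
          (Matrix.single i k (1 : ℂ)).trace := fun g => by
        rw [Matrix.trace_mul_cycle, ← map_mul, inv_mul_cancel, map_one, one_mul]
      simp_rw [h1]
      rw [Finset.sum_const, Finset.card_univ, ← Nat.card_eq_fintype_card, nsmul_eq_mul]
      by_cases h : i = k
      · subst h; rw [if_pos rfl, Matrix.trace_single_eq_same, mul_one]
      · rw [if_neg h, Matrix.trace_single_eq_of_ne i k (1 : ℂ) h, mul_zero]
    have hc' : c = (if i = k then (Nat.card N : ℂ) else 0) / n := by
      rw [← htr, hc, Matrix.trace_smul, Matrix.trace_one, Fintype.card_fin, smul_eq_mul,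
        mul_div_assoc, div_self hn, mul_one]
    have hjl : Q j l = ∑ g : N, A g j i * A g⁻¹ k l := by
      rw [hQ, Matrix.sum_apply]
      refine Finset.sum_congr rfl fun g _ => ?_
      rw [Matrix.mul_apply, Finset.sum_eq_single k]
      · rw [Matrix.mul_single_apply_same, mul_one]
      · intro b _ hb
        rw [Matrix.mul_single_apply_of_ne _ _ _ _ _ hb, zero_mul]
      · intro h; exact absurd (Finset.mem_univ _) h
    rw [← hjl, hc, Matrix.smul_apply, Matrix.one_apply, hc', smul_eq_mul]
    by_cases h1 : i = k <;> by_cases h2 : j = l <;> simp [h1, h2]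
  calc ∑ g : N, (B * A g).trace * (A g⁻¹ * B').trace
      = ∑ g : N, ∑ i, ∑ j, ∑ k, ∑ l, B i j * B' l k * (A g j i * A g⁻¹ k l) := by
        refine Finset.sum_congr rfl fun g _ => ?_
        simp only [Matrix.trace, Matrix.diag_apply, Matrix.mul_apply, Finset.sum_mul]
        refine Finset.sum_congr rfl fun i _ => Finset.sum_congr rfl fun j _ => ?_
        rw [Finset.mul_sum]
        refine Finset.sum_congr rfl fun k _ => ?_
        rw [Finset.mul_sum]
        exact Finset.sum_congr rfl fun l _ => by ring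
    _ = ∑ i, ∑ j, ∑ k, ∑ l, B i j * B' l k * ∑ g : N, A g j i * A g⁻¹ k l := by
        rw [Finset.sum_comm]
        refine Finset.sum_congr rfl fun i _ => ?_
        rw [Finset.sum_comm]
        refine Finset.sum_congr rfl fun j _ => ?_
        rw [Finset.sum_comm]
        refine Finset.sum_congr rfl fun k _ => ?_
        rw [Finset.sum_comm]
        exact Finset.sum_congr rfl fun l _ => by rw [Finset.mul_sum]
    _ = (Nat.card N : ℂ) / n * (B * B').trace := by
        simp only [key, mul_ite, mul_zero, ite_and, Finset.sum_ite_irrel, Finset.sum_ite_eq,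
          Finset.mem_univ, if_true, Finset.sum_const_zero, Matrix.trace, Matrix.diag_apply,
          Matrix.mul_apply, Finset.mul_sum]
        refine Finset.sum_congr rfl fun i _ => Finset.sum_congr rfl fun j _ => ?_
        ring
    _ = _ := by rw [hB, Matrix.trace_one, Fintype.card_fin, div_mul_cancel₀ _ hn]

end Trace

section Group

variable {Γ : Type*} [Group Γ] {N : Subgroup Γ} [N.Normal] {n : ℕ}

/-- Intertwiners whose determinant is killed by the determinantal order. -/
noncomputable def interGroup (σ : Representation ℂ N (Fin n → ℂ)) :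
    Subgroup (Γ × (Module.End ℂ (Fin n → ℂ))ˣ) :=
  H39.interSub σ ⊓ ((powMonoidHom (orderOf (detHom σ))).comp
    (detU.comp (MonoidHom.snd Γ _))).ker

theorem mem_interGroup {σ : Representation ℂ N (Fin n → ℂ)}
    {q : Γ × (Module.End ℂ (Fin n → ℂ))ˣ} :
    q ∈ interGroup σ ↔ q ∈ H39.interSub σ ∧ detU q.2 ^ orderOf (detHom σ) = 1 := Iff.rfl

/-- The canonical copy of `N`. -/
noncomputable def interIncl (σ : Representation ℂ N (Fin n → ℂ)) : N →* interGroup σ :=
  (N.subtype.prod (H39.sigmaU σ)).codRestrict _ fun m =>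
    ⟨H39.sigmaU_mem_interSub σ m, by
      show detU (H39.sigmaU σ m) ^ orderOf (detHom σ) = 1
      rw [show detU (H39.sigmaU σ m) = detHom σ m from rfl, ← MonoidHom.pow_apply,
        pow_orderOf_eq_one, MonoidHom.one_apply]⟩

variable [Finite Γ]

theorem orderOf_detHom_pos (σ : Representation ℂ N (Fin n → ℂ)) : 0 < orderOf (detHom σ) := by
  refine orderOf_pos_iff.mpr (isOfFinOrder_iff_pow_eq_one.mpr ⟨Nat.card N, Nat.card_pos, ?_⟩)
  refine MonoidHom.ext fun g => ?_
  rw [MonoidHom.pow_apply, ← map_pow, pow_card_eq_one', map_one, MonoidHom.one_apply]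

theorem finite_interGroup (σ : Representation ℂ N (Fin n → ℂ)) [σ.IsIrreducible] :
    Finite (interGroup σ) := by
  classical
  haveI := H25.nontrivial_of_isIrreducible σ
  have he : 0 < finrank ℂ (Fin n → ℂ) * orderOf (detHom σ) :=
    Nat.mul_pos (H25.finrank_pos_of_isIrreducible σ) (orderOf_detHom_pos σ)
  set e := finrank ℂ (Fin n → ℂ) * orderOf (detHom σ) with hedef
  haveI : NeZero e := ⟨he.ne'⟩
  let f : interGroup σ →* Γ := (MonoidHom.fst Γ _).comp (interGroup σ).subtype
  haveI : Finite f.ker := by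
    have hc : ∀ z : f.ker, ∃ c : ℂˣ, c ∈ rootsOfUnity e ℂ ∧
        ((z : interGroup σ) : Γ × (Module.End ℂ (Fin n → ℂ))ˣ).2 = H39.scalarU c := by
      rintro ⟨⟨⟨g, B⟩, hz⟩, hg⟩
      obtain rfl : g = 1 := hg
      obtain ⟨h1, h2⟩ := mem_interGroup.mp hz
      obtain ⟨c, hc⟩ := H39.exists_scalar_of_mem_interSub (B := 1) (B' := B)
        (H39.interSub σ).one_mem h1
      rw [mul_one] at hc
      refine ⟨c, ?_, hc⟩
      simp only at h2
      rw [hc, detU_scalarU, ← pow_mul] at h2
      exact h2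
    choose c hc hc' using hc
    refine Finite.of_injective (fun z => (⟨c z, hc z⟩ : rootsOfUnity e ℂ)) fun a b h => ?_
    have h1 : c a = c b := congrArg Subtype.val h
    refine Subtype.ext (Subtype.ext (Prod.ext ?_ ?_))
    · exact (a.2 : f a = 1).trans (b.2 : f b = 1).symm
    · rw [hc', hc', h1]
  haveI : Finite (interGroup σ ⧸ f.ker) := Finite.of_injective _ (QuotientGroup.kerLift_injective f)
  exact Finite.of_equiv _ (Subgroup.groupEquivQuotientProdSubgroup (s := f.ker)).symm

theorem interGroup_surjective (σ : Representation ℂ N (Fin n → ℂ)) [σ.IsIrreducible]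
    (hinv : ∀ (g : Γ) (m : N), σ.character (H39.conjN g m) = σ.character m) (g : Γ) :
    ∃ B, (g, B) ∈ interGroup σ := by
  haveI := H25.nontrivial_of_isIrreducible σ
  obtain ⟨B, hB⟩ := H39.exists_mem_interSub σ g (hinv g)
  have he : 0 < finrank ℂ (Fin n → ℂ) * orderOf (detHom σ) :=
    Nat.mul_pos (H25.finrank_pos_of_isIrreducible σ) (orderOf_detHom_pos σ)
  obtain ⟨c, hc⟩ := IsAlgClosed.exists_pow_nat_eq
    (((detU B ^ orderOf (detHom σ))⁻¹ : ℂˣ) : ℂ) he
  have hc0 : c ≠ 0 := by
    rintro rfl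
    rw [zero_pow he.ne'] at hc
    exact Units.ne_zero _ hc.symm
  refine ⟨H39.scalarU (Units.mk0 c hc0) * B, mem_interGroup.mpr ⟨fun m => ?_, ?_⟩⟩
  · show H39.scalarU _ * B * H39.sigmaU σ m = _
    rw [mul_assoc, hB m, ← mul_assoc, ← mul_assoc, H39.scalarU_comm]
  · rw [map_mul, detU_scalarU, mul_pow, ← pow_mul,
      show (Units.mk0 c hc0) ^ (finrank ℂ (Fin n → ℂ) * orderOf (detHom σ)) =
        (detU B ^ orderOf (detHom σ))⁻¹ from Units.ext (by
          rw [Units.val_pow_eq_pow_val]; exact hc), inv_mul_cancel]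

/-- An invariant character lies below an invariant character of a normal subgroup of coprime
index with solvable quotient. -/
theorem exists_invariant_above_solvable_quotient [Fintype Γ] (G : Subgroup Γ) [G.Normal]
    [Fintype G] [Fintype N] (hNG : N ≤ G) (hcop : G.index.Coprime (N.relIndex G))
    (hsolv : Group.IsSolvable (Γ ⧸ G)) (θ : Cfsg.IrrCharacter N)
    (hinv : ∀ (x : Γ) (m : N), θ.1 (MulAut.conjNormal x m) = θ.1 m) :
    ∃ χ : Cfsg.IrrCharacter G, mult (fun m : N => χ.1 ⟨m, hNG m.2⟩) θ ≠ 0 ∧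
      ∀ (x : Γ) (g : G), χ.1 (MulAut.conjNormal x g) = χ.1 g := by
  classical
  obtain ⟨n, σ, hσ, hchar⟩ := θ.2
  have hinv' : ∀ (g : Γ) (m : N), σ.character (H39.conjN g m) = σ.character m := fun g m => by
    rw [hchar]; exact hinv g m
  haveI := H25.nontrivial_of_isIrreducible σ
  haveI := finite_interGroup σ
  haveI : Fintype (interGroup σ) := Fintype.ofFinite _
  set π : interGroup σ →* Γ := (MonoidHom.fst Γ _).comp (interGroup σ).subtype
  set U : interGroup σ →* (Module.End ℂ (Fin n → ℂ))ˣ :=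
    (MonoidHom.snd Γ _).comp (interGroup σ).subtype
  have hπ : Function.Surjective π := fun g => by
    obtain ⟨B, hB⟩ := interGroup_surjective σ hinv' g
    exact ⟨⟨(g, B), hB⟩, rfl⟩
  set ι := interIncl σ
  set Nh : Subgroup (interGroup σ) := ι.range
  have hιeq : ∀ (x : interGroup σ) (m : N), x * ι m * x⁻¹ = ι (H39.conjN (π x) m) := fun x m => by
    refine Subtype.ext (Prod.ext rfl ?_)
    show U x * H39.sigmaU σ m * (U x)⁻¹ = H39.sigmaU σ (H39.conjN (π x) m)
    rw [show U x * H39.sigmaU σ m = H39.sigmaU σ (H39.conjN (π x) m) * U x from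
      (mem_interGroup.mp x.2).1 m, mul_inv_cancel_right]
  haveI : Nh.Normal := ⟨by
    rintro _ ⟨m, rfl⟩ x
    exact ⟨_, (hιeq x m).symm⟩⟩
  set Gh : Subgroup (interGroup σ) := G.comap π with hGh
  haveI : Fintype Gh := Fintype.ofFinite _
  set mkQ := QuotientGroup.mk' Nh
  have hmk : Function.Surjective mkQ := QuotientGroup.mk'_surjective _
  set Hq : Subgroup (interGroup σ ⧸ Nh) := Gh.map mkQ with hHq
  haveI : Hq.Normal := Subgroup.Normal.map inferInstance mkQ hmk
  haveI : Fintype Hq := Fintype.ofFinite _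
  set Zq : Subgroup (interGroup σ ⧸ Nh) := π.ker.map mkQ with hZq
  have hZG : π.ker ≤ Gh := fun z hz => by
    show π z ∈ G
    rw [show π z = 1 from hz]; exact G.one_mem
  have hNhG : Nh ≤ Gh := by
    rintro _ ⟨m, rfl⟩
    exact hNG m.2
  have hscal : ∀ z : π.ker, ∃ c : ℂˣ, U z = H39.scalarU c := by
    rintro ⟨⟨⟨g, B⟩, hz⟩, hg⟩
    obtain rfl : g = 1 := hg
    obtain ⟨c, hc⟩ := H39.exists_scalar_of_mem_interSub (B := 1) (B' := B)
      (H39.interSub σ).one_mem (mem_interGroup.mp hz).1
    exact ⟨c, by rw [mul_one] at hc; exact hc⟩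
  choose cf hcf using hscal
  have hcentral : π.ker ≤ Subgroup.center (interGroup σ) := fun z hz => by
    refine Subgroup.mem_center_iff.mpr fun x => Subtype.ext (Prod.ext ?_ ?_)
    · show π x * π z = π z * π x
      rw [show π z = 1 from hz, mul_one, one_mul]
    · show U x * U z = U z * U x
      rw [show U z = _ from hcf ⟨z, hz⟩, H39.scalarU_comm]
  let ch : π.ker →* ℂˣ := MonoidHom.mk' cf fun a b => H39.scalarU_injective (W := Fin n → ℂ) (by
    rw [map_mul, ← hcf, ← hcf, ← hcf, Subgroup.coe_mul, map_mul])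
  have hdisj : ∀ z ∈ π.ker, mkQ z = 1 → z = 1 := by
    intro z hz h
    obtain ⟨m, rfl⟩ := (QuotientGroup.eq_one_iff z).mp h
    have : m = 1 := Subtype.ext (show π (ι m) = 1 from hz)
    rw [this, map_one]
  let eZ : π.ker ≃* Zq := MulEquiv.ofBijective (mkQ.subgroupMap π.ker)
    ⟨by
      rw [← MonoidHom.ker_eq_bot_iff, eq_bot_iff]
      exact fun z hz => Subtype.ext (hdisj z z.2 (congrArg Subtype.val hz)),
     mkQ.subgroupMap_surjective π.ker⟩
  have hidx : Hq.index = G.index := by
    rw [hHq, Subgroup.index_map_eq _ hmk (by rw [QuotientGroup.ker_mk']; exact hNhG), hGh,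
      Subgroup.index_comap_of_surjective _ hπ]
  have hrel : Zq.relIndex Hq = N.relIndex G := by
    rw [hZq, hHq, Subgroup.relIndex_map_map, QuotientGroup.ker_mk', sup_eq_left.mpr hNhG]
    have : π.ker ⊔ Nh = N.comap π := by
      have hmap : Nh.map π = N := by
        rw [MonoidHom.map_range, show π.comp ι = N.subtype from MonoidHom.ext fun m => rfl,
          Subgroup.range_subtype]
      rw [sup_comm, ← Subgroup.comap_map_eq, hmap]
    rw [this, hGh, Subgroup.relIndex_comap, Subgroup.map_comap_eq_self_of_surjective hπ]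
  obtain ⟨η, hη, hηc⟩ := exists_central_invariant Hq Zq (Subgroup.map_mono hZG)
    (by
      rintro _ ⟨z, hz, rfl⟩
      refine Subgroup.mem_center_iff.mpr fun y => ?_
      obtain ⟨x, rfl⟩ := hmk y
      rw [← map_mul, ← map_mul, Subgroup.mem_center_iff.mp (hcentral hz) x])
    ((ch⁻¹).comp eZ.symm.toMonoidHom) (by rw [hidx, hrel]; exact hcop)
    (by
      haveI := hsolv
      let f : interGroup σ ⧸ Nh →* Γ ⧸ G := QuotientGroup.lift Nh
        ((QuotientGroup.mk' G).comp π) fun x hx => (QuotientGroup.eq_one_iff _).mpr (hNhG hx)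
      refine Group.isSolvable_of_isSolvable_injective (f := QuotientGroup.lift Hq f ?_) ?_
      · rintro _ ⟨x, hx, rfl⟩
        exact (QuotientGroup.eq_one_iff _).mpr hx
      · rw [← MonoidHom.ker_eq_bot_iff, eq_bot_iff]
        intro q hq
        obtain ⟨y, rfl⟩ := QuotientGroup.mk_surjective q
        obtain ⟨x, rfl⟩ := hmk y
        exact Subgroup.mem_bot.mpr ((QuotientGroup.eq_one_iff _).mpr
          (Subgroup.mem_map_of_mem _ ((QuotientGroup.eq_one_iff (π x)).mp hq))))
  -- the character of the intertwiners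
  let ρU : Representation ℂ (interGroup σ) (Fin n → ℂ) := (Units.coeHom _).comp U
  have hu : Cfsg.IsCharacter (interGroup σ) ρU.character := H26.isCharacter_char _
  have huN : ∀ m, ρU.character (ι m) = θ.1 m := fun m => by
    rw [← hchar]; rfl
  have huz : ∀ (x : interGroup σ) (z : π.ker),
      ρU.character (x * z) = (cf z : ℂ) * ρU.character x := fun x z => by
    show LinearMap.trace ℂ (Fin n → ℂ) (U (x * z)).val =
      (cf z : ℂ) * LinearMap.trace ℂ (Fin n → ℂ) (U x).val
    rw [map_mul, hcf, ← H39.scalarU_comm, Units.val_mul, H39.scalarU_coe, smul_mul_assoc,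
      map_smul, smul_eq_mul, ← Module.End.one_eq_id, one_mul]
  let toH : Gh →* Hq := mkQ.subgroupMap Gh
  set F : Gh → ℂ := fun x => η.1 (toH x) * ρU.character (x : interGroup σ) with hF
  have hFc : Cfsg.IsCharacter Gh F :=
    H26.isCharacter_mul (H26.isCharacter_comp (H26.irr_isCharacter η) toH)
      (H26.isCharacter_comp hu Gh.subtype)
  have hFirr : Cfsg.IsIrrCharacter Gh F := by
    refine H26.isIrrCharacter_of_norm_one hFc ?_
    let κ : N →* Gh := ι.codRestrict Gh fun m => hNhG ⟨m, rfl⟩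
    have hκ : ∀ m, toH (κ m) = 1 := fun m => Subtype.ext
      ((QuotientGroup.eq_one_iff (ι m)).mpr ⟨m, rfl⟩)
    have hinner : ∀ x : Gh, ∑ m : N, ρU.character ((x * κ m : Gh) : interGroup σ) *
        conj (ρU.character ((x * κ m : Gh) : interGroup σ)) = (Nat.card N : ℂ) := fun x => by
      rw [← sum_trace_mul_trace σ (LinearMap.toMatrix' (ρU (x : interGroup σ)))
        (LinearMap.toMatrix' (ρU (x : interGroup σ)⁻¹)) (by
          rw [← LinearMap.toMatrix'_comp, ← Module.End.mul_eq_comp, ← map_mul, mul_inv_cancel,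
            map_one, Module.End.one_eq_id, LinearMap.toMatrix'_id])]
      refine Finset.sum_congr rfl fun m _ => ?_
      rw [← H26.inv_eq_conj_of_isCharacter hu, Subgroup.coe_mul, mul_inv_rev]
      congr 1
      · show LinearMap.trace ℂ _ (ρU ((x : interGroup σ) * ι m)) = _
        rw [← H26.trace_matHom, map_mul]; rfl
      · show LinearMap.trace ℂ _ (ρU ((ι m)⁻¹ * (x : interGroup σ)⁻¹)) = _
        rw [← H26.trace_matHom, map_mul, ← map_inv ι]; rfl
    have hN0 : (Nat.card N : ℂ) ≠ 0 := Nat.cast_ne_zero.mpr Nat.card_pos.ne'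
    set P : Gh → ℂ := fun x => η.1 (toH x) * conj (η.1 (toH x)) with hP
    set R : Gh → ℂ := fun x => ρU.character (x : interGroup σ) *
      conj (ρU.character (x : interGroup σ)) with hR
    have hshift : ∀ m : N, ∑ x : Gh, P x * R x = ∑ x : Gh, P x * R (x * κ m) := fun m => by
      refine (Fintype.sum_equiv (Equiv.mulRight (κ m)) _ _ fun x => ?_).symm
      show P x * R (x * κ m) = P (x * κ m) * R (x * κ m)
      simp only [hP, map_mul, hκ, mul_one]
    have hPR : ∑ x : Gh, P x * R x = ∑ x : Gh, P x := by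
      refine mul_left_cancel₀ hN0 ?_
      calc (Nat.card N : ℂ) * ∑ x : Gh, P x * R x
          = ∑ m : N, ∑ x : Gh, P x * R (x * κ m) := by
            rw [← Finset.sum_congr rfl fun m _ => hshift m, Finset.sum_const, Finset.card_univ,
              ← Nat.card_eq_fintype_card, nsmul_eq_mul]
        _ = ∑ x : Gh, P x * (Nat.card N : ℂ) := by
            rw [Finset.sum_comm]
            exact Finset.sum_congr rfl fun x _ => by rw [← Finset.mul_sum, hinner x]
        _ = _ := by rw [← Finset.sum_mul, mul_comm]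
    have hPsum : ∑ x : Gh, P x = (Nat.card Gh : ℂ) := by
      have hηη : ∑ y : Hq, η.1 y * conj (η.1 y) = (Nat.card Hq : ℂ) := by
        rw [sum_mul_conj η η, if_pos rfl]
      have hsurj : Function.Surjective toH := mkQ.subgroupMap_surjective Gh
      rw [← Finset.sum_fiberwise Finset.univ toH P,
        Finset.sum_congr rfl fun y _ => show ∑ x ∈ Finset.univ.filter (fun x => toH x = y), P x =
          (Nat.card toH.ker : ℂ) * (η.1 y * conj (η.1 y)) by
          obtain ⟨x₀, rfl⟩ := hsurj y
          rw [Finset.sum_congr rfl fun x hx => show P x = η.1 (toH x₀) * conj (η.1 (toH x₀)) by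
              rw [hP]; simp only [(Finset.mem_filter.mp hx).2],
            Finset.sum_const, nsmul_eq_mul]
          congr 2
          rw [← Fintype.card_subtype, Nat.card_eq_fintype_card]
          refine Fintype.card_congr ((Equiv.mulLeft x₀⁻¹).subtypeEquiv fun x => ?_)
          rw [Equiv.coe_mulLeft, MonoidHom.mem_ker, map_mul, map_inv, inv_mul_eq_one, eq_comm],
        ← Finset.mul_sum, hηη]
      rw [← Nat.cast_mul, Subgroup.card_eq_card_quotient_mul_card_subgroup toH.ker, mul_comm,
        Nat.card_congr (QuotientGroup.quotientKerEquivOfSurjective toH hsurj).toEquiv]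
    rw [Cfsg.classInner]
    have : ∑ x : Gh, F x * conj (F x) = (Nat.card Gh : ℂ) := by
      rw [← hPsum, ← hPR]
      exact Finset.sum_congr rfl fun x _ => by simp only [hF, hP, hR, map_mul]; ring
    rw [this, inv_mul_cancel₀ (Nat.cast_ne_zero.mpr Nat.card_pos.ne')]
  -- descend to `G`
  obtain ⟨k, ρ, hρ, hρF⟩ := hFirr
  let πG : Gh →* G := π.subgroupComap G
  have hπG : Function.Surjective πG := fun g => by
    obtain ⟨x, hx⟩ := hπ g
    exact ⟨⟨x, by show π x ∈ G; rw [hx]; exact g.2⟩, Subtype.ext hx⟩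
  have hker : πG.ker ≤ ρ.ker := fun z hz => by
    have hzk : (z : interGroup σ) ∈ π.ker := congrArg Subtype.val hz
    have h1 : F z = F 1 := by
      have h2 := hηc 1 (eZ ⟨z, hzk⟩)
      rw [MonoidHom.comp_apply, MulEquiv.coe_toMonoidHom, MulEquiv.symm_apply_apply,
        show (⟨((eZ ⟨z, hzk⟩ : Zq) : interGroup σ ⧸ Nh), Subgroup.map_mono hZG (eZ ⟨z, hzk⟩).2⟩ :
          Hq) = toH z from Subtype.ext rfl, one_mul] at h2
      show η.1 (toH z) * ρU.character (z : interGroup σ) =
        η.1 (toH 1) * ρU.character ((1 : Gh) : interGroup σ)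
      have h3 := huz 1 ⟨z, hzk⟩
      rw [one_mul] at h3
      rw [h2, h3, map_one, Subgroup.coe_one]
      rw [show (ch⁻¹ ⟨z, hzk⟩ : ℂˣ) = (cf ⟨z, hzk⟩)⁻¹ from rfl]
      rw [mul_mul_mul_comm, ← Units.val_mul, inv_mul_cancel, Units.val_one, one_mul]
    have h4 : ρ.character z = (finrank ℂ (Fin k → ℂ) : ℂ) := by
      rw [← ρ.char_one, hρF]; exact h1
    exact MonoidHom.mem_ker.mpr ((H25.char_eq_degree_iff ρ z).mp h4)
  have hcongr : ∀ a b : Gh, πG a = πG b → ρ a = ρ b := fun a b h => by
    have h1 : ρ (b⁻¹ * a) = 1 := MonoidHom.mem_ker.mp (hker (by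
      rw [MonoidHom.mem_ker, map_mul, map_inv, h, inv_mul_cancel]))
    rw [← mul_inv_cancel_left b a, map_mul, h1, mul_one]
  let ρ' : Representation ℂ G (Fin k → ℂ) :=
    { toFun := fun g => ρ (Function.surjInv hπG g)
      map_one' := by
        rw [← map_one ρ]
        exact hcongr _ _ (by rw [Function.surjInv_eq hπG, map_one])
      map_mul' := fun g h => by
        rw [← map_mul]
        exact hcongr _ _ (by rw [Function.surjInv_eq hπG, map_mul, Function.surjInv_eq hπG,
          Function.surjInv_eq hπG]) }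
  have hρ' : ∀ x, ρ' (πG x) = ρ x := fun x => hcongr _ _ (Function.surjInv_eq hπG _)
  haveI : ρ'.IsIrreducible := (H26.isIrreducible_iff_forall ρ').2
    ⟨H25.nontrivial_of_isIrreducible ρ, fun V hV =>
      ((H26.isIrreducible_iff_forall ρ).1 inferInstance).2 V fun x v hv => hρ' x ▸ hV (πG x) v hv⟩
  set χ : Cfsg.IrrCharacter G := ⟨ρ'.character, H26.isIrrCharacter_char ρ'⟩
  have hχ : ∀ x : Gh, χ.1 (πG x) = F x := fun x => by
    rw [← hρF]
    show LinearMap.trace ℂ _ (ρ' (πG x)) = _
    rw [hρ']; rfl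
  refine ⟨χ, ?_, fun x g => ?_⟩
  · have hcon : ∀ m : N, χ.1 ⟨m, hNG m.2⟩ = (Cfsg.charDegree η.1 : ℂ) * θ.1 m := fun m => by
      rw [show (⟨(m : Γ), hNG m.2⟩ : G) = πG ⟨ι m, hNhG ⟨m, rfl⟩⟩ from Subtype.ext rfl, hχ]
      show η.1 _ * ρU.character (ι m) = _
      rw [huN, show toH ⟨ι m, hNhG ⟨m, rfl⟩⟩ = 1 from Subtype.ext
        ((QuotientGroup.eq_one_iff (ι m)).mpr ⟨m, rfl⟩), irr_charDegree_spec]
    rw [mult_eq_of_classInner (m := Cfsg.charDegree η.1)]
    · exact (irr_charDegree_pos η).ne'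
    · rw [show (fun m : N => χ.1 ⟨m, hNG m.2⟩) = (Cfsg.charDegree η.1 : ℂ) • θ.1 from funext hcon,
        H26.classInner_smul_left, H26.classInner_irr, if_pos rfl, mul_one]
  · obtain ⟨x', rfl⟩ := hπ x
    obtain ⟨g', rfl⟩ := hπG g
    set y : Gh := MulAut.conjNormal x' g'
    rw [show MulAut.conjNormal (π x') (πG g') = πG y from Subtype.ext (by
      show π x' * π g' * (π x')⁻¹ = π (x' * g' * x'⁻¹)
      rw [map_mul, map_mul, map_inv]), hχ, hχ]
    show η.1 (toH y) * ρU.character (x' * g' * x'⁻¹) = η.1 (toH g') * ρU.character g'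
    rw [Representation.char_conj]
    congr 1
    rw [← hη (mkQ x') (toH g')]
    refine congrArg η.1 (Subtype.ext ?_)
    show mkQ (x' * g' * x'⁻¹) = mkQ x' * mkQ g' * (mkQ x')⁻¹
    rw [map_mul, map_mul, map_inv]

end Group

end Cfsg.Agent.H43
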