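import Cfsg.Agent.H43.GlaubermanSolvable
import Cfsg.Agent.H43.SubgroupAction
import Cfsg.Agent.H43.CoprimeExt
import Cfsg.Agent.H43.CoprimeRestrict

/-!
# Counting characters of degree prime to a coprime complement
-/

namespace Cfsg.Agent.H43

universe u v

/-- Invariant characters are as many as the characters of the fixed points. -/
theorem card_invFun_eq_card_fixed :
    ∀ (n : ℕ) {G : Type u} [Group G] [Finite G] {S : Type v} [Group S] [Finite S],
      Nat.card S = n → Group.IsSolvable S → (Nat.card G).Coprime (Nat.card S) →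
      ∀ φ : S →* MulAut G,
      Nat.card {χ : Cfsg.IrrCharacter G // InvFun φ χ.1} =
        Nat.card (Cfsg.IrrCharacter (fixedSub φ ⊤)) := by
  intro n
  induction n using Nat.strong_induction_on with
  | _ n ih =>
    intro G _ _ S _ _ hn hs hcop φ
    subst hn
    haveI : Fintype G := Fintype.ofFinite G
    rcases subsingleton_or_nontrivial S with hS | hS
    · have htop : fixedSub φ ⊤ = ⊤ := eq_top_iff.mpr fun g _ t _ => by
        rw [Subsingleton.elim t 1, map_one]; rfl
      rw [Nat.card_congr (Equiv.subtypeUnivEquiv (p := fun χ : Cfsg.IrrCharacter G => InvFun φ χ.1)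
          fun χ s g => by rw [Subsingleton.elim s 1, map_one]; rfl)]
      exact Nat.card_congr (irrCongrEquiv
        ((MulEquiv.subgroupCongr htop).trans Subgroup.topEquiv))
    · obtain ⟨T, p, hT, hp, hpT, hdvd, hlt⟩ := exists_normal_pSubgroup (S := S) hs
      haveI := hT
      have hG : ¬ p ∣ Nat.card G := fun h =>
        Nat.not_coprime_of_dvd_of_dvd hp.one_lt h hdvd hcop
      rw [card_invFun_step φ T hp hpT hG, ih _ hlt rfl
        (by haveI : Group.IsSolvable S := hs; infer_instance)
        (Nat.Coprime.coprime_dvd_left (Subgroup.card_subgroup_dvd_card _)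
          (Nat.Coprime.coprime_dvd_right
            (by rw [Subgroup.card_eq_card_quotient_mul_card_subgroup T]; exact dvd_mul_right _ _)
            hcop)) (quotAut φ T)]
      let e : fixedSub (quotAut φ T) ⊤ ≃* fixedSub φ ⊤ :=
        { toFun := fun c => ⟨((c : fixedSub φ T) : G), fun t _ => by
            have := congrArg Subtype.val (c.2 (QuotientGroup.mk t) trivial)
            rwa [quotAut_mk] at this⟩
          invFun := fun c => ⟨⟨(c : G), fun t _ => c.2 t trivial⟩, fun q _ => by
            obtain ⟨t, rfl⟩ := QuotientGroup.mk_surjective q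
            exact Subtype.ext ((quotAut_mk φ T t _).trans (c.2 t trivial))⟩
          left_inv := fun _ => rfl
          right_inv := fun _ => rfl
          map_mul' := fun _ _ => rfl }
      exact Nat.card_congr (irrCongrEquiv e.symm)

variable {G : Type u} [Group G] [Finite G]

/-- Twisting a character by linear characters whose orders are prime to the degree is
injective. -/
theorem irrTwist_injective [Fintype G] (χ : Cfsg.IrrCharacter G) {f f' : G →* ℂˣ} {m : ℕ}
    (hf : f ^ m = 1) (hf' : f' ^ m = 1) (hm : (Cfsg.charDegree χ.1).Coprime m)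
    (h : irrTwist χ f = irrTwist χ f') : f = f' := by
  obtain ⟨f₀, hf₀, -⟩ := exists_detHom (H26.irr_isCharacter χ)
  have h1 := congrArg (fun ψ : Cfsg.IrrCharacter G => Cfsg.detChar ψ.1) h
  simp only [detChar_irrTwist, hf₀] at h1
  have h2 : f ^ Cfsg.charDegree χ.1 = f' ^ Cfsg.charDegree χ.1 := MonoidHom.ext fun g => by
    apply Units.ext
    have h3 := congrFun h1 g
    rw [MonoidHom.pow_apply, MonoidHom.pow_apply, Units.val_pow_eq_pow_val,
      Units.val_pow_eq_pow_val]
    exact mul_left_cancel₀ (Units.ne_zero _) h3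
  refine MonoidHom.ext fun g => ?_
  have e1 : (f g / f' g) ^ Cfsg.charDegree χ.1 = 1 := by
    rw [div_pow, ← MonoidHom.pow_apply, ← MonoidHom.pow_apply, h2, div_self']
  have e2 : (f g / f' g) ^ m = 1 := by
    rw [div_pow, ← MonoidHom.pow_apply, ← MonoidHom.pow_apply, hf, hf', div_self']
  exact div_eq_one.mp (orderOf_eq_one_iff.mp (Nat.eq_one_of_dvd_coprimes hm
    (orderOf_dvd_of_pow_eq_one e1) (orderOf_dvd_of_pow_eq_one e2)))

/-- Characters of degree prime to a coprime complement: invariant characters times linear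
characters of the complement. -/
theorem card_coprimeDegree (K H : Subgroup G) [K.Normal] (hKH : K ⊔ H = ⊤)
    (hcop : (Nat.card K).Coprime (Nat.card H)) :
    Nat.card {χ : Cfsg.IrrCharacter G // (Cfsg.charDegree (χ : G → ℂ)).Coprime (Nat.card H)} =
      Nat.card {θ : Cfsg.IrrCharacter K //
        InvFun ((MulAut.conjNormal (H := K)).comp H.subtype) θ.1} *
        Nat.card (H →* ℂˣ) := by
  classical
  haveI := Fintype.ofFinite G
  haveI : Fintype K := Fintype.ofFinite _
  have hcompl : H.IsComplement' K :=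
    Subgroup.isComplement'_of_disjoint_and_mul_eq_univ (Subgroup.disjoint_of_coprime_natCard hcop.symm)
      (by rw [← Subgroup.mul_normal, sup_comm, hKH, Subgroup.coe_top])
  have hidx : K.index = Nat.card H := hcompl.index_eq_card
  set π : G →* H := hcompl.QuotientMulEquiv.toMonoidHom.comp (QuotientGroup.mk' K) with hπ
  have hπsurj : Function.Surjective π :=
    hcompl.QuotientMulEquiv.surjective.comp (QuotientGroup.mk'_surjective K)
  have hπK : ∀ k ∈ K, π k = 1 := fun k hk => by
    rw [hπ, MonoidHom.comp_apply, QuotientGroup.mk'_apply, (QuotientGroup.eq_one_iff k).mpr hk,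
      map_one]
  have hpow : ∀ f : H →* ℂˣ, (f.comp π) ^ Nat.card H = 1 := fun f => MonoidHom.ext fun g => by
    rw [MonoidHom.pow_apply, MonoidHom.comp_apply, ← map_pow, pow_card_eq_one', map_one,
      MonoidHom.one_apply]
  have hdeg : ∀ θ : Cfsg.IrrCharacter K, (Cfsg.charDegree θ.1).Coprime (Nat.card H) :=
    fun θ => hcop.coprime_dvd_left (irr_charDegree_dvd θ)
  have hord : ∀ θ : Cfsg.IrrCharacter K, (Cfsg.detOrder θ.1).Coprime (Nat.card H) :=
    fun θ => hcop.coprime_dvd_left (detOrder_dvd_card (H26.irr_isCharacter θ))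
  have hinv : ∀ θ : {θ : Cfsg.IrrCharacter K //
      InvFun ((MulAut.conjNormal (H := K)).comp H.subtype) θ.1}, ∀ x : G,
      irrConj K x θ.1 = θ.1 := fun θ =>
    irrConj_eq_self_of_sup_eq_top K θ.1 H hKH
      fun s hs => Subtype.ext (funext fun n => θ.2 ⟨s, hs⟩ n)
  have hext : ∀ θ : {θ : Cfsg.IrrCharacter K //
      InvFun ((MulAut.conjNormal (H := K)).comp H.subtype) θ.1},
      ∃ χ : Cfsg.IrrCharacter G, ∀ n : K, χ.1 n = θ.1.1 n := fun θ => by
    obtain ⟨χ, h, -⟩ := exists_coprime_ext θ.1 (hinv θ)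
      (by rw [hidx]; exact (Nat.Coprime.mul_left (hord θ.1) (hdeg θ.1)).symm)
    exact ⟨χ, h⟩
  choose E hE using hext
  have hEdeg : ∀ θ, Cfsg.charDegree (E θ).1 = Cfsg.charDegree θ.1.1 := fun θ => by
    simp only [Cfsg.charDegree]
    rw [← hE θ 1, Subgroup.coe_one]
  rw [← Nat.card_prod]
  refine (Nat.card_eq_of_bijective (fun x => ⟨irrTwist (E x.1) (x.2.comp π), by
    rw [charDegree_irrTwist, hEdeg]; exact hdeg _⟩) ⟨?_, ?_⟩).symm
  · rintro ⟨θ, f⟩ ⟨θ', f'⟩ h
    simp only [Subtype.mk.injEq] at h
    have hval : ∀ (η : Cfsg.IrrCharacter G) (g : H →* ℂˣ) (n : K),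
        (irrTwist η (g.comp π)).1 n = η.1 n := fun η g n => by
      rw [irrTwist_apply, MonoidHom.comp_apply, hπK n n.2, map_one, Units.val_one, mul_one]
    have hθ : θ = θ' := Subtype.ext (Subtype.ext (funext fun n => by
      rw [← hE θ n, ← hval (E θ) f n, h, hval, hE θ' n]))
    subst hθ
    have hf := irrTwist_injective (E θ) (hpow f) (hpow f') (by rw [hEdeg]; exact hdeg _) h
    exact Prod.ext rfl ((MonoidHom.cancel_right hπsurj).mp hf)
  · rintro ⟨χ, hχ⟩
    obtain ⟨θ, hθ⟩ := exists_irr_restrict K χ (by rw [hidx]; exact hχ)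
    have hθinv : InvFun ((MulAut.conjNormal (H := K)).comp H.subtype) θ.1 := fun s n => by
      rw [← hθ, ← hθ]
      show χ.1 ((s : G) * n * (s : G)⁻¹) = χ.1 n
      rw [H26.irr_conj]
    obtain ⟨f, hf, e⟩ := exists_hom_of_restrict_eq K (E ⟨θ, hθinv⟩) χ θ (hE ⟨θ, hθinv⟩) hθ
    refine ⟨⟨⟨θ, hθinv⟩, f.comp H.subtype⟩, Subtype.ext ?_⟩
    show irrTwist _ ((f.comp H.subtype).comp π) = χ
    rw [e]
    congr 1
    have hle : K ⊔ H ≤ MonoidHom.eqLocus ((f.comp H.subtype).comp π) f := by
      refine sup_le (fun k hk => ?_) (fun h hh => ?_)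
      · show f (π k : G) = f k
        rw [hπK k hk, Subgroup.coe_one, map_one, hf k hk]
      · show f (π h : G) = f h
        have hmem : ((π h : H) : G)⁻¹ * h ∈ K := by
          rw [← QuotientGroup.eq]
          exact hcompl.QuotientMulEquiv.symm_apply_apply (QuotientGroup.mk' K h)
        have := hf _ hmem
        rw [map_mul, map_inv, inv_mul_eq_one] at this
        exact this
    rw [hKH] at hle
    exact MonoidHom.ext fun g => hle (Subgroup.mem_top g)

end Cfsg.Agent.H43
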