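import Cfsg.Agent.H43.IndexPrime

/-!
# Groups of order `p^4`
-/

namespace Cfsg.Agent.H43

variable {P : Type*} [Group P] [Finite P]

/-- A group of prime power order is commutative if its centre has index at most `p`. -/
theorem commutative_of_center_index_le {p n : ℕ} [hp : Fact p.Prime] (hP : Nat.card P = p ^ n)
    (h : p ^ n ≤ Nat.card (Subgroup.center P) * p) : ∀ a b : P, a * b = b * a := by
  obtain ⟨k, hk, hkc⟩ := (Nat.dvd_prime_pow hp.out).mp
    (hP ▸ Subgroup.card_subgroup_dvd_card (Subgroup.center P))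
  have h1 := Subgroup.card_mul_index (Subgroup.center P)
  have hidx : (Subgroup.center P).index ∣ p := by
    rw [hP, hkc] at h1
    rw [hkc, ← pow_succ] at h
    have hn : n ≤ k + 1 := (Nat.pow_le_pow_iff_right hp.out.one_lt).mp h
    have h2 : (Subgroup.center P).index = p ^ (n - k) := by
      have h3 : p ^ n = p ^ k * p ^ (n - k) := by rw [← pow_add]; congr 1; omega
      rw [h3] at h1
      exact Nat.eq_of_mul_eq_mul_left (pow_pos hp.out.pos k) h1
    rw [h2]
    calc p ^ (n - k) ∣ p ^ 1 := pow_dvd_pow p (by omega)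
      _ = p := pow_one p
  have : IsCyclic (P ⧸ Subgroup.center P) := by
    rw [Subgroup.index_eq_card] at hidx
    rcases (Nat.dvd_prime hp.out).mp hidx with h2 | h2
    · have : Subsingleton (P ⧸ Subgroup.center P) := (Nat.card_eq_one_iff_unique.mp h2).1
      infer_instance
    · exact isCyclic_of_prime_card h2
  exact commutative_of_cyclic_center_quotient (QuotientGroup.mk' (Subgroup.center P)) (by simp)

/-- A non-commutative group of order `p^4` has an abelian normal subgroup of index `p`. -/
theorem exists_abelian_index_of_card_prime_pow_four {p : ℕ} [hp : Fact p.Prime]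
    (hP : Nat.card P = p ^ 4) (hne : ¬ ∀ a b : P, a * b = b * a) :
    ∃ A : Subgroup P, A.Normal ∧ (∀ a ∈ A, ∀ b ∈ A, a * b = b * a) ∧ A.index = p := by
  have hPg : IsPGroup p P := IsPGroup.of_card hP
  set Z := Subgroup.center P with hZ
  have : Nontrivial (P ⧸ Z) := by
    rw [QuotientGroup.nontrivial_iff]
    intro h
    exact hne fun a b => (Subgroup.mem_center_iff.mp
      (show b ∈ Subgroup.center P by rw [← hZ, h]; exact Subgroup.mem_top b) a)
  obtain ⟨⟨q, hq⟩, hq1⟩ := @exists_ne _ (IsPGroup.center_nontrivial (hPg.to_quotient Z))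
    (1 : Subgroup.center (P ⧸ Z))
  obtain ⟨y, rfl⟩ := QuotientGroup.mk_surjective q
  have hyZ : y ∉ Z := by
    intro h
    exact hq1 (Subtype.ext ((QuotientGroup.eq_one_iff y).mpr h))
  have hcent : ∀ g : P, g * y * g⁻¹ * y⁻¹ ∈ Z := by
    intro g
    rw [← QuotientGroup.eq_one_iff, QuotientGroup.mk_mul, QuotientGroup.mk_mul, QuotientGroup.mk_mul,
      QuotientGroup.mk_inv, QuotientGroup.mk_inv]
    rw [Subgroup.mem_center_iff.mp hq (g : P ⧸ Z)]
    simp
  let f : P →* Z :=
    { toFun := fun g => ⟨g * y * g⁻¹ * y⁻¹, hcent g⟩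
      map_one' := by ext; simp
      map_mul' := fun g h => by
        ext
        have hc := Subgroup.mem_center_iff.mp (hcent h)
        calc g * h * y * (g * h)⁻¹ * y⁻¹ = g * (h * y * h⁻¹ * y⁻¹) * (y * g⁻¹ * y⁻¹) := by group
          _ = (h * y * h⁻¹ * y⁻¹) * g * (y * g⁻¹ * y⁻¹) := by rw [hc g]
          _ = (h * y * h⁻¹ * y⁻¹) * (g * y * g⁻¹ * y⁻¹) := by group
          _ = (g * y * g⁻¹ * y⁻¹) * (h * y * h⁻¹ * y⁻¹) := (hc _).symm }
  have hZf : ∀ g, g ∈ f.ker ↔ g * y = y * g := by
    intro g
    rw [MonoidHom.mem_ker, Subtype.ext_iff]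
    show g * y * g⁻¹ * y⁻¹ = 1 ↔ _
    rw [mul_inv_eq_one, mul_inv_eq_iff_eq_mul]
  have hle : Z ⊔ Subgroup.zpowers y ≤ f.ker := by
    refine sup_le (fun z hz => (hZf z).mpr (Subgroup.mem_center_iff.mp hz y).symm) ?_
    rw [Subgroup.zpowers_le, hZf]
  have hkne : f.ker ≠ ⊤ := by
    intro h
    exact hyZ (Subgroup.mem_center_iff.mpr fun g => (hZf g).mp (h ▸ Subgroup.mem_top g))
  -- `Z ⊔ ⟨y⟩` is central in `f.ker`
  have hsub : (Z ⊔ Subgroup.zpowers y).subgroupOf f.ker ≤ Subgroup.center f.ker := by
    intro a ha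
    rw [Subgroup.mem_center_iff]
    intro b
    apply Subtype.ext
    have : Z ⊔ Subgroup.zpowers y ≤ Subgroup.centralizer {(b : P)} := by
      refine sup_le (fun z hz => Subgroup.mem_centralizer_singleton_iff.mpr
        (Subgroup.mem_center_iff.mp hz b).symm) ?_
      rw [Subgroup.zpowers_le, Subgroup.mem_centralizer_singleton_iff]
      exact ((hZf b).mp b.2).symm
    exact (Subgroup.mem_centralizer_singleton_iff.mp (this ha)).symm
  -- sizes
  obtain ⟨m, hm, hmc⟩ := (Nat.dvd_prime_pow hp.out).mp (hP ▸ Subgroup.card_subgroup_dvd_card Z)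
  obtain ⟨l, hl, hlc⟩ :=
    (Nat.dvd_prime_pow hp.out).mp (hP ▸ Subgroup.card_subgroup_dvd_card f.ker)
  obtain ⟨j, hj, hjc⟩ := (Nat.dvd_prime_pow hp.out).mp
    (hP ▸ Subgroup.card_subgroup_dvd_card (Z ⊔ Subgroup.zpowers y))
  have hmj : m < j := by
    have hlt : Z < Z ⊔ Subgroup.zpowers y := lt_of_le_of_ne le_sup_left fun h =>
      hyZ (by rw [h]; exact le_sup_right (α := Subgroup P) (Subgroup.mem_zpowers y))
    by_contra hcon
    have := Subgroup.eq_of_le_of_card_ge hlt.le (by
      rw [hmc, hjc]; exact Nat.pow_le_pow_right hp.out.pos (not_lt.mp hcon))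
    exact hlt.ne this
  have hl4 : l ≠ 4 := by
    intro h
    exact hkne (Subgroup.eq_top_of_card_eq _ (by rw [hlc, hP, h]))
  have hrange : Nat.card f.range ∣ p ^ m := hmc ▸ Subgroup.card_subgroup_dvd_card f.range
  have hcm := Subgroup.card_mul_index f.ker
  rw [Subgroup.index_ker, hlc, hP] at hcm
  have h4 : 4 ≤ l + m := by
    have : p ^ 4 ∣ p ^ (l + m) := by
      rw [← hcm, pow_add]; exact mul_dvd_mul_left _ hrange
    exact (Nat.pow_dvd_pow_iff_le_right hp.out.one_lt).mp this
  have hm1 : 1 ≤ m := by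
    by_contra hcon
    have hnt : Nontrivial P := by
      rw [← Finite.one_lt_card_iff_nontrivial, hP]
      exact Nat.one_lt_pow (by norm_num) hp.out.one_lt
    have := IsPGroup.center_nontrivial hPg
    rw [← Finite.one_lt_card_iff_nontrivial, hmc] at this
    simp [show m = 0 by omega] at this
  have hjl : j ≤ l := by
    have := Subgroup.card_le_card_group ((Z ⊔ Subgroup.zpowers y).subgroupOf f.ker)
    rw [Nat.card_congr (Subgroup.subgroupOfEquivOfLe hle).toEquiv, hjc, hlc] at this
    exact (Nat.pow_le_pow_iff_right hp.out.one_lt).mp this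
  have hl3 : l = 3 := by omega
  refine ⟨f.ker, inferInstance, ?_, ?_⟩
  · have hab : ∀ a b : f.ker, a * b = b * a := by
      refine commutative_of_center_index_le (p := p) (n := l) hlc ?_
      have h5 := Subgroup.card_le_of_le hsub
      rw [Nat.card_congr (Subgroup.subgroupOfEquivOfLe hle).toEquiv, hjc] at h5
      calc p ^ l ≤ p ^ j * p := by
            rw [← pow_succ]; exact Nat.pow_le_pow_right hp.out.pos (by omega)
        _ ≤ _ := Nat.mul_le_mul_right p h5
    intro a ha b hb
    exact congrArg Subtype.val (hab ⟨a, ha⟩ ⟨b, hb⟩)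
  · rw [Subgroup.index_ker]
    rw [hl3] at hcm
    exact Nat.eq_of_mul_eq_mul_left (pow_pos hp.out.pos 3) (by rw [hcm, ← pow_succ])

/-- In a non-commutative group of order `p^4`, `[P : P'] = p * |Z(P)|`. -/
theorem index_commutator_of_card_prime_pow_four {p : ℕ} [hp : Fact p.Prime]
    (hP : Nat.card P = p ^ 4) (hne : ¬ ∀ a b : P, a * b = b * a) :
    (commutator P).index = p * Nat.card (Subgroup.center P) := by
  obtain ⟨A, hA, hab, hidx⟩ := exists_abelian_index_of_card_prime_pow_four hP hne
  obtain ⟨x, hx⟩ : ∃ x, x ∉ A := by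
    by_contra h
    push Not at h
    have : A = ⊤ := top_unique fun x _ => h x
    rw [this, Subgroup.index_top] at hidx
    exact hp.out.one_lt.ne hidx
  have h := index_commutator_mul A (hidx ▸ hp.out) hx
  have hcA : commutator A = ⊥ := by
    rw [eq_bot_iff, commutator_def, Subgroup.commutator_le]
    intro a _ b _
    rw [Subgroup.mem_bot, commutatorElement_eq_one_iff_mul_comm]
    exact Subtype.ext (hab a a.2 b b.2)
  rw [hcA, Subgroup.card_bot, mul_one, hidx] at h
  rw [h]
  congr 1
  -- identify the counted set with the centre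
  have hZA : Subgroup.center P ≤ A := by
    intro z hz
    by_contra hzA
    apply hne
    have htop : A ⊔ Subgroup.zpowers z = ⊤ := by
      have hlt : A < A ⊔ Subgroup.zpowers z := lt_of_le_of_ne le_sup_left fun h =>
        hzA (by rw [h]; exact le_sup_right (α := Subgroup P) (Subgroup.mem_zpowers z))
      by_contra hne'
      have hd := Subgroup.relIndex_mul_index hlt.le
      rw [hidx] at hd
      rcases hp.out.eq_one_or_self_of_dvd _ (Dvd.intro_left _ hd) with h1 | h1
      · exact hne' (Subgroup.index_eq_one.mp h1)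
      · rw [h1] at hd
        have : A.relIndex (A ⊔ Subgroup.zpowers z) = 1 := by
          have := hp.out.pos
          nlinarith
        exact hlt.not_ge (Subgroup.relIndex_eq_one.mp this)
    have hall : ∀ a ∈ A, ∀ g : P, g * a = a * g := by
      intro a ha g
      have : A ⊔ Subgroup.zpowers z ≤ Subgroup.centralizer {a} := by
        refine sup_le (fun b hb => Subgroup.mem_centralizer_singleton_iff.mpr (hab b hb a ha)) ?_
        rw [Subgroup.zpowers_le, Subgroup.mem_centralizer_singleton_iff]
        exact (Subgroup.mem_center_iff.mp hz a).symm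
      exact Subgroup.mem_centralizer_singleton_iff.mp (this (htop ▸ Subgroup.mem_top g))
    intro a b
    have : A ⊔ Subgroup.zpowers z ≤ Subgroup.centralizer {b} := by
      refine sup_le (fun c hc => Subgroup.mem_centralizer_singleton_iff.mpr (hall c hc b).symm) ?_
      rw [Subgroup.zpowers_le, Subgroup.mem_centralizer_singleton_iff]
      exact (Subgroup.mem_center_iff.mp hz b).symm
    exact Subgroup.mem_centralizer_singleton_iff.mp (this (htop ▸ Subgroup.mem_top a))
  refine Nat.card_congr
    { toFun := fun n => ⟨(n.1 : P), ?_⟩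
      invFun := fun z => ⟨⟨z.1, hZA z.2⟩, ?_⟩
      left_inv := fun n => rfl
      right_inv := fun z => rfl }
  · have hn : x * (n.1 : P) * x⁻¹ * (n.1 : P)⁻¹ ∈ (⊥ : Subgroup P) := by
      have := n.2; simpa using this
    rw [Subgroup.mem_bot, mul_inv_eq_one, mul_inv_eq_iff_eq_mul] at hn
    have htop : Subgroup.centralizer {(n.1 : P)} = ⊤ := by
      have hle : A ≤ Subgroup.centralizer {(n.1 : P)} := fun b hb =>
        Subgroup.mem_centralizer_singleton_iff.mpr (hab b hb n.1 n.1.2)
      have hlt : A < Subgroup.centralizer {(n.1 : P)} := lt_of_le_of_ne hle fun h =>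
        hx (h ▸ Subgroup.mem_centralizer_singleton_iff.mpr hn)
      by_contra hne'
      have hd := Subgroup.relIndex_mul_index hlt.le
      rw [hidx] at hd
      rcases hp.out.eq_one_or_self_of_dvd _ (Dvd.intro_left _ hd) with h1 | h1
      · exact hne' (Subgroup.index_eq_one.mp h1)
      · rw [h1] at hd
        have : A.relIndex (Subgroup.centralizer {(n.1 : P)}) = 1 := by
          have := hp.out.pos
          nlinarith
        exact hlt.not_ge (Subgroup.relIndex_eq_one.mp this)
    exact Subgroup.mem_center_iff.mpr fun g =>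
      Subgroup.mem_centralizer_singleton_iff.mp (htop ▸ Subgroup.mem_top g)
  · rw [Subgroup.map_bot, Subgroup.mem_bot]
    show x * (z : P) * x⁻¹ * (z : P)⁻¹ = 1
    rw [Subgroup.mem_center_iff.mp z.2 x]
    group

end Cfsg.Agent.H43
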