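import Mathlib
import Cfsg.Agent.H43.Garrison
import Cfsg.Agent.H39.FullyRamified
import Cfsg.Agent.H39.Intertwiner
import Cfsg.Agent.H45.Gallagher

/-!
# A fully ramified section under a cyclic group acting without fixed points
-/

set_option autoImplicit false
set_option maxHeartbeats 800000

namespace Cfsg.Agent.H43

open scoped ComplexConjugate
open Module

/-- Natural numbers whose variance is as small as possible. -/
theorem dvd_of_min_variance {ι : Type*} [Fintype ι] (a : ι → ℕ) (e : ℕ)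
    (hn : 2 ≤ Fintype.card ι) (he : ∑ i, a i = e)
    (h : Fintype.card ι * (∑ i, a i ^ 2) + 1 = e ^ 2 + Fintype.card ι) :
    (Fintype.card ι : ℤ) ∣ (e : ℤ) - 1 ∨ (Fintype.card ι : ℤ) ∣ (e : ℤ) + 1 := by
  classical
  set n := Fintype.card ι with hn'
  have hne : (Finset.univ : Finset ι).Nonempty :=
    Finset.univ_nonempty_iff.mpr (Fintype.card_pos_iff.mp (by omega))
  obtain ⟨i0, -, hi0⟩ := Finset.exists_min_image Finset.univ a hne
  set c : ι → ℕ := fun i => a i - a i0 with hc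
  have hac : ∀ i, a i = c i + a i0 := fun i => by
    have := hi0 i (Finset.mem_univ i)
    simp only [hc]; omega
  set S := ∑ i, c i with hS
  set T := ∑ i, c i ^ 2 with hT
  have hsum : e = S + n * a i0 := by
    rw [← he, Finset.sum_congr rfl fun i _ => hac i, Finset.sum_add_distrib, Finset.sum_const,
      Finset.card_univ, smul_eq_mul]
  have hsq : ∑ i, a i ^ 2 = T + 2 * a i0 * S + n * a i0 ^ 2 := by
    rw [Finset.sum_congr rfl fun i _ => (show a i ^ 2 = c i ^ 2 + 2 * a i0 * c i + a i0 ^ 2 by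
      rw [hac i]; ring), Finset.sum_add_distrib, Finset.sum_add_distrib, ← Finset.mul_sum,
      Finset.sum_const, Finset.card_univ, smul_eq_mul]
  have hkey : n * T + 1 = S ^ 2 + n := by rw [hsq, hsum] at h; ring_nf at h ⊢; omega
  set K := Finset.univ.filter (fun i => c i ≠ 0) with hK
  have hSK : S = ∑ i ∈ K, c i := (Finset.sum_filter_ne_zero _).symm
  have hTK : T = ∑ i ∈ K, c i ^ 2 := by
    rw [hT, hK, Finset.sum_filter]
    refine Finset.sum_congr rfl fun i _ => ?_
    split_ifs with h0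
    · rfl
    · simp [not_not.mp h0]
  have hcs : S ^ 2 ≤ K.card * T := by
    rw [hSK, hTK]; exact sq_sum_le_card_mul_sum_sq
  have hTK' : K.card ≤ T := by
    rw [hTK, Finset.card_eq_sum_ones]
    exact Finset.sum_le_sum fun i hi => Nat.one_le_pow _ _
      (Nat.pos_of_ne_zero (Finset.mem_filter.mp hi).2)
  have hKlt : K.card < n := by
    rw [hn', ← Finset.card_univ]
    refine Finset.card_lt_card ((Finset.ssubset_iff_of_subset (Finset.subset_univ _)).mpr
      ⟨i0, Finset.mem_univ _, ?_⟩)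
    simp [hK, hc]
  obtain ⟨j, hj⟩ : ∃ j, n = K.card + 1 + j := ⟨n - K.card - 1, by omega⟩
  have hTb : (1 + j) * T ≤ K.card + j := by
    have : (K.card + 1 + j) * T + 1 ≤ K.card * T + (K.card + 1 + j) := by rw [← hj]; omega
    nlinarith
  rcases Nat.eq_zero_or_pos K.card with h0 | h0
  · rw [Finset.card_eq_zero] at h0
    have : S = 0 := by rw [hSK, h0, Finset.sum_empty]
    have hT0 : T = 0 := by rw [hTK, h0, Finset.sum_empty]
    rw [this, hT0] at hkey
    simp at hkey
    omega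
  rcases Nat.eq_zero_or_pos j with hj0 | hj0
  · -- all shifted values but one equal one
    subst hj0
    have hT1 : T = K.card := le_antisymm (by simpa using hTb) hTK'
    have hone : ∀ i ∈ K, c i = 1 := by
      intro i hi
      have h1 : ∀ i ∈ K, 1 ≤ c i ^ 2 := fun i hi =>
        Nat.one_le_pow _ _ (Nat.pos_of_ne_zero (Finset.mem_filter.mp hi).2)
      have h2 := (Finset.sum_eq_sum_iff_of_le h1).mp
        (by rw [← Finset.card_eq_sum_ones, ← hTK, hT1]) i hi
      exact (pow_eq_one_iff.mp h2.symm).resolve_right two_ne_zero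
    have hS1 : S = K.card := by
      rw [hSK, Finset.card_eq_sum_ones]; exact Finset.sum_congr rfl hone
    right
    refine ⟨a i0 + 1, ?_⟩
    rw [hsum, hS1, hj]
    push_cast
    ring
  · -- a single shifted value is one
    have hK1 : K.card = 1 := by
      by_contra hne1
      have h2 : 2 ≤ K.card := by omega
      have h4 : j * K.card ≤ j := by nlinarith
      nlinarith
    have hT1 : T = 1 := by
      rw [hK1] at hTb hTK'
      nlinarith
    obtain ⟨i, hi⟩ := Finset.card_eq_one.mp hK1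
    have hci : c i = 1 := by
      rw [hTK, hi, Finset.sum_singleton] at hT1
      exact (pow_eq_one_iff.mp hT1).resolve_right two_ne_zero
    left
    refine ⟨a i0, ?_⟩
    rw [hsum, hSK, hi, Finset.sum_singleton, hci]
    push_cast
    ring

/-- Summing a function of the cosets over the group. -/
theorem sum_comp_quotient {G : Type*} [Group G] [Fintype G] (S : Subgroup G) [Fintype (G ⧸ S)]
    (f : G ⧸ S → ℝ) : ∑ g : G, f (g : G ⧸ S) = (Nat.card S : ℝ) * ∑ q : G ⧸ S, f q := by
  classical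
  rw [Finset.mul_sum, ← Finset.sum_fiberwise_of_maps_to
    (g := fun g : G => (g : G ⧸ S)) (t := Finset.univ) (fun _ _ => Finset.mem_univ _)]
  refine Finset.sum_congr rfl fun q _ => ?_
  rw [Finset.sum_congr rfl fun g hg => by rw [(Finset.mem_filter.mp hg).2], Finset.sum_const,
    nsmul_eq_mul]
  congr 1
  obtain ⟨a, rfl⟩ := QuotientGroup.mk_surjective q
  rw [← Fintype.card_subtype, ← Nat.card_eq_fintype_card, Nat.cast_inj]
  exact Nat.card_congr
    { toFun := fun g => ⟨a⁻¹ * g.1, QuotientGroup.eq.mp g.2.symm⟩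
      invFun := fun s => ⟨a * s, QuotientGroup.eq.mpr (by simp)⟩
      left_inv := fun g => Subtype.ext (by simp)
      right_inv := fun s => Subtype.ext (by simp) }

/-- A function constant on `G`-classes has the same average on `y N` as on `y G` when conjugation
by `y` fixes only the trivial coset of `G / N`. -/
theorem sum_coset_eq_of_fixed_point_free {Γ : Type*} [Group Γ] [Fintype Γ] (G N : Subgroup Γ)
    [hG : G.Normal] [hN : N.Normal] [Fintype G] [Fintype N] (hNG : N ≤ G) (F : Γ → ℝ)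
    (hF : ∀ g x : Γ, F (x * g * x⁻¹) = F g) (y : Γ)
    (hy : ∀ g ∈ G, y * g * y⁻¹ * g⁻¹ ∈ N → g ∈ N) :
    (Nat.card G : ℝ) * ∑ m : N, F (y * m) = (Nat.card N : ℝ) * ∑ g : G, F (y * g) := by
  classical
  set S := N.subgroupOf G with hS
  have : S.Normal := hN.subgroupOf G
  let _ : Fintype (G ⧸ S) := Fintype.ofFinite _
  let c : G → G := fun h => ⟨y⁻¹ * h * y * (h : Γ)⁻¹,
    G.mul_mem (by simpa using hG.conj_mem h h.2 y⁻¹) (G.inv_mem h.2)⟩
  have hB : ∀ a b : G, (a : G ⧸ S) = b → ∑ m : N, F (y * a * m) = ∑ m : N, F (y * b * m) := by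
    intro a b hab
    have h1 : (a : Γ)⁻¹ * b ∈ N := Subgroup.mem_subgroupOf.mp (QuotientGroup.eq.mp hab)
    refine (Fintype.sum_equiv (Equiv.mulLeft (⟨(a : Γ)⁻¹ * b, h1⟩ : N)) _ _ fun m => ?_).symm
    simp [mul_assoc]
  let B : G ⧸ S → ℝ := fun q => ∑ m : N, F (y * q.out * m)
  have hBa : ∀ a : G, B a = ∑ m : N, F (y * a * m) := fun a =>
    hB _ _ (QuotientGroup.out_eq' _)
  have hc' : ∀ a b : G, (c a : G ⧸ S) = c b ↔ (a : G ⧸ S) = b := by
    intro a b
    set d : G := ⟨(a : Γ)⁻¹ * b, G.mul_mem (G.inv_mem a.2) b.2⟩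
    have e : ((c a)⁻¹ * c b : G) = ⟨(a : Γ) * (y⁻¹ * d * y * (d : Γ)⁻¹) * (a : Γ)⁻¹,
        G.mul_mem (G.mul_mem a.2 (c d).2) (G.inv_mem a.2)⟩ := by
      apply Subtype.ext
      simp only [c, d, Subgroup.coe_mul, Subgroup.coe_inv]
      group
    rw [QuotientGroup.eq, QuotientGroup.eq, Subgroup.mem_subgroupOf, Subgroup.mem_subgroupOf, e]
    constructor
    · intro h
      have h2 := hN.conj_mem _ h (a : Γ)⁻¹
      have h3 : y⁻¹ * (d : Γ) * y * (d : Γ)⁻¹ ∈ N := by
        convert h2 using 1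
        group
      have h4 : y * (d : Γ) * y⁻¹ * (d : Γ)⁻¹ ∈ N := by
        have h5 := N.inv_mem (hN.conj_mem _ h3 y)
        convert h5 using 1
        group
      exact hy d d.2 h4
    · intro h
      apply hN.conj_mem
      exact N.mul_mem (by simpa using hN.conj_mem _ h y⁻¹) (N.inv_mem h)
  let cb : G ⧸ S → G ⧸ S := fun q => (c q.out : G ⧸ S)
  have hcb : Function.Injective cb := fun p q hpq => by
    rw [← QuotientGroup.out_eq' p, ← QuotientGroup.out_eq' q]
    exact (hc' _ _).mp hpq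
  have h1 : ∑ h : G, B (c h) = ∑ h : G, B h := by
    rw [show ∑ h : G, B (c h) = ∑ h : G, (B ∘ cb) (h : G ⧸ S) from Finset.sum_congr rfl fun h _ => by
        rw [Function.comp_apply, (hc' h _).mpr (QuotientGroup.out_eq' (h : G ⧸ S)).symm],
      sum_comp_quotient, sum_comp_quotient]
    congr 1
    exact (Finite.injective_iff_bijective.mp hcb).sum_comp B
  have h2 : ∀ h : G, B (c h) = ∑ m : N, F (y * m) := by
    intro h
    rw [hBa]
    refine Fintype.sum_equiv ((MulAut.conjNormal (h : Γ)).symm.toEquiv) _ _ fun m => ?_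
    have e : y * ((c h : G) : Γ) * m =
        (h : Γ) * (y * ((MulAut.conjNormal (h : Γ)).symm m : N)) * (h : Γ)⁻¹ := by
      simp only [c, MulAut.conjNormal_symm_apply]
      group
    rw [e, hF]
    rfl
  have h3 : ∑ h : G, B h = (Nat.card N : ℝ) * ∑ g : G, F (y * g) := by
    simp only [hBa]
    rw [Finset.sum_comm, Finset.sum_congr rfl fun (m : N) _ => Fintype.sum_equiv
      (Equiv.mulRight (⟨(m : Γ), hNG m.2⟩ : G)) (fun g : G => F (y * g * m))
      (fun g : G => F (y * g)) (fun g => by simp [mul_assoc]),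
      Finset.sum_const, nsmul_eq_mul, Finset.card_univ, ← Nat.card_eq_fintype_card]
  simp only [h2, Finset.sum_const, nsmul_eq_mul, Finset.card_univ, ← Nat.card_eq_fintype_card] at h1
  rw [h1, h3]

/-- The theorem. -/
theorem index_dvd_pred_or_succ {Γ : Type*} [Group Γ] [Fintype Γ] (G N : Subgroup Γ) [hG : G.Normal]
    [hN : N.Normal] [Fintype G] [Fintype N] (hNG : N ≤ G) (hGlt : G ≠ ⊤)
    (hcyc : IsCyclic (Γ ⧸ G))
    (hfrob : ∀ x : Γ, x ∉ G → ∀ g : Γ, g ∈ G → x * g * x⁻¹ * g⁻¹ ∈ N → g ∈ N)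
    (θ : Cfsg.IrrCharacter N) (hinv : ∀ (x : Γ) (n : N), θ.1 (MulAut.conjNormal x n) = θ.1 n)
    (χ : Cfsg.IrrCharacter G) (e : ℕ)
    (hram : Cfsg.indFun (N.subgroupOf G)
      (fun n : N.subgroupOf G => θ.1 ⟨(n : G), n.2⟩) = fun g => (e : ℂ) * χ.1 g) :
    (G.index : ℤ) ∣ (e : ℤ) - 1 ∨ (G.index : ℤ) ∣ (e : ℤ) + 1 := by
  classical
  -- fully ramified: values of `χ`
  set S := N.subgroupOf G with hS
  have : S.Normal := hN.subgroupOf G
  let eS : S ≃* N := Subgroup.subgroupOfEquivOfLe hNG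
  set θS : Cfsg.IrrCharacter S := irrCongr eS θ with hθS
  have hθSv : (fun n : S => θ.1 ⟨(n : G), n.2⟩) = θS.1 := by
    funext n; rw [hθS, irrCongr_apply]; rfl
  have hinvS : ∀ (g : G) (n : S), θS.1 (H39.conjN g n) = θS.1 n := by
    intro g n
    rw [← hθSv]
    show θ.1 _ = θ.1 _
    rw [← hinv (g : Γ) ⟨(n : G), n.2⟩]
    congr 1
  rw [hθSv] at hram
  obtain ⟨m, hm1, hm2, hm3⟩ := H39.sum_classInner_sq_eq_index θS.2 hinvS
  have hm : ∀ ψ : Cfsg.IrrCharacter G, (m ψ : ℂ) = if χ = ψ then (e : ℂ) else 0 := by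
    intro ψ
    rw [← hm2 ψ, hram, show (fun g => (e : ℂ) * χ.1 g) = (e : ℂ) • χ.1 from rfl,
      H26.classInner_smul_left, H26.classInner_irr]
    split_ifs <;> simp
  have hmχ : m χ = e := by
    have := hm χ; rw [if_pos rfl] at this; exact_mod_cast this
  have hmne : ∀ ψ, χ ≠ ψ → m ψ = 0 := fun ψ h => by
    have := hm ψ; rw [if_neg h] at this; exact_mod_cast this
  have he2 : e ^ 2 = S.index := by
    rw [← hm3, Finset.sum_eq_single χ (fun ψ _ h => by rw [hmne ψ (Ne.symm h)]; simp)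
      (fun h => absurd (Finset.mem_univ _) h), hmχ]
  have he0 : e ≠ 0 := fun h => S.index_ne_zero_of_finite (by rw [← he2, h]; rfl)
  obtain ⟨e', -, he', hres⟩ := H39.restrict_eq_smul_of_invariant χ.2 θS.2 hinvS
    (by rw [hm1, hmχ]; exact_mod_cast he0)
  rw [hm1, hmχ, Nat.cast_inj] at he'
  subst he'
  have hvan := (H39.vanish_iff_sq_eq_index χ.2 θS.2 hres).mpr he2
  have hval : ∀ (g : G) (h : (g : Γ) ∈ N), χ.1 g = (e : ℂ) * θ.1 ⟨g, h⟩ := by
    intro g h
    have := congrFun hres (⟨g, Subgroup.mem_subgroupOf.mpr h⟩ : S)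
    rw [Pi.smul_apply, smul_eq_mul, ← hθSv] at this
    exact this
  have hoff : ∀ g : G, (g : Γ) ∉ N → χ.1 g = 0 := fun g h =>
    hvan g (fun h' => h (Subgroup.mem_subgroupOf.mp h'))
  -- extension to `Γ`
  obtain ⟨dG, σ, hσ, hσc⟩ := χ.2
  haveI := hσ
  obtain ⟨E0, hE0, hE0r⟩ := H39.exists_ext_of_cyclic_quotient σ hcyc (fun x g => by
    rw [hσc]
    by_cases h : (g : Γ) ∈ N
    · have h' : ((H39.conjN x g : G) : Γ) ∈ N := hN.conj_mem _ h x
      rw [hval _ h', hval _ h, ← hinv x ⟨g, h⟩]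
      rfl
    · rw [hoff g h, hoff]
      intro h'
      apply h
      have h2 := hN.conj_mem _ h' x⁻¹
      simpa [H39.conjN, mul_assoc] using h2)
  set E : Cfsg.IrrCharacter Γ := ⟨E0, hE0⟩
  have hEr : ∀ g : G, E.1 g = χ.1 g := fun g => by rw [← hσc]; exact hE0r g
  set F : Γ → ℝ := fun g => ‖E.1 g‖ ^ 2
  have hFc : ∀ g x : Γ, F (x * g * x⁻¹) = F g := fun g x => by
    simp only [F]; rw [H26.irr_conj]
  have hcoset : ∀ y : Γ, y ∉ G → ∑ k : N, F (y * k) = (Nat.card N : ℝ) := by
    intro y hy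
    have h1 : ∑ g : G, F (y * g) = (Nat.card G : ℝ) := by
      rw [← H45.coset_norm_eq_card G E (by
        rw [show (fun n : G => E.1 n) = χ.1 from funext hEr]; exact χ.2) y]
      refine Fintype.sum_equiv (MulAut.conjNormal y).toEquiv _ _ fun g => ?_
      simp [F, MulAut.conjNormal_apply, mul_assoc]
    have h2 := sum_coset_eq_of_fixed_point_free G N hNG F hFc y (hfrob y hy)
    rw [h1, mul_comm (Nat.card N : ℝ)] at h2
    exact mul_left_cancel₀ (Nat.cast_ne_zero.mpr Nat.card_pos.ne') h2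
  -- the subgroup generated by a generator and `N`
  obtain ⟨q0, hq0⟩ := hcyc.exists_generator
  obtain ⟨x, rfl⟩ := QuotientGroup.mk_surjective q0
  have hxG : x ∉ G := by
    intro hx
    apply hGlt
    rw [eq_top_iff]
    intro g _
    obtain ⟨i, hi⟩ := Subgroup.mem_zpowers_iff.mp (hq0 (g : Γ ⧸ G))
    rw [(QuotientGroup.eq_one_iff x).mpr hx, one_zpow] at hi
    exact (QuotientGroup.eq_one_iff g).mp hi.symm
  set U := Subgroup.zpowers x ⊔ N with hU
  let _ : Fintype U := Fintype.ofFinite _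
  have hUdec : ∀ u ∈ U, ∃ i : ℤ, ∃ k ∈ N, u = x ^ i * k := by
    intro u hu
    rw [hU, ← SetLike.mem_coe, Subgroup.mul_normal] at hu
    obtain ⟨z, hz, k, hk, rfl⟩ := hu
    obtain ⟨i, rfl⟩ := Subgroup.mem_zpowers_iff.mp hz
    exact ⟨i, k, hk, rfl⟩
  have hUG : ∀ u ∈ U, u ∈ G → u ∈ N := by
    intro u hu huG
    obtain ⟨i, k, hk, rfl⟩ := hUdec u hu
    have h1 : x ^ i ∈ G := by simpa using G.mul_mem huG (G.inv_mem (hNG hk))
    refine N.mul_mem (hfrob x hxG _ h1 ?_) hk
    rw [show x * x ^ i * x⁻¹ * (x ^ i)⁻¹ = 1 by group]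
    exact N.one_mem
  set NU := N.subgroupOf U with hNU
  have : NU.Normal := hN.subgroupOf U
  let _ : Fintype (U ⧸ NU) := Fintype.ofFinite _
  have hNUle : N ≤ U := le_sup_right
  have hindex : NU.index = G.index := by
    have h1 : NU = G.subgroupOf U := by
      ext u
      rw [hNU, Subgroup.mem_subgroupOf, Subgroup.mem_subgroupOf]
      exact ⟨fun h => hNG h, hUG _ u.2⟩
    have h2 : U ⊔ G = ⊤ := by
      rw [eq_top_iff]
      intro g _
      obtain ⟨i, hi⟩ := Subgroup.mem_zpowers_iff.mp (hq0 (g : Γ ⧸ G))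
      rw [← QuotientGroup.mk_zpow, QuotientGroup.eq] at hi
      have := Subgroup.mul_mem (U ⊔ G) (Subgroup.mem_sup_left (U.zpow_mem
        (show x ∈ U from Subgroup.mem_sup_left (Subgroup.mem_zpowers x)) i))
        (Subgroup.mem_sup_right hi)
      rwa [mul_inv_cancel_left] at this
    rw [h1, ← Subgroup.relIndex, ← Subgroup.relIndex_sup_right, h2, Subgroup.relIndex_top_right]
  have hcycU : IsCyclic (U ⧸ NU) := by
    refine ⟨⟨QuotientGroup.mk ⟨x, Subgroup.mem_sup_left (Subgroup.mem_zpowers x)⟩, fun q => ?_⟩⟩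
    obtain ⟨u, rfl⟩ := QuotientGroup.mk_surjective q
    obtain ⟨i, k, hk, hu⟩ := hUdec u u.2
    refine Subgroup.mem_zpowers_iff.mpr ⟨i, ?_⟩
    rw [← QuotientGroup.mk_zpow, QuotientGroup.eq, hNU, Subgroup.mem_subgroupOf,
      Subgroup.coe_mul, Subgroup.coe_inv, Subgroup.coe_zpow, hu, inv_mul_cancel_left]
    exact hk
  let eU : NU ≃* N := Subgroup.subgroupOfEquivOfLe hNUle
  set θU : Cfsg.IrrCharacter NU := irrCongr eU θ with hθU
  have hθUv : ∀ k : NU, θU.1 k = θ.1 ⟨(k : U), k.2⟩ := fun k => by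
    rw [hθU, irrCongr_apply]; rfl
  obtain ⟨dN, τ, hτ, hτc⟩ := θU.2
  haveI := hτ
  obtain ⟨η0, hη0, hη0r⟩ := H39.exists_ext_of_cyclic_quotient τ hcycU (fun u k => by
    rw [hτc, hθUv, hθUv, ← hinv (u : Γ) ⟨(k : U), k.2⟩]
    rfl)
  set η : Cfsg.IrrCharacter U := ⟨η0, hη0⟩
  have hηN : ∀ k : NU, η.1 k = θU.1 k := fun k => by rw [← hτc]; exact hη0r k
  -- every character above `θ` has degree `θ(1)` and multiplicity one
  have habove : ∀ ψ : Cfsg.IrrCharacter U, mult (fun k : NU => ψ.1 k) θU ≠ 0 →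
      Cfsg.charDegree ψ.1 = Cfsg.charDegree θU.1 ∧ mult (fun k : NU => ψ.1 k) θU = 1 := by
    intro ψ hψ
    have hψc : Cfsg.IsCharacter NU (fun k : NU => ψ.1 k) :=
      H26.isCharacter_comp (H26.irr_isCharacter ψ) NU.subtype
    obtain ⟨ζ, hζ⟩ := H45.exists_extMul NU η
      (by rw [show (fun k : NU => η.1 k) = θU.1 from funext hηN]; exact θU.2) ψ (by
        rw [show (fun k : NU => η.1 k) = θU.1 from funext hηN, classInner_eq_mult hψc]
        exact_mod_cast hψ)
    have hdeg : Cfsg.charDegree ψ.1 = Cfsg.charDegree θU.1 := by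
      have h1 := congrFun hζ 1
      have hab : ∀ a b : U ⧸ NU, a * b = b * a := by
        intro a b
        obtain ⟨g, hg⟩ := hcycU.exists_generator
        obtain ⟨i, rfl⟩ := Subgroup.mem_zpowers_iff.mp (hg a)
        obtain ⟨j, rfl⟩ := Subgroup.mem_zpowers_iff.mp (hg b)
        exact (Commute.zpow_zpow_self g i j).eq
      rw [H45.extMul, QuotientGroup.mk_one, H26.irr_one_eq_one_of_comm hab, mul_one,
        ← Subgroup.coe_one NU, hηN, irr_charDegree_spec, Subgroup.coe_one, irr_charDegree_spec,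
        Nat.cast_inj] at h1
      exact h1.symm
    refine ⟨hdeg, ?_⟩
    rw [eq_constituent_of_degree_le hψc hψ (d := Cfsg.charDegree ψ.1)
      (irr_charDegree_spec ψ) hdeg.le]
    exact mult_eq_of_classInner (by rw [H26.classInner_irr, if_pos rfl, Nat.cast_one])
  set T := Finset.univ.filter (fun ψ : Cfsg.IrrCharacter U => mult (fun k : NU => ψ.1 k) θU ≠ 0)
    with hT
  have hTcard : T.card = G.index := by
    have h := sum_mult_degree_above NU θU
    rw [← Finset.sum_filter_of_ne (s := Finset.univ)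
      (p := fun ψ : Cfsg.IrrCharacter U => mult (fun k : NU => ψ.1 k) θU ≠ 0)
      (fun ψ _ h => left_ne_zero_of_mul h), ← hT,
      Finset.sum_congr rfl fun ψ hψ => by
        rw [(habove ψ (Finset.mem_filter.mp hψ).2).1, (habove ψ (Finset.mem_filter.mp hψ).2).2,
          one_mul], Finset.sum_const, smul_eq_mul] at h
    rw [← hindex]
    exact Nat.eq_of_mul_eq_mul_right (irr_charDegree_pos θU) h
  -- multiplicities in the restriction of `E`
  set φ : U → ℂ := fun u => E.1 u
  have hφ : Cfsg.IsCharacter U φ := H26.isCharacter_comp (H26.irr_isCharacter E) U.subtype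
  have hφN : ∀ k : NU, φ k = (e : ℂ) * θU.1 k := fun k => by
    rw [hθUv]
    exact (hEr ⟨(k : U), hNG k.2⟩).trans (hval ⟨(k : U), hNG k.2⟩ k.2)
  have hsum : ∑ ψ, mult φ ψ * mult (fun k : NU => ψ.1 k) θU = e := by
    refine (mult_comp NU.subtype hφ θU).symm.trans ?_
    refine mult_eq_of_classInner ?_
    rw [show (fun d : NU => φ (NU.subtype d)) = (e : ℂ) • θU.1 from funext hφN,
      H26.classInner_smul_left, H26.classInner_irr, if_pos rfl, mul_one]
  have hTsum : ∑ ψ ∈ T, mult φ ψ = e := by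
    conv_rhs => rw [← hsum]
    rw [hT, Finset.sum_filter]
    refine Finset.sum_congr rfl fun ψ _ => ?_
    split_ifs with h
    · rw [(habove ψ h).2, mul_one]
    · rw [not_not.mp h, mul_zero]
  have hout : ∀ ψ, ψ ∉ T → mult φ ψ = 0 := by
    have h1 := apply_one_eq_sum_mult hφ
    have hφ1 : φ 1 = ((e * Cfsg.charDegree θU.1 : ℕ) : ℂ) := by
      rw [← Subgroup.coe_one NU, hφN, irr_charDegree_spec, Nat.cast_mul]
    rw [hφ1] at h1
    have h2 : e * Cfsg.charDegree θU.1 =
        ∑ ψ : Cfsg.IrrCharacter U, mult φ ψ * Cfsg.charDegree ψ.1 := by exact_mod_cast h1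
    rw [← Finset.sum_filter_add_sum_filter_not Finset.univ
      (fun ψ : Cfsg.IrrCharacter U => mult (fun k : NU => ψ.1 k) θU ≠ 0), ← hT,
      Finset.sum_congr rfl (fun ψ hψ => by rw [(habove ψ (Finset.mem_filter.mp hψ).2).1] :
        ∀ ψ ∈ T, mult φ ψ * Cfsg.charDegree ψ.1 = mult φ ψ * Cfsg.charDegree θU.1),
      ← Finset.sum_mul, hTsum] at h2
    intro ψ hψ
    have h0 := Finset.sum_eq_zero_iff.mp (show ∑ ψ ∈ Finset.univ.filter
      (fun ψ : Cfsg.IrrCharacter U => ¬ mult (fun k : NU => ψ.1 k) θU ≠ 0),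
        mult φ ψ * Cfsg.charDegree ψ.1 = 0 by omega) ψ (by simpa [hT] using hψ)
    exact (Nat.mul_eq_zero.mp h0).resolve_right (irr_charDegree_pos ψ).ne'
  have hsq : ((∑ ψ ∈ T, mult φ ψ ^ 2 : ℕ) : ℂ) = Cfsg.classInner φ φ := by
    rw [H26.classInner_eq_sum φ φ (H26.isClassFunction_of_isCharacter hφ)]
    simp only [classInner_eq_mult hφ, map_natCast]
    rw [Nat.cast_sum]
    refine Eq.trans (Finset.sum_congr rfl fun ψ _ => ?_)
      (Finset.sum_subset (Finset.subset_univ T) fun ψ _ hψ => ?_)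
    · push_cast; ring
    · rw [hout ψ hψ]; simp
  have hnorm : ∑ u : U, F u = (e : ℝ) ^ 2 * Nat.card N + Nat.card U - Nat.card N := by
    have hB : ∀ u : U, ∑ k : N, F (u * k) =
        (Nat.card N : ℝ) + if (u : Γ) ∈ N then ((e : ℝ) ^ 2 - 1) * Nat.card N else 0 := by
      intro u
      by_cases hu : (u : Γ) ∈ N
      · rw [if_pos hu, Fintype.sum_equiv (Equiv.mulLeft (⟨(u : Γ), hu⟩ : N))
          (fun k : N => F (u * k)) (fun k : N => (e : ℝ) ^ 2 * ‖θ.1 k‖ ^ 2) (fun k => by
            simp only [F, Equiv.coe_mulLeft]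
            rw [show E.1 ((u : Γ) * k) = _ from
              (hEr ⟨_, hNG (N.mul_mem hu k.2)⟩).trans (hval _ (N.mul_mem hu k.2)),
              norm_mul, mul_pow, Complex.norm_natCast]
            rfl)]
        have hθn : ∑ k : N, ‖θ.1 k‖ ^ 2 = (Nat.card N : ℝ) := by
          have h := H26.classInner_irr θ θ
          rw [if_pos rfl, Cfsg.classInner, inv_mul_eq_iff_eq_mul₀
            (Nat.cast_ne_zero.mpr Nat.card_pos.ne'), mul_one] at h
          simp only [Complex.mul_conj, Complex.normSq_eq_norm_sq] at h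
          exact_mod_cast h
        rw [← Finset.mul_sum, hθn]
        ring
      · rw [if_neg hu, add_zero]
        exact hcoset _ fun h => hu (hUG _ u.2 h)
    have h1 : ∑ u : U, ∑ k : N, F (u * k) = (Nat.card N : ℝ) * ∑ u : U, F u := by
      rw [Finset.sum_comm, Finset.sum_congr rfl fun (k : N) _ => Fintype.sum_equiv
        (Equiv.mulRight (⟨(k : Γ), hNUle k.2⟩ : U)) (fun u : U => F (u * k))
        (fun u : U => F u) (fun u => by simp),
        Finset.sum_const, nsmul_eq_mul, Finset.card_univ, ← Nat.card_eq_fintype_card]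
    simp only [hB, Finset.sum_add_distrib, Finset.sum_const, nsmul_eq_mul, Finset.card_univ,
      ← Finset.sum_filter] at h1
    have hcardN : ((Finset.univ : Finset U).filter fun u : U => (u : Γ) ∈ N).card = Nat.card N := by
      rw [← Fintype.card_subtype, ← Nat.card_eq_fintype_card]
      exact Nat.card_congr eU.toEquiv
    rw [hcardN, ← Nat.card_eq_fintype_card] at h1
    refine mul_left_cancel₀ (Nat.cast_ne_zero.mpr (Nat.card_pos (α := N)).ne') (h1.symm.trans ?_)
    ring
  have hcardU : Nat.card U = G.index * Nat.card N := by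
    rw [← NU.card_mul_index, hindex, Nat.card_congr eU.toEquiv, mul_comm]
  have hfin : G.index * (∑ ψ ∈ T, mult φ ψ ^ 2) + 1 = e ^ 2 + G.index := by
    have h1 : Cfsg.classInner φ φ = (((Nat.card U : ℝ))⁻¹ * ∑ u : U, F u : ℝ) := by
      rw [Cfsg.classInner]
      push_cast
      congr 1
      refine Finset.sum_congr rfl fun u _ => ?_
      simp [F, φ, Complex.mul_conj, Complex.normSq_eq_norm_sq]
    rw [← hsq, ← Complex.ofReal_natCast, Complex.ofReal_inj, hnorm, hcardU] at h1
    have h2 : ((G.index : ℝ) * (∑ ψ ∈ T, mult φ ψ ^ 2 : ℕ) + 1) = (e : ℝ) ^ 2 + G.index := by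
      rw [h1]
      have hn0 : (G.index : ℝ) ≠ 0 := Nat.cast_ne_zero.mpr G.index_ne_zero_of_finite
      have hN0 : (Nat.card N : ℝ) ≠ 0 := Nat.cast_ne_zero.mpr Nat.card_pos.ne'
      push_cast
      field_simp
      ring
    exact_mod_cast h2
  have hn2 : 2 ≤ G.index := by
    have h1 := G.index_ne_zero_of_finite
    have h2 : G.index ≠ 1 := fun h => hGlt (Subgroup.index_eq_one.mp h)
    omega
  have := dvd_of_min_variance (ι := T) (fun ψ => mult φ ψ.1) e
    (by rw [Fintype.card_coe, hTcard]; exact hn2)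
    (by rw [Finset.sum_coe_sort]; exact hTsum)
    (by rw [Fintype.card_coe, hTcard, Finset.sum_coe_sort T fun ψ => mult φ ψ ^ 2]; exact hfin)
  rwa [Fintype.card_coe, hTcard] at this

end Cfsg.Agent.H43
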