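import Mathlib
import Cfsg.Agent.S4456
import Cfsg.Agent.H44.NormalDegrees
import Cfsg.Agent.H45.CliffordLinear
import Cfsg.Agent.H44.Inflation
import Cfsg.Agent.H26.CharLinear
import Cfsg.Agent.H25.TwoDegrees

/-!
# The structure of groups with two character degrees
-/

set_option autoImplicit false
set_option maxHeartbeats 800000

namespace Cfsg.Agent.H43.TwoDeg

attribute [local instance] Fintype.ofFinite Classical.propDecidable

universe u v

section Action

variable {Q : Type u} [Group Q] [Finite Q] {V : Type v} [CommGroup V] [Finite V]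
  (φ : Q →* MulAut V)

/-- The stabilizer of an element under an action by automorphisms. -/
def stab (a : V) : Subgroup Q where
  carrier := {x | φ x a = a}
  one_mem' := by simp
  mul_mem' := fun {x y} hx hy => by
    simp only [Set.mem_setOf_eq] at hx hy ⊢
    rw [map_mul, MulAut.mul_apply, hy, hx]
  inv_mem' := fun {x} hx => by
    simp only [Set.mem_setOf_eq] at hx ⊢
    conv_lhs => rw [← hx]
    rw [map_inv, MulAut.inv_apply_self]

theorem mem_stab {a : V} {x : Q} : x ∈ stab φ a ↔ φ x a = a := Iff.rfl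

/-- A normal stabilizer of index `m` acts trivially if all stabilizers have index `1` or `m`. -/
theorem trivial_of_normal_stab {m : ℕ} (hm : 1 ≤ m) (hcop : (Nat.card V).Coprime (Nat.card Q))
    (hidx : ∀ a, (stab φ a).index = 1 ∨ (stab φ a).index = m) (l : V) (hl : (stab φ l).index = m)
    (hn : (stab φ l).Normal) : ∀ c ∈ stab φ l, ∀ a, φ c a = a := by
  by_contra hc
  simp only [not_forall] at hc
  obtain ⟨c₀, hc₀, μ₀, hμ₀⟩ := hc
  set C := stab φ l with hC
  have hpow : ∀ a b : V, a ^ Nat.card C = b ^ Nat.card C → a = b := fun a b h =>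
    (powCoprime (hcop.coprime_dvd_right C.card_subgroup_dvd_card)).injective (by simpa using h)
  let Nm : V →* V :=
    { toFun := fun a => ∏ c : C, φ c a
      map_one' := by simp
      map_mul' := fun a b => by simp [Finset.prod_mul_distrib] }
  have hNm : ∀ (x : Q) (a : V), Nm (φ x a) = φ x (Nm a) := by
    intro x a
    show ∏ c : C, φ c (φ x a) = φ x (∏ c : C, φ c a)
    rw [map_prod]
    refine (Fintype.prod_equiv (MulAut.conjNormal x).toEquiv _ _ fun c => ?_).symm
    show φ x (φ c a) = φ ((MulAut.conjNormal x c : C) : Q) (φ x a)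
    rw [← MulAut.mul_apply, ← MulAut.mul_apply, ← map_mul, ← map_mul, MulAut.conjNormal_apply,
      inv_mul_cancel_right]
  have hfix : ∀ a : V, (∀ c ∈ C, φ c a = a) → Nm a = a ^ Nat.card C := by
    intro a ha
    show ∏ c : C, φ c a = _
    rw [Finset.prod_congr rfl fun (c : C) _ => ha c c.2, Finset.prod_const, Finset.card_univ,
      Nat.card_eq_fintype_card]
  have hNmfix : ∀ a : V, ∀ c ∈ C, φ c (Nm a) = Nm a := by
    intro a c hc
    show φ c (∏ d : C, φ d a) = ∏ d : C, φ d a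
    rw [map_prod]
    refine Fintype.prod_equiv (Equiv.mulLeft (⟨c, hc⟩ : C)) _ _ fun d => ?_
    rw [← MulAut.mul_apply, ← map_mul]
    rfl
  set μ := μ₀ ^ Nat.card C * (Nm μ₀)⁻¹ with hμ
  have hNμ : Nm μ = 1 := by
    rw [hμ, map_mul, map_pow, map_inv, hfix (Nm μ₀) (hNmfix μ₀), mul_inv_cancel]
  have hle : ∀ x ∈ stab φ (l * μ), x ∈ C ∧ φ x μ = μ := by
    intro x hx
    rw [mem_stab] at hx
    have h := congrArg Nm hx
    rw [map_mul Nm, hNμ, mul_one, hNm, map_mul, map_mul, ← hNm x μ] at h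
    rw [hNm, hNμ, map_one, mul_one, hfix l fun c hc => hc, map_pow] at h
    have hxC : x ∈ C := hpow _ _ h
    refine ⟨hxC, ?_⟩
    rw [map_mul, (mem_stab φ).1 hxC] at hx
    exact mul_left_cancel hx
  have hlt : stab φ (l * μ) < C := by
    refine lt_of_le_of_ne (fun x hx => (hle x hx).1) fun e => hμ₀ (hpow _ _ ?_)
    have h := (hle c₀ (e ▸ hc₀)).2
    rw [hμ, map_mul, map_pow, map_inv, hNmfix μ₀ c₀ hc₀] at h
    exact mul_right_cancel h
  have h1 := Subgroup.index_strictAnti hlt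
  rcases hidx (l * μ) with h | h <;> omega

/-- A `p`-group acting with abelian stabilizers of index `1` or `m` and having only the degrees
`1` and `m` has a normal stabilizer of index `m`, if it has any of index `m`. -/
theorem exists_normal_stab {m p : ℕ} (hp : p.Prime) (hQ : IsPGroup p Q) (hm1 : m ≠ 1)
    (hidx : ∀ a, (stab φ a).index = 1 ∨ (stab φ a).index = m)
    (hab : ∀ a, (stab φ a).index = m → ∀ x ∈ stab φ a, ∀ y ∈ stab φ a, x * y = y * x)
    (hdeg : ∀ (D : Subgroup Q) [D.Normal] (B : Subgroup (Q ⧸ D)),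
      (∀ x ∈ B, ∀ y ∈ B, x * y = y * x) → B.index < m → ∀ x y : Q ⧸ D, x * y = y * x)
    (hex : ∃ a, (stab φ a).index = m) :
    ∃ a, (stab φ a).index = m ∧ (stab φ a).Normal := by
  haveI : Fact p.Prime := ⟨hp⟩
  obtain ⟨a₀, ha₀⟩ := hex
  let P : Subgroup V → Prop := fun W =>
    (∀ x, ∀ a ∈ W, φ x a ∈ W) ∧ ∃ a ∈ W, (stab φ a).index = m
  obtain ⟨W, hW, hmin⟩ := (Set.toFinite {W | P W}).exists_minimal
    ⟨⊤, fun _ _ _ => Subgroup.mem_top _, a₀, Subgroup.mem_top _, ha₀⟩
  obtain ⟨hinv, w, hw, hwm⟩ := hW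
  refine ⟨w, hwm, ?_⟩
  let D : Subgroup Q := ⨅ a : W, stab φ (a : V)
  have hD : ∀ x, x ∈ D ↔ ∀ a ∈ W, φ x a = a := by
    intro x; simp [D, Subgroup.mem_iInf, mem_stab]
  haveI hDn : D.Normal := ⟨fun x hx g => (hD _).2 fun a ha => by
    rw [map_mul, map_mul, MulAut.mul_apply, MulAut.mul_apply, (hD x).1 hx _ (hinv _ a ha),
      map_inv, MulAut.apply_inv_self]⟩
  have hDw : D ≤ stab φ w := fun x hx => (hD x).1 hx w hw
  by_cases hcomm : ∀ x y : Q ⧸ D, x * y = y * x
  · refine ⟨fun x hx g => ?_⟩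
    have h : g * x * g⁻¹ * x⁻¹ ∈ stab φ w := hDw ((QuotientGroup.eq_one_iff _).1 (by
      rw [QuotientGroup.mk_mul, QuotientGroup.mk_mul, QuotientGroup.mk_mul, hcomm (g : Q ⧸ D),
        QuotientGroup.mk_inv, QuotientGroup.mk_inv, mul_inv_cancel_right, mul_inv_cancel]))
    simpa using mul_mem h hx
  exfalso
  haveI : Nontrivial (Q ⧸ D) := by
    by_contra h
    rw [not_nontrivial_iff_subsingleton] at h
    exact hcomm fun x y => Subsingleton.elim _ _
  haveI : Nontrivial (Subgroup.center (Q ⧸ D)) :=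
    (hQ.of_surjective (QuotientGroup.mk' D) (QuotientGroup.mk'_surjective D)).center_nontrivial
  obtain ⟨⟨zq, hzc⟩, hz1⟩ := exists_ne (1 : Subgroup.center (Q ⧸ D))
  obtain ⟨z, rfl⟩ := QuotientGroup.mk_surjective zq
  have hzD : z ∉ D := fun h => hz1 (Subtype.ext ((QuotientGroup.eq_one_iff z).2 h))
  have hzw : z ∉ stab φ w := by
    intro hzw
    let W' : Subgroup V :=
      { carrier := {a | a ∈ W ∧ φ z a = a}
        one_mem' := ⟨W.one_mem, map_one _⟩
        mul_mem' := fun {a b} ha hb => ⟨W.mul_mem ha.1 hb.1, by rw [map_mul, ha.2, hb.2]⟩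
        inv_mem' := fun {a} ha => ⟨W.inv_mem ha.1, by rw [map_inv, ha.2]⟩ }
    have hW' : P W' := by
      refine ⟨fun x a ha => ⟨hinv x a ha.1, ?_⟩, w, ⟨hw, hzw⟩, hwm⟩
      have hd : z⁻¹ * (x⁻¹ * z * x) ∈ D := by
        rw [← QuotientGroup.eq_one_iff]
        simp only [QuotientGroup.mk_mul, QuotientGroup.mk_inv]
        rw [mul_assoc (_⁻¹) (z : Q ⧸ D), ← (Subgroup.mem_center_iff.1 hzc (x : Q ⧸ D))]
        group
      have h2 : φ (x⁻¹ * z * x) a = a := by
        rw [show x⁻¹ * z * x = z * (z⁻¹ * (x⁻¹ * z * x)) by group, map_mul, MulAut.mul_apply,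
          (hD _).1 hd a ha.1, ha.2]
      rw [← MulAut.mul_apply, ← map_mul, show z * x = x * (x⁻¹ * z * x) by group, map_mul,
        MulAut.mul_apply, h2]
    have hle : W ≤ W' := hmin hW' fun a ha => ha.1
    exact hzD ((hD z).2 fun a ha => (hle ha).2)
  set Qb := (stab φ w).map (QuotientGroup.mk' D) with hQb
  have hcomap : Qb.comap (QuotientGroup.mk' D) = stab φ w := by
    rw [hQb, Subgroup.comap_map_eq, QuotientGroup.ker_mk', sup_eq_left.2 hDw]
  have hQbi : Qb.index = m := by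
    rw [← Subgroup.index_comap_of_surjective Qb (QuotientGroup.mk'_surjective D), hcomap, hwm]
  have hQbc : Qb ≤ Subgroup.centralizer (Qb : Set (Q ⧸ D)) := by
    intro a ha b hb
    obtain ⟨a', ha', rfl⟩ := ha
    obtain ⟨b', hb', rfl⟩ := hb
    rw [← map_mul, ← map_mul, hab w hwm b' hb' a' ha']
  set B := Qb ⊔ Subgroup.center (Q ⧸ D) with hB
  have h1 : B ≤ Subgroup.centralizer (Qb : Set (Q ⧸ D)) :=
    sup_le hQbc (Subgroup.center_le_centralizer _)
  have h2 : B ≤ Subgroup.centralizer (B : Set (Q ⧸ D)) := by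
    refine Subgroup.le_centralizer_iff.1 (sup_le (Subgroup.le_centralizer_iff.1 h1) ?_)
    exact Subgroup.center_le_centralizer _
  have hlt : Qb < B := by
    refine lt_of_le_of_ne le_sup_left fun e => hzw ?_
    rw [← hcomap, Subgroup.mem_comap, e]
    exact Subgroup.mem_sup_right hzc
  exact hcomm (hdeg D B (fun x hx y hy => h2 hy x hx) (hQbi ▸ Subgroup.index_strictAnti hlt))

end Action

section Degrees

variable {G : Type u} [Group G] [Finite G]

/-- An irreducible degree is at most the index of an abelian subgroup. -/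
theorem degree_le_index_of_comm (A : Subgroup G) (hA : ∀ x ∈ A, ∀ y ∈ A, x * y = y * x)
    (χ : Cfsg.IrrCharacter G) : Cfsg.charDegree (χ : G → ℂ) ≤ A.index := by
  have hres : Cfsg.IsCharacter A (fun a : A => χ.1 a) :=
    H26.isCharacter_comp (H26.irr_isCharacter χ) A.subtype
  obtain ⟨c, hc, hdec⟩ := H26.exists_nat_coeffs hres
  obtain ⟨θ, hθ⟩ : ∃ θ, c θ ≠ 0 := by
    by_contra h
    simp only [not_exists, not_not] at h
    have h1 := congrFun hdec 1
    simp only [h, Nat.cast_zero, zero_smul, Finset.sum_const_zero, Pi.zero_apply,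
      OneMemClass.coe_one] at h1
    exact H26.irr_one_ne_zero χ h1
  obtain ⟨b, hb, hbdec⟩ :=
    H26.exists_nat_coeffs (H25.isCharacter_indFun A (H26.irr_isCharacter θ))
  have hbχ : b χ ≠ 0 := by
    intro h0
    have h1 := hb χ
    rw [H25.classInner_indFun_left A θ.1 χ.1 (H26.irr_isClassFunction χ), h0,
      ← H25.conj_classInner, hc θ, Complex.conj_natCast, Nat.cast_inj] at h1
    exact hθ h1
  have h1 := congrFun hbdec 1
  rw [H25.indFun_one, H26.irr_one_eq_one_of_comm (fun a b => Subtype.ext (hA a a.2 b b.2)) θ,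
    mul_one, Finset.sum_apply] at h1
  have h3 : A.index = ∑ ψ, b ψ * Cfsg.charDegree (ψ : G → ℂ) := by
    rw [← Nat.cast_inj (R := ℂ), h1, Nat.cast_sum]
    refine Finset.sum_congr rfl fun ψ _ => ?_
    rw [Pi.smul_apply, smul_eq_mul, Nat.cast_mul, H44.cast_charDegree]
  rw [h3]
  refine le_trans ?_ (Finset.single_le_sum (fun _ _ => Nat.zero_le _) (Finset.mem_univ χ))
  exact Nat.le_mul_of_pos_left _ (Nat.pos_of_ne_zero hbχ)

/-- Only linear degrees of a quotient force it to be abelian. -/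
theorem quot_comm (N : Subgroup G) [N.Normal]
    (h : ∀ ψ : Cfsg.IrrCharacter (G ⧸ N), Cfsg.charDegree (ψ : G ⧸ N → ℂ) = 1) :
    ∀ x y : G ⧸ N, x * y = y * x :=
  H26.comm_iff_forall_irr_one.2 fun ψ => by rw [← H44.cast_charDegree, h, Nat.cast_one]

/-- A homomorphism on a normal subgroup of coprime index, invariant in the group, extends. -/
theorem exists_ext_hom (N : Subgroup G) [hN : N.Normal] (hcop : (Nat.card N).Coprime N.index)
    (lam : N →* ℂˣ)
    (hinv : ∀ (g : G) (n : N), lam ⟨g * n * g⁻¹, hN.conj_mem (n : G) n.2 g⟩ = lam n) :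
    ∃ μ : G →* ℂˣ, ∀ n : N, μ n = lam n := by
  obtain ⟨μ, hμ⟩ := H38.exists_extension_of_pows N lam
    (H38.exists_extension_pow_index N N le_rfl lam lam (fun n => rfl) hinv)
    (b := Nat.card N) ⟨1, fun n => by rw [MonoidHom.one_apply, ← map_pow, pow_card_eq_one', map_one]⟩
  exact ⟨μ, fun n => by rw [hμ, Nat.gcd_comm, hcop.gcd_eq_one, pow_one]⟩

variable {m : ℕ}
  (hcd : ∀ χ : Cfsg.IrrCharacter G, Cfsg.charDegree (χ : G → ℂ) = 1 ∨
    Cfsg.charDegree (χ : G → ℂ) = m)

include hcd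

theorem quot_degrees (N : Subgroup G) [N.Normal] (ψ : Cfsg.IrrCharacter (G ⧸ N)) :
    Cfsg.charDegree (ψ : G ⧸ N → ℂ) = 1 ∨ Cfsg.charDegree (ψ : G ⧸ N → ℂ) = m := by
  rw [← H44.charDegree_inflate N ψ]; exact hcd _

/-- A normal subgroup of order prime to `m` is abelian. -/
theorem comm_of_coprime (K : Subgroup G) [K.Normal] (hK : (Nat.card K).Coprime m) :
    ∀ a ∈ K, ∀ b ∈ K, a * b = b * a := by
  have h : ∀ θ : Cfsg.IrrCharacter K, θ.1 1 = 1 := by
    intro θ
    obtain ⟨χ, hχ⟩ := H44.exists_irr_over K θ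
    have hd := (dvd_mul_left _ _).trans (H44.degree_mul_index_inertia_dvd K χ θ hχ)
    have h1 : Cfsg.charDegree (θ : K → ℂ) = 1 := by
      rcases hcd χ with h | h
      · rw [h] at hd; exact Nat.dvd_one.mp hd
      · rw [h] at hd
        exact Nat.eq_one_of_dvd_coprimes hK (H44.charDegree_dvd_card θ) hd
    rw [← H44.cast_charDegree, h1, Nat.cast_one]
  intro a ha b hb
  exact congrArg Subtype.val (H26.comm_iff_forall_irr_one.mpr h ⟨a, ha⟩ ⟨b, hb⟩)

/-- The inertia groups of characters of an abelian normal Hall subgroup. -/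
theorem inertia_index (K : Subgroup G) [K.Normal] (hcop : (Nat.card K).Coprime K.index)
    (lam : K →* ℂˣ) :
    let I := H44.inertia K (fun a => (lam a : ℂ))
    (I.index = 1 ∨ I.index = m) ∧
      (I.index = m → m ≠ 1 → ∀ a ∈ I, ∀ b ∈ I, a * b * a⁻¹ * b⁻¹ ∈ K) := by
  intro I
  have hl := H26.isIrrCharacter_hom lam
  have hKI : K ≤ I := H44.le_inertia K (H26.irr_isClassFunction ⟨_, hl⟩)
  set K' := K.subgroupOf I with hK'
  have hcop' : (Nat.card K').Coprime K'.index := by
    rw [Nat.card_congr (Subgroup.subgroupOfEquivOfLe hKI).toEquiv]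
    exact hcop.coprime_dvd_right (Subgroup.relIndex_dvd_index_of_normal K I)
  obtain ⟨μ, hμ⟩ := exists_ext_hom K' hcop'
    (lam.comp (Subgroup.subgroupOfEquivOfLe hKI).toMonoidHom) fun g n => by
      have h := congrFun (H44.mem_inertia K |>.1 g.2) ⟨(n : I), n.2⟩
      exact Units.ext h
  have key : ∀ β : Cfsg.IrrCharacter (I ⧸ K'),
      I.index * Cfsg.charDegree (β : I ⧸ K' → ℂ) = 1 ∨
        I.index * Cfsg.charDegree (β : I ⧸ K' → ℂ) = m := by
    intro β
    let ψ : I → ℂ := fun i => (μ i : ℂ) * (H44.inflate K' β).1 i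
    have hψ : Cfsg.IsIrrCharacter I ψ := H56.isIrrCharacter_hom_mul (H44.inflate K' β).2 μ
    have hval : ∀ n : K', ψ n = β.1 1 * H56.resT K I (fun a => (lam a : ℂ)) n := by
      intro n
      show (μ n : ℂ) * β.1 ((n : I) : I ⧸ K') = _
      rw [(QuotientGroup.eq_one_iff _).2 n.2, hμ, mul_comm]
      rfl
    have hirr' := H56.isIrrCharacter_resT K I hl hKI
    have hc : Cfsg.classInner (fun n : K' => ψ n) (H56.resT K I fun a => (lam a : ℂ)) ≠ 0 := by
      have h1 := H57.irr_inner_self hirr'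
      have h2 : Cfsg.classInner (fun n : K' => ψ n) (H56.resT K I fun a => (lam a : ℂ)) =
          β.1 1 * Cfsg.classInner (H56.resT K I fun a => (lam a : ℂ))
            (H56.resT K I fun a => (lam a : ℂ)) := by
        simp only [Cfsg.classInner, hval, mul_assoc, ← Finset.mul_sum]
        ring
      rw [h2, h1, mul_one]
      exact H26.irr_one_ne_zero β
    obtain ⟨hirr, -⟩ := H56.clifford_induced K I hl
      (fun g => Iff.rfl) hψ hc
    have hd : Cfsg.charDegree (Cfsg.indFun I ψ) = I.index * Cfsg.charDegree (β : I ⧸ K' → ℂ) := by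
      rw [← Nat.cast_inj (R := ℂ), Nat.cast_mul, H44.cast_charDegree,
        H44.cast_charDegree_of_isCharacter (H26.isCharacter_of_irr hirr), H25.indFun_one]
      congr 1
      show (μ 1 : ℂ) * β.1 ((1 : I) : I ⧸ K') = _
      rw [map_one, Units.val_one, one_mul]
      rfl
    rw [← hd]
    exact hcd ⟨_, hirr⟩
  refine ⟨?_, fun hI hm1 a ha b hb => ?_⟩
  · have h := key (H26.oneIrr _)
    rwa [show Cfsg.charDegree ((H26.oneIrr (I ⧸ K') : Cfsg.IrrCharacter _) : I ⧸ K' → ℂ) = 1 by
      simp [Cfsg.charDegree, H26.oneIrr_val], mul_one] at h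
  · have hcomm : ∀ x y : I ⧸ K', x * y = y * x := quot_comm K' fun β => by
      rcases key β with h | h
      · exact Nat.eq_one_of_mul_eq_one_left h
      · have hm0 : m ≠ 0 := hI ▸ Subgroup.index_ne_zero_of_finite
        rw [hI] at h
        exact (mul_eq_left₀ hm0).1 h
    have h1 : (((⟨a, ha⟩ : I) * ⟨b, hb⟩ * (⟨a, ha⟩ : I)⁻¹ * (⟨b, hb⟩ : I)⁻¹ : I) : I ⧸ K') = 1 := by
      rw [QuotientGroup.mk_mul, QuotientGroup.mk_mul, QuotientGroup.mk_mul,
        hcomm ((⟨a, ha⟩ : I) : I ⧸ K'), QuotientGroup.mk_inv, QuotientGroup.mk_inv,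
        mul_inv_cancel_right, mul_inv_cancel]
    exact Subgroup.mem_subgroupOf.1 ((QuotientGroup.eq_one_iff _).1 h1)

end Degrees

/-- An extension of a central Hall subgroup by an abelian group is abelian. -/
theorem comm_of_central_hall {G : Type u} [Group G] [Finite G] (K : Subgroup G) [K.Normal]
    (hcop : (Nat.card K).Coprime K.index) (A : Subgroup G) (hKA : K ≤ A)
    (hcent : ∀ a ∈ A, ∀ k ∈ K, a * k = k * a)
    (hcomm : ∀ a ∈ A, ∀ b ∈ A, a * b * a⁻¹ * b⁻¹ ∈ K) :
    ∀ a ∈ A, ∀ b ∈ A, a * b = b * a := by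
  intro a ha b hb
  set c := a * b * a⁻¹ * b⁻¹ with hc
  have hck : c ∈ K := hcomm a ha b hb
  have hca : a * c = c * a := hcent a ha c hck
  have hn : ∀ n : ℕ, a ^ n * b = c ^ n * b * a ^ n := by
    intro n
    induction n with
    | zero => simp
    | succ n ihn =>
      calc a ^ (n + 1) * b = a * (a ^ n * b) := by rw [pow_succ', mul_assoc]
        _ = a * c ^ n * b * a ^ n := by rw [ihn]; group
        _ = c ^ n * (a * b) * a ^ n := by
          rw [(Commute.pow_right (show Commute a c from hca) n).eq]; group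
        _ = c ^ n * (c * b * a) * a ^ n := by rw [show a * b = c * b * a by rw [hc]; group]
        _ = c ^ (n + 1) * b * a ^ (n + 1) := by rw [pow_succ, pow_succ']; group
  have h1 : c ^ K.index = 1 := by
    have h := hn K.index
    rw [← (hcent b hb _ (Subgroup.pow_index_mem K a)), mul_assoc (c ^ _)] at h
    exact mul_right_cancel (by rw [one_mul]; exact h.symm)
  have h2 : c ^ Nat.card K = 1 :=
    congrArg Subtype.val (pow_card_eq_one' (x := (⟨c, hck⟩ : K)))
  have h3 : c = 1 := by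
    rw [← pow_one c, ← hcop.gcd_eq_one]
    exact pow_gcd_eq_one.2 ⟨h2, h1⟩
  rw [hc, mul_inv_eq_one, mul_inv_eq_iff_eq_mul] at h3
  exact h3

/-- Isaacs, Theorem 12.5. -/
theorem structure_theorem {G : Type u} [Group G] [Finite G] {m : ℕ}
    (hcd : ∀ χ : Cfsg.IrrCharacter G, Cfsg.charDegree (χ : G → ℂ) = 1 ∨
      Cfsg.charDegree (χ : G → ℂ) = m)
    (hm : ∃ χ : Cfsg.IrrCharacter G, Cfsg.charDegree (χ : G → ℂ) = m) (hm1 : m ≠ 1) :
    (∃ A : Subgroup G, A.Normal ∧ (∀ a ∈ A, ∀ b ∈ A, a * b = b * a) ∧ A.index = m) ∨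
      ∃ p e : ℕ, p.Prime ∧ m = p ^ e ∧ ∃ P A : Subgroup G, P.Normal ∧ A.Normal ∧ IsPGroup p P ∧
        (∀ a ∈ A, ∀ b ∈ A, a * b = b * a) ∧ P ⊓ A = ⊥ ∧ P ⊔ A = ⊤ := by
  obtain ⟨χ₀, hχ₀⟩ := hm
  have hm0 : m ≠ 0 := hχ₀ ▸ (H44.charDegree_pos χ₀).ne'
  -- the normal Hall subgroup
  obtain ⟨K, hKn, hKm, hKcop, hQ⟩ : ∃ K : Subgroup G, ∃ _ : K.Normal,
      (Nat.card K).Coprime m ∧ (Nat.card K).Coprime K.index ∧
      ((∀ x y : G ⧸ K, x * y = y * x) ∧ ¬ IsPrimePow m ∨
        ∃ p e : ℕ, p.Prime ∧ m = p ^ e ∧ IsPGroup p (G ⧸ K)) := by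
    by_cases hpp : IsPrimePow m
    · obtain ⟨p, e, hp, he, rfl⟩ := (isPrimePow_nat_iff m).1 hpp
      obtain ⟨N, hN, hNc, k, hk⟩ := S4456.result p hp fun χ hne =>
        by rw [(hcd χ).resolve_left hne]; exact dvd_pow_self p he.ne'
      haveI := hN
      haveI : Fact p.Prime := ⟨hp⟩
      exact ⟨N, hN, hNc.pow_right e, hk ▸ hNc.pow_right k, Or.inr ⟨p, e, hp, rfl,
        IsPGroup.of_card (n := k) (by rw [← Subgroup.index_eq_card, hk])⟩⟩
    · choose N hNn hNc k hNi using fun q : {q // q ∈ m.primeFactors} =>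
        S4456.result q.1 (Nat.prime_of_mem_primeFactors q.2) fun χ hne =>
          by rw [(hcd χ).resolve_left hne]; exact Nat.dvd_of_mem_primeFactors q.2
      haveI := hNn
      let f : G →* ∀ q, G ⧸ N q := MonoidHom.pi fun q => QuotientGroup.mk' (N q)
      have hle : ∀ q, f.ker ≤ N q := fun q x hx =>
        (QuotientGroup.eq_one_iff x).mp (congrFun (MonoidHom.mem_ker.mp hx) q)
      have hKm : (Nat.card f.ker).Coprime m := by
        refine Nat.coprime_of_dvd fun q hq hqK hqm => ?_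
        exact hq.coprime_iff_not_dvd.mp (hNc ⟨q, Nat.mem_primeFactors.mpr ⟨hq, hqm, hm0⟩⟩).symm
          (hqK.trans (Subgroup.card_dvd_of_le (hle _)))
      refine ⟨f.ker, inferInstance, hKm, ?_, Or.inl ⟨?_, hpp⟩⟩
      · refine Nat.Coprime.coprime_dvd_right
          (show f.ker.index ∣ ∏ q, q.1 ^ k q from ?_) ?_
        · rw [Subgroup.index_ker]
          refine (Subgroup.card_subgroup_dvd_card f.range).trans (dvd_of_eq ?_)
          rw [Nat.card_pi]
          exact Finset.prod_congr rfl fun q _ => by rw [← Subgroup.index_eq_card, hNi]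
        · refine Nat.Coprime.prod_right fun q _ => Nat.Coprime.pow_right _ ?_
          exact hKm.coprime_dvd_right (Nat.dvd_of_mem_primeFactors q.2)
      · have hc : ∀ q (x y : G ⧸ N q), x * y = y * x := fun q => quot_comm (N q) fun ψ => by
          refine (quot_degrees hcd (N q) ψ).resolve_right fun h => hpp ?_
          have hd := H44.charDegree_dvd_card ψ
          rw [h, ← Subgroup.index_eq_card, hNi] at hd
          obtain ⟨i, -, hi⟩ := (Nat.dvd_prime_pow (Nat.prime_of_mem_primeFactors q.2)).1 hd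
          rw [hi] at hm1 ⊢
          exact (Nat.prime_of_mem_primeFactors q.2).isPrimePow.pow
            (fun h0 => hm1 (by rw [h0, pow_zero]))
        intro x y
        obtain ⟨a, rfl⟩ := QuotientGroup.mk_surjective x
        obtain ⟨b, rfl⟩ := QuotientGroup.mk_surjective y
        rw [← QuotientGroup.mk_mul, ← QuotientGroup.mk_mul, QuotientGroup.eq, MonoidHom.mem_ker]
        rw [map_mul, map_inv, map_mul, map_mul, inv_mul_eq_one]
        exact funext fun q => hc q _ _
  haveI := hKn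
  have hKab := comm_of_coprime hcd K hKm
  letI : CommGroup K := { (inferInstance : Group K) with
    mul_comm := fun a b => Subtype.ext (hKab a a.2 b b.2) }
  haveI : Finite (K →* ℂˣ) := Nat.finite_of_card_ne_zero (by
    rw [CommGroup.card_monoidHom_of_hasEnoughRootsOfUnity K ℂ]; exact Nat.card_pos.ne')
  let φ₀ : G →* MulAut (K →* ℂˣ) :=
    { toFun := fun g => MulEquiv.monoidHomCongrLeft (MulAut.conjNormal g)
      map_one' := MulEquiv.ext fun l => MonoidHom.ext fun a => by
        show l ((MulAut.conjNormal (1 : G)).symm a) = l a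
        rw [map_one]; rfl
      map_mul' := fun g g' => MulEquiv.ext fun l => MonoidHom.ext fun a => by
        show l ((MulAut.conjNormal (g * g')).symm a) =
          l ((MulAut.conjNormal g').symm ((MulAut.conjNormal g).symm a))
        rw [map_mul]; rfl }
  have hφ₀ : ∀ (g : G) (l : K →* ℂˣ) (a : K), φ₀ g l a = l ((MulAut.conjNormal g).symm a) :=
    fun g l a => rfl
  have hKker : K ≤ φ₀.ker := fun k hk => by
    rw [MonoidHom.mem_ker]
    ext l a
    rw [hφ₀]
    show (l _ : ℂ) = (l a : ℂ)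
    congr 2
    refine Subtype.ext ?_
    rw [MulAut.conjNormal_symm_apply, hKab _ (K.inv_mem hk) a a.2, inv_mul_cancel_right]
  let φ : G ⧸ K →* MulAut (K →* ℂˣ) := QuotientGroup.lift K φ₀ hKker
  have hstab : ∀ l : K →* ℂˣ,
      (stab (V := K →* ℂˣ) φ l).comap (QuotientGroup.mk' K) = H44.inertia K fun a => (l a : ℂ) := by
    intro l
    ext x
    rw [← inv_mem_iff (H := H44.inertia K fun a => (l a : ℂ)), H44.mem_inertia, Subgroup.mem_comap,
      mem_stab]
    show φ₀ x l = l ↔ _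
    rw [MonoidHom.ext_iff, funext_iff]
    refine forall_congr' fun a => ?_
    rw [hφ₀, ← Units.val_inj]
    show _ ↔ (l _ : ℂ) = _
    congr! 4
  have hindex : ∀ l, (stab (V := K →* ℂˣ) φ l).index = (H44.inertia K fun a => (l a : ℂ)).index := fun l => by
    rw [← hstab, Subgroup.index_comap_of_surjective _ (QuotientGroup.mk'_surjective K)]
  have hidx : ∀ l, (stab (V := K →* ℂˣ) φ l).index = 1 ∨ (stab (V := K →* ℂˣ) φ l).index = m := fun l => by
    rw [hindex]; exact (inertia_index hcd K hKcop l).1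
  have hQcop : (Nat.card (K →* ℂˣ)).Coprime (Nat.card (G ⧸ K)) := by
    rw [CommGroup.card_monoidHom_of_hasEnoughRootsOfUnity K ℂ, ← Subgroup.index_eq_card]
    exact hKcop
  -- a separation by linear characters
  have hsep : ∀ (x : G), (∀ l, φ (x : G ⧸ K) l = l) → ∀ k ∈ K, x * k = k * x := by
    intro x hx k hk
    by_contra hne
    have hne' : (MulAut.conjNormal x).symm ⟨k, hk⟩ * (⟨k, hk⟩ : K)⁻¹ ≠ 1 := by
      rw [Ne, mul_inv_eq_one]
      intro h
      have h' := congrArg Subtype.val h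
      rw [MulAut.conjNormal_symm_apply, mul_assoc, inv_mul_eq_iff_eq_mul] at h'
      exact hne h'.symm
    obtain ⟨l, hl⟩ := CommGroup.exists_apply_ne_one_of_hasEnoughRootsOfUnity K ℂ hne'
    refine hl ?_
    rw [map_mul, map_inv, mul_inv_eq_one, ← hφ₀]
    exact DFunLike.congr_fun (hx l) _
  by_cases hex : ∃ l, (stab (V := K →* ℂˣ) φ l).index = m
  · refine Or.inl ?_
    obtain ⟨l, hl, hln⟩ : ∃ l, (stab (V := K →* ℂˣ) φ l).index = m ∧ (stab (V := K →* ℂˣ) φ l).Normal := by
      rcases hQ with ⟨hc, -⟩ | ⟨p, e, hp, -, hQp⟩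
      · obtain ⟨l, hl⟩ := hex
        exact ⟨l, hl, ⟨fun x hx g => by rwa [hc g, mul_inv_cancel_right]⟩⟩
      · have hE := @exists_normal_stab (G ⧸ K) _ _ (K →* ℂˣ) _ _ φ m p
        refine hE hp hQp hm1 hidx (fun l hl x hx y hy => ?_) ?_ hex
        · obtain ⟨a, rfl⟩ := QuotientGroup.mk_surjective x
          obtain ⟨b, rfl⟩ := QuotientGroup.mk_surjective y
          have hl' : (H44.inertia K fun a => (l a : ℂ)).index = m := (hindex l).symm.trans hl
          have ha' : a ∈ H44.inertia K fun a => (l a : ℂ) := by rw [← hstab]; exact hx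
          have hb' : b ∈ H44.inertia K fun a => (l a : ℂ) := by rw [← hstab]; exact hy
          have h := (inertia_index hcd K hKcop l).2 hl' hm1 a ha' b hb'
          rw [← QuotientGroup.eq_one_iff] at h
          simp only [QuotientGroup.mk_mul, QuotientGroup.mk_inv] at h
          exact mul_inv_eq_iff_eq_mul.1 (mul_inv_eq_one.1 h)
        · intro D _ B hB hlt
          refine quot_comm D fun ψ => ?_
          refine (quot_degrees (G := G ⧸ K) (quot_degrees hcd K) D ψ).resolve_right fun h => ?_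
          exact absurd (h ▸ degree_le_index_of_comm B hB ψ) (Nat.not_le.2 hlt)
    refine ⟨(stab (V := K →* ℂˣ) φ l).comap (QuotientGroup.mk' K), hln.comap _, ?_, ?_⟩
    · refine comm_of_central_hall K hKcop _ (fun k hk => ?_) (fun a ha k hk => ?_) ?_
      · rw [Subgroup.mem_comap, QuotientGroup.mk'_apply, (QuotientGroup.eq_one_iff k).2 hk]
        exact Subgroup.one_mem _
      · have hT := @trivial_of_normal_stab (G ⧸ K) _ _ (K →* ℂˣ) _ _ φ m
        exact hsep a (fun l' => hT (Nat.one_le_iff_ne_zero.2 hm0) hQcop hidx l hl hln _ ha l') k hk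
      · rw [hstab]
        exact (inertia_index hcd K hKcop l).2 ((hindex l).symm.trans hl) hm1
    · rw [Subgroup.index_comap_of_surjective _ (QuotientGroup.mk'_surjective K), hl]
  · simp only [not_exists] at hex
    have hcent : ∀ (x : G), ∀ k ∈ K, x * k = k * x := fun x => hsep x fun l => by
      have h := Subgroup.index_eq_one.1 ((hidx l).resolve_right (hex l))
      exact (h ▸ Subgroup.mem_top (x : G ⧸ K) : (x : G ⧸ K) ∈ stab (V := K →* ℂˣ) φ l)
    rcases hQ with ⟨hc, -⟩ | ⟨p, e, hp, hpe, hQp⟩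
    · exfalso
      have hG := comm_of_central_hall K hKcop ⊤ le_top (fun a _ => hcent a) fun a _ b _ => by
        rw [← QuotientGroup.eq_one_iff]
        simp only [QuotientGroup.mk_mul, QuotientGroup.mk_inv]
        rw [hc (a : G ⧸ K), mul_inv_cancel_right, mul_inv_cancel]
      have h := H26.irr_one_eq_one_of_comm (fun a b => hG a trivial b trivial) χ₀
      rw [← H44.cast_charDegree, hχ₀] at h
      exact hm1 (by exact_mod_cast h)
    · obtain ⟨P, hP⟩ := Subgroup.exists_right_complement'_of_coprime hKcop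
      refine Or.inr ⟨p, e, hp, hpe, P, K, ⟨fun u hu g => ?_⟩, hKn, ?_, hKab, ?_, ?_⟩
      · obtain ⟨⟨k, u'⟩, rfl⟩ := hP.2 g
        have h1 : (u' : G) * u * (u' : G)⁻¹ ∈ P := P.mul_mem (P.mul_mem u'.2 hu) (P.inv_mem u'.2)
        have h2 := hcent ((u' : G) * u * (u' : G)⁻¹) k k.2
        show (k : G) * u' * u * ((k : G) * u')⁻¹ ∈ P
        rw [show (k : G) * u' * u * ((k : G) * u')⁻¹ = (k : G) * ((u' : G) * u * (u' : G)⁻¹) * (k : G)⁻¹
          by group, ← h2, mul_inv_cancel_right]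
        exact h1
      · haveI : Fact p.Prime := ⟨hp⟩
        obtain ⟨n, hn⟩ := IsPGroup.iff_card.1 hQp
        refine IsPGroup.of_card (n := n) ?_
        rw [← hn, ← Subgroup.index_eq_card, hP.symm.index_eq_card]
      · exact hP.symm.disjoint.eq_bot
      · exact hP.symm.sup_eq_top

end Cfsg.Agent.H43.TwoDeg
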