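import Mathlib
import Cfsg.Agent.H43.TwoDegrees
import Cfsg.Agent.H43.CoprimeRestrict
import Cfsg.Agent.H43.Constituents
import Cfsg.Agent.H61.CentralizerMaximal
import Cfsg.Agent.H19.Cores

/-!
# Degrees of solvable linear groups with a non-normal Sylow subgroup
-/

set_option autoImplicit false
set_option maxHeartbeats 800000

namespace Cfsg.Agent.H43.SolvDiv

open scoped ComplexConjugate commutatorElement

attribute [local instance] Fintype.ofFinite Classical.propDecidable

universe u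

/-- The conclusion of the theorem for the degree `n`. -/
def Good (p n : ℕ) : Prop :=
  ∃ q : ℕ, IsPrimePow q ∧ q ∣ n ∧
    ((q : ℤ) ≡ -1 [ZMOD p] ∨ (q : ℤ) ≡ 0 [ZMOD p] ∨ (q : ℤ) ≡ 1 [ZMOD p])

theorem Good.mono {p d n : ℕ} (h : Good p d) (hd : d ∣ n) : Good p n := by
  obtain ⟨q, hq, hqd, h'⟩ := h
  exact ⟨q, hq, hqd.trans hd, h'⟩

theorem good_of_sq {p n e : ℕ} (hp : p.Prime) (he : IsPrimePow e) (hdvd : e ∣ n)
    (h : p ∣ e ^ 2 - 1) : Good p n := by
  have h2 : (e + 1) * (e - 1) = e ^ 2 - 1 := by rw [← Nat.sq_sub_sq, one_pow]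
  rw [← h2] at h
  refine ⟨e, he, hdvd, ?_⟩
  rcases hp.dvd_mul.1 h with h | h
  · refine Or.inl (Int.modEq_iff_dvd.2 (dvd_sub_comm.1 ?_))
    have h' : (p : ℤ) ∣ ((e + 1 : ℕ) : ℤ) := Int.natCast_dvd_natCast.2 h
    simpa using h'
  · refine Or.inr (Or.inr (Int.modEq_iff_dvd.2 (dvd_sub_comm.1 ?_)))
    have h' : (p : ℤ) ∣ ((e - 1 : ℕ) : ℤ) := Int.natCast_dvd_natCast.2 h
    rwa [Nat.cast_sub he.one_lt.le, Nat.cast_one] at h'

/-- Sums of the values of the linear characters of a finite abelian group. -/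
theorem sum_hom_apply {A : Type u} [CommGroup A] [Finite A] [Finite (A →* ℂˣ)] (a : A) :
    ∑ f : A →* ℂˣ, (f a : ℂ) = if a = 1 then (Nat.card A : ℂ) else 0 := by
  split_ifs with h
  · subst h
    simp only [map_one, Units.val_one, Finset.sum_const, Finset.card_univ, nsmul_eq_mul, mul_one]
    rw [← Nat.card_eq_fintype_card, CommGroup.card_monoidHom_of_hasEnoughRootsOfUnity A ℂ]
  · obtain ⟨g, hg⟩ := CommGroup.exists_apply_ne_one_of_hasEnoughRootsOfUnity A ℂ h
    have h1 : (g a : ℂ) * ∑ f : A →* ℂˣ, (f a : ℂ) = ∑ f : A →* ℂˣ, (f a : ℂ) := by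
      rw [Finset.mul_sum]
      exact Fintype.sum_equiv (Equiv.mulLeft g) _ _ fun f => by simp
    by_contra h0
    exact hg (Units.ext ((mul_eq_right₀ h0).1 h1))

/-- A character with irreducible restriction to a subgroup is irreducible. -/
theorem isIrr_of_restrict {G : Type u} [Group G] [Finite G] (H : Subgroup G) {φ : G → ℂ}
    (hφ : Cfsg.IsCharacter G φ) (η : Cfsg.IrrCharacter H) (h : ∀ a : H, φ a = η.1 a) :
    Cfsg.IsIrrCharacter G φ := by
  obtain ⟨m, hm, hdec⟩ := H26.exists_nat_coeffs hφ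
  have hval : ∀ a : H, φ a = ∑ ψ : Cfsg.IrrCharacter G, (m ψ : ℂ) * ψ.1 a := by
    intro a
    rw [congrFun hdec, Finset.sum_apply]
    rfl
  have hmult : ∀ ψ : Cfsg.IrrCharacter G,
      Cfsg.classInner (fun a : H => ψ.1 a) η.1 = (mult (fun a : H => ψ.1 a) η : ℂ) :=
    fun ψ => classInner_eq_mult (H26.isCharacter_comp (H26.irr_isCharacter ψ) H.subtype) η
  have h1 : ∑ ψ : Cfsg.IrrCharacter G, m ψ * mult (fun a : H => ψ.1 a) η = 1 := by
    rw [← Nat.cast_inj (R := ℂ), Nat.cast_one, ← H57.irr_inner_self η.2, Nat.cast_sum]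
    simp only [Nat.cast_mul, ← hmult, Cfsg.classInner]
    rw [Finset.sum_congr rfl fun ψ _ => mul_left_comm _ _ _, ← Finset.mul_sum]
    congr 1
    simp only [Finset.mul_sum]
    rw [Finset.sum_comm]
    refine Finset.sum_congr rfl fun a _ => ?_
    rw [← h a, hval a, Finset.sum_mul]
    exact Finset.sum_congr rfl fun ψ _ => (mul_assoc _ _ _).symm
  obtain ⟨ψ, -, hψ⟩ := Finset.exists_ne_zero_of_sum_ne_zero (h1.trans_ne one_ne_zero)
  rw [mul_ne_zero_iff] at hψ
  have hψd : Cfsg.charDegree (η : H → ℂ) ≤ Cfsg.charDegree (ψ : G → ℂ) := by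
    have h2 := apply_one_eq_sum_mult (H26.isCharacter_comp (H26.irr_isCharacter ψ) H.subtype)
    rw [Function.comp_apply, map_one, ← H44.cast_charDegree] at h2
    have h3 : Cfsg.charDegree (ψ : G → ℂ) = ∑ x : Cfsg.IrrCharacter H,
        mult (ψ.1 ∘ H.subtype) x * Cfsg.charDegree (x : H → ℂ) := by exact_mod_cast h2
    rw [h3]
    exact le_trans (Nat.le_mul_of_pos_left _ (Nat.pos_of_ne_zero hψ.2))
      (Finset.single_le_sum (f := fun x => mult (ψ.1 ∘ H.subtype) x * Cfsg.charDegree (x : H → ℂ))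
        (fun _ _ => Nat.zero_le _) (Finset.mem_univ η))
  have hsum : Cfsg.charDegree (η : H → ℂ) =
      ∑ x : Cfsg.IrrCharacter G, m x * Cfsg.charDegree (x : G → ℂ) := by
    rw [← Nat.cast_inj (R := ℂ), H44.cast_charDegree, ← h 1, hval 1, Nat.cast_sum]
    exact Finset.sum_congr rfl fun x _ => by
      rw [Nat.cast_mul, H44.cast_charDegree, OneMemClass.coe_one]
  rw [← Finset.add_sum_erase _ _ (Finset.mem_univ ψ)] at hsum
  have h4 : Cfsg.charDegree (ψ : G → ℂ) ≤ m ψ * Cfsg.charDegree (ψ : G → ℂ) :=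
    Nat.le_mul_of_pos_left _ (Nat.pos_of_ne_zero hψ.1)
  have h5 : m ψ = 1 :=
    Nat.eq_of_mul_eq_mul_right (H44.charDegree_pos ψ)
      (show m ψ * Cfsg.charDegree (ψ : G → ℂ) = 1 * Cfsg.charDegree (ψ : G → ℂ) by omega)
  rw [hdec, Finset.sum_eq_single ψ (fun x _ hx => ?_) (fun h => absurd (Finset.mem_univ ψ) h), h5,
    Nat.cast_one, one_smul]
  · exact ψ.2
  · have h6 := Finset.sum_eq_zero_iff.1
      (show ∑ x ∈ Finset.univ.erase ψ, m x * Cfsg.charDegree (x : G → ℂ) = 0 by omega) x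
      (Finset.mem_erase.2 ⟨hx, Finset.mem_univ x⟩)
    rw [(mul_eq_zero.1 h6).resolve_right (H44.charDegree_pos x).ne', Nat.cast_zero, zero_smul]

/-- If a group with a faithful character has a non-normal Sylow subgroup, so has the quotient by
the kernel of some constituent. -/
theorem exists_constituent {A : Type u} [Group A] [Finite A] {p : ℕ} [hp : Fact p.Prime]
    {φ : A → ℂ} (hφ : Cfsg.IsCharacter A φ) (hfaith : ∀ a, φ a = φ 1 → a = 1) (S : Sylow p A)
    (hS : ¬ (S : Subgroup A).Normal) :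
    ∃ (θ : Cfsg.IrrCharacter A) (_ : (H44.kerOf θ).Normal), mult φ θ ≠ 0 ∧
      ∃ S' : Sylow p (A ⧸ H44.kerOf θ), ¬ (S' : Subgroup (A ⧸ H44.kerOf θ)).Normal := by
  by_contra hc
  refine hS ?_
  let T : Cfsg.IrrCharacter A → Subgroup A := fun θ =>
    haveI := H44.kerOf_normal θ
    ((S : Subgroup A).map (QuotientGroup.mk' (H44.kerOf θ))).comap (QuotientGroup.mk' (H44.kerOf θ))
  let U : Subgroup A := ⨅ θ : {θ : Cfsg.IrrCharacter A // mult φ θ ≠ 0}, T θ
  have hUn : U.Normal := by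
    refine Subgroup.normal_iInf_normal fun ⟨θ, hθ⟩ => ?_
    haveI := H44.kerOf_normal θ
    have hn : ((S.mapSurjective (QuotientGroup.mk'_surjective (H44.kerOf θ)) : Sylow p _) :
        Subgroup (A ⧸ H44.kerOf θ)).Normal := by
      by_contra hnn
      exact hc ⟨θ, inferInstance, hθ, _, hnn⟩
    rw [Sylow.coe_mapSurjective] at hn
    exact hn.comap _
  have hSU : (S : Subgroup A) ≤ U := le_iInf fun θ a ha => ⟨a, ha, rfl⟩
  have hU : IsPGroup p U := by
    obtain ⟨k, hk⟩ := IsPGroup.iff_card.1 S.2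
    rintro ⟨a, ha⟩
    refine ⟨k, Subtype.ext (hfaith _ ?_)⟩
    show φ (a ^ p ^ k) = φ 1
    rw [← hk, eq_sum_mult hφ, Finset.sum_apply, Finset.sum_apply]
    refine Finset.sum_congr rfl fun θ _ => ?_
    by_cases hθ : mult φ θ = 0
    · simp [hθ]
    haveI := H44.kerOf_normal θ
    have h1 : a ∈ T θ := Subgroup.mem_iInf.1 ha ⟨θ, hθ⟩
    obtain ⟨s, hs, hsa⟩ := h1
    have h2 : a ^ Nat.card S ∈ H44.kerOf θ := by
      rw [← QuotientGroup.eq_one_iff, QuotientGroup.mk_pow, ← QuotientGroup.mk'_apply, ← hsa,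
        ← map_pow, show s ^ Nat.card S = 1 from congrArg Subtype.val
          (pow_card_eq_one' (x := (⟨s, hs⟩ : (S : Subgroup A)))), map_one]
    rw [Pi.smul_apply, Pi.smul_apply, H44.mem_kerOf.1 h2]
  exact (S.3 hU hSU) ▸ hUn

/-- In a solvable group a normal subgroup containing every element of a chief factor. -/
theorem index_prime_lt {G : Type u} [Group G] [Finite G] {M U : Subgroup G} (hM : M.index.Prime)
    (h : M < U) : U = ⊤ := by
  have h1 := Subgroup.index_dvd_of_le h.le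
  rcases hM.eq_one_or_self_of_dvd _ h1 with h2 | h2
  · exact Subgroup.index_eq_one.1 h2
  · exact absurd h2 (Subgroup.index_strictAnti h).ne

/-- Isaacs, Theorem 14.17. -/
theorem good_degree {p : ℕ} [hp : Fact p.Prime] :
    ∀ (k : ℕ) (G : Type u) [Group G] [Finite G], Nat.card G ≤ k → Group.IsSolvable G →
      ∀ χ : Cfsg.IrrCharacter G, (∀ g : G, χ.1 g = χ.1 1 → g = 1) →
      ∀ P : Sylow p G, ¬ (P : Subgroup G).Normal → Good p (Cfsg.charDegree (χ : G → ℂ)) := by
  intro k
  induction k with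
  | zero => intro G _ _ hk; exact absurd hk (Nat.not_le.2 Nat.card_pos)
  | succ k ih =>
  intro G _ _ hk hsolv χ hfaith P hP
  set n := Cfsg.charDegree (χ : G → ℂ) with hn
  by_cases hpn : p ∣ n
  · exact ⟨p, hp.out.isPrimePow, hpn, Or.inr (Or.inl (Int.modEq_zero_iff_dvd.2 dvd_rfl))⟩
  have hn0 : 0 < n := H44.charDegree_pos χ
  have hsubk : ∀ A : Subgroup G, A ≠ ⊤ → Nat.card A ≤ k := fun A hA => by
    have h := A.card_le_card_group
    have h' : Nat.card A ≠ Nat.card G := fun e => hA (A.eq_top_of_card_eq e)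
    omega
  by_cases hnn : ∃ A : Subgroup G, A.Normal ∧ A ≠ ⊤ ∧ ∃ S : Sylow p A, ¬ (S : Subgroup A).Normal
  · obtain ⟨A, hAn, hA, S, hS⟩ := hnn
    obtain ⟨θ, hKn, hθ, S', hS'⟩ := exists_constituent (isCharacter_restr A χ)
      (fun a ha => Subtype.ext (hfaith _ ha)) S hS
    obtain ⟨ψ, hψ⟩ := H44.exists_eq_inflate (H44.kerOf θ) θ le_rfl
    have hψf : ∀ x, ψ.1 x = ψ.1 1 → x = 1 := by
      intro x hx
      obtain ⟨a, rfl⟩ := QuotientGroup.mk_surjective x
      refine (QuotientGroup.eq_one_iff a).2 (H44.mem_kerOf.2 ?_)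
      rw [← hψ, H44.inflate_apply, H44.inflate_apply, hx, QuotientGroup.mk_one]
    have hcard : Nat.card (A ⧸ H44.kerOf θ) ≤ k :=
      (Nat.le_of_dvd Nat.card_pos (Subgroup.card_quotient_dvd_card _)).trans (hsubk A hA)
    haveI : Group.IsSolvable A := solvable_of_solvable_injective A.subtype_injective
    have hgood := ih (A ⧸ H44.kerOf θ) hcard
      (solvable_of_surjective (QuotientGroup.mk'_surjective (H44.kerOf θ))) ψ hψf S' hS'
    have hd : Cfsg.charDegree (θ : A → ℂ) = Cfsg.charDegree (ψ : A ⧸ H44.kerOf θ → ℂ) := by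
      rw [← H44.charDegree_inflate (H44.kerOf θ) ψ, hψ]
    have hθ' : restrMult A χ θ ≠ 0 := by
      unfold restrMult
      convert hθ
    exact hgood.mono (hd ▸ (dvd_mul_left _ _).trans (restrMult_mul_degree_dvd A χ hθ'))
  have hidxp : ∀ A : Subgroup G, A.Normal → A ≠ ⊤ → p ∣ A.index := by
    intro A hAn hA
    by_contra hpA
    have hPA : (P : Subgroup G) ≤ A := by
      intro x hx
      obtain ⟨j, hj⟩ := IsPGroup.iff_orderOf.1 P.2 ⟨x, hx⟩
      rw [Subgroup.orderOf_mk] at hj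
      rw [← QuotientGroup.eq_one_iff, ← orderOf_eq_one_iff]
      exact Nat.eq_one_of_dvd_coprimes ((hp.out.coprime_iff_not_dvd.2 hpA).pow_left j)
        (hj ▸ orderOf_map_dvd (QuotientGroup.mk' A) x)
        (A.index_eq_card ▸ orderOf_dvd_natCard _)
    have hSn : ((P.subtype hPA : Sylow p A) : Subgroup A).Normal := by
      by_contra h
      exact hnn ⟨A, hAn, hA, _, h⟩
    haveI := Sylow.characteristic_of_normal (P.subtype hPA) hSn
    refine hP ?_
    have h := ConjAct.normal_of_characteristic_of_normal (G := G) (H := A)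
      (K := (P.subtype hPA : Subgroup A))
    rwa [Sylow.coe_subtype, Subgroup.subgroupOf_map_subtype, inf_eq_left.2 hPA] at h
  haveI : Nontrivial G := by
    by_contra h
    rw [not_nontrivial_iff_subsingleton] at h
    exact hP ⟨fun a ha g => by rwa [Subsingleton.elim (g * a * g⁻¹) a]⟩
  -- a normal subgroup of index `p`
  obtain ⟨M, hM, hMle⟩ : ∃ M : Subgroup G, IsCoatom M ∧ commutator G ≤ M :=
    (eq_top_or_exists_le_coatom (commutator G)).resolve_left
      (IsSolvable.commutator_lt_top_of_nontrivial G).ne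
  haveI hMn : M.Normal := Subgroup.Normal.of_commutator_le G hMle
  have hMprime : M.index.Prime := H61.index_prime_of_normal_coatom hM
  have hMidx : M.index = p :=
    ((Nat.prime_dvd_prime_iff_eq hp.out hMprime).1 (hidxp M hMn hM.1)).symm
  obtain ⟨x, hxP, hxM⟩ : ∃ x ∈ (P : Subgroup G), x ∉ M := by
    by_contra h
    simp only [not_exists, not_and, not_not] at h
    exact P.not_dvd_index ((hMidx.symm ▸ dvd_rfl : p ∣ M.index).trans (Subgroup.index_dvd_of_le h))
  have hjoin : ∀ U : Subgroup G, ¬ U ≤ M → U ⊔ M = ⊤ := fun U hU =>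
    index_prime_lt hMprime (right_lt_sup.2 hU)
  -- the Sylow subgroup of `M`
  obtain ⟨S⟩ : Nonempty (Sylow p M) := inferInstance
  have hSn : (S : Subgroup M).Normal := by
    by_contra h
    exact hnn ⟨M, hMn, hM.1, S, h⟩
  haveI := Sylow.characteristic_of_normal S hSn
  set P₀ := (S : Subgroup M).map M.subtype with hP₀
  haveI hP₀n : P₀.Normal := ConjAct.normal_of_characteristic_of_normal
  have hP₀M : P₀ ≤ M := Subgroup.map_subtype_le _
  have hP₀p : IsPGroup p P₀ := S.2.map M.subtype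
  have hP₀i : ¬ p ∣ P₀.relIndex M := by
    rw [Subgroup.relIndex, hP₀, Subgroup.subgroupOf, Subgroup.comap_map_eq_self_of_injective
      M.subtype_injective]
    exact S.not_dvd_index
  have hP₀ne : P₀ ≠ M := by
    intro h
    refine hP ?_
    have hG : IsPGroup p G := by
      obtain ⟨j, hj⟩ := IsPGroup.iff_card.1 hP₀p
      refine IsPGroup.of_card (n := j + 1) ?_
      rw [← M.card_mul_index, hMidx, ← h, hj, pow_succ]
    have htop : (P : Subgroup G) = ⊤ := (P.3 (hG.to_subgroup ⊤) le_top).symm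
    rw [htop]; infer_instance
  -- a chief factor
  obtain ⟨N, ⟨hNn, hPN, hNM⟩, hNmax⟩ :=
    (Set.toFinite {N : Subgroup G | N.Normal ∧ P₀ ≤ N ∧ N < M}).exists_maximal
      ⟨P₀, hP₀n, le_rfl, lt_of_le_of_ne hP₀M hP₀ne⟩
  haveI := hNn
  have hchief : ∀ U : Subgroup G, U.Normal → N ≤ U → U ≤ M → U = N ∨ U = M := by
    intro U hU hNU hUM
    by_cases h : U = M
    · exact Or.inr h
    · exact Or.inl (le_antisymm (hNmax ⟨hU, hPN.trans hNU, lt_of_le_of_ne hUM h⟩ hNU) hNU)
  have hMab : ∀ a ∈ M, ∀ b ∈ M, ⁅a, b⁆ ∈ N := by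
    rcases hchief (⁅M, M⁆ ⊔ N) (Subgroup.sup_normal _ _) le_sup_right
      (sup_le (Subgroup.commutator_le.2 fun a ha b hb => by
        rw [commutatorElement_def]
        exact M.mul_mem (M.mul_mem (M.mul_mem ha hb) (M.inv_mem ha)) (M.inv_mem hb)) hNM.le)
      with h | h
    · exact fun a ha b hb => h ▸ Subgroup.mem_sup_left (Subgroup.commutator_mem_commutator ha hb)
    · exfalso
      haveI : Group.IsSolvable M := solvable_of_solvable_injective M.subtype_injective
      haveI : Nontrivial (M ⧸ N.subgroupOf M) := QuotientGroup.nontrivial_iff.mpr fun e =>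
        hNM.ne (le_antisymm hNM.le (Subgroup.subgroupOf_eq_top.1 e))
      haveI : Group.IsSolvable (M ⧸ N.subgroupOf M) :=
        solvable_of_surjective (QuotientGroup.mk'_surjective (N.subgroupOf M))
      refine (IsSolvable.commutator_lt_top_of_nontrivial (M ⧸ N.subgroupOf M)).ne ?_
      have h2 : commutator M ⊔ N.subgroupOf M = ⊤ := by
        apply Subgroup.map_injective M.subtype_injective
        rw [Subgroup.map_sup, Subgroup.map_subtype_commutator, Subgroup.subgroupOf_map_subtype,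
          inf_eq_left.2 hNM.le, h, ← MonoidHom.range_eq_map, Subgroup.range_subtype]
      rw [commutator_def, ← Subgroup.map_top_of_surjective _
        (QuotientGroup.mk'_surjective (N.subgroupOf M)), ← Subgroup.map_commutator, ← commutator_def]
      conv_rhs => rw [← h2, Subgroup.map_sup, QuotientGroup.map_mk'_self, sup_bot_eq]
  set N' := N.subgroupOf M with hN'
  letI : CommGroup (M ⧸ N') := { (inferInstance : Group (M ⧸ N')) with
    mul_comm := fun a b => by
      obtain ⟨a, rfl⟩ := QuotientGroup.mk_surjective a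
      obtain ⟨b, rfl⟩ := QuotientGroup.mk_surjective b
      rw [← QuotientGroup.mk_mul, ← QuotientGroup.mk_mul, eq_comm, QuotientGroup.eq]
      have h := hMab _ (M.inv_mem a.2) _ (M.inv_mem b.2)
      rw [commutatorElement_def, inv_inv, inv_inv] at h
      exact Subgroup.mem_subgroupOf.2 (by simpa [mul_assoc] using h) }
  have hQcard : Nat.card (M ⧸ N') = N.relIndex M := (Subgroup.index_eq_card N').symm
  -- `M / N` is a `q`-group
  obtain ⟨q, hq, a, ha, hqa⟩ : ∃ q, q.Prime ∧ ∃ a, 0 < a ∧ N.relIndex M = q ^ a := by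
    have hne : N.relIndex M ≠ 1 := fun h =>
      hNM.not_ge (Subgroup.relIndex_eq_one.1 h)
    obtain ⟨q, hq, hqd⟩ := Nat.exists_prime_and_dvd hne
    haveI : Fact q.Prime := ⟨hq⟩
    let U : Subgroup (M ⧸ N') :=
      { carrier := {z | ∃ j, z ^ q ^ j = 1}
        one_mem' := ⟨0, one_pow _⟩
        mul_mem' := fun {z w} ⟨i, hi⟩ ⟨j, hj⟩ => ⟨i + j, by
          rw [mul_pow, pow_add, pow_mul, hi, one_pow, one_mul, mul_comm, pow_mul, hj, one_pow]⟩
        inv_mem' := fun {z} ⟨i, hi⟩ => ⟨i, by rw [inv_pow, hi, inv_one]⟩ }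
    set V := (U.comap (QuotientGroup.mk' N')).map M.subtype with hV
    have hVn : V.Normal := ⟨fun v hv g => by
      obtain ⟨w, hw, rfl⟩ := hv
      obtain ⟨j, hj⟩ := hw
      refine ⟨⟨g * w * g⁻¹, hMn.conj_mem _ w.2 g⟩, ⟨j, ?_⟩, rfl⟩
      rw [QuotientGroup.mk'_apply, ← QuotientGroup.mk_pow, QuotientGroup.eq_one_iff] at hj ⊢
      rw [Subgroup.mem_subgroupOf, SubgroupClass.coe_pow, conj_pow]
      exact hNn.conj_mem _ (by simpa using Subgroup.mem_subgroupOf.1 hj) g⟩
    have hNV : N ≤ V := fun b hb => ⟨⟨b, hNM.le hb⟩, ⟨0, by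
      rw [pow_zero, pow_one, QuotientGroup.mk'_apply, QuotientGroup.eq_one_iff]
      exact Subgroup.mem_subgroupOf.2 hb⟩, rfl⟩
    obtain ⟨z, hz⟩ := exists_prime_orderOf_dvd_card' (G := M ⧸ N') q (hQcard ▸ hqd)
    rcases hchief V hVn hNV (Subgroup.map_subtype_le _) with h | h
    · exfalso
      obtain ⟨w, rfl⟩ := QuotientGroup.mk_surjective z
      have hw : (w : G) ∈ V :=
        ⟨w, ⟨1, by rw [pow_one, ← hz]; exact pow_orderOf_eq_one _⟩, rfl⟩
      rw [h] at hw
      rw [(QuotientGroup.eq_one_iff w).2 (Subgroup.mem_subgroupOf.2 hw), orderOf_one] at hz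
      exact hq.ne_one hz.symm
    · have hpg : IsPGroup q (M ⧸ N') := fun z => by
        obtain ⟨w, rfl⟩ := QuotientGroup.mk_surjective z
        have hw : (w : G) ∈ V := (SetLike.ext_iff.1 h _).2 w.2
        obtain ⟨w', hw', hww⟩ := hw
        exact (Subtype.ext hww : w' = w) ▸ hw'
      obtain ⟨a, ha⟩ := IsPGroup.iff_card.1 hpg
      rw [hQcard] at ha
      exact ⟨q, hq, a, Nat.pos_of_ne_zero fun h0 => hne (by rw [ha, h0, pow_zero]), ha⟩
  have hqp : q ≠ p := by
    rintro rfl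
    refine hP₀i (dvd_trans ?_ (Subgroup.relIndex_dvd_of_le_left M hPN))
    rw [hqa]; exact dvd_pow_self q ha.ne'
  -- `N⟨x⟩` is proper
  set H := N ⊔ Subgroup.zpowers x with hH
  have hHtop : H ≠ ⊤ := by
    intro htop
    obtain ⟨j, hj⟩ := IsPGroup.iff_orderOf.1 P.2 ⟨x, hxP⟩
    rw [Subgroup.orderOf_mk] at hj
    have h1 : N.index ∣ p ^ j := by
      have h : Nat.card (G ⧸ N) = Nat.card ((Subgroup.zpowers x).map (QuotientGroup.mk' N)) := by
        rw [← Subgroup.card_top (G := G ⧸ N), ← Subgroup.map_top_of_surjective _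
          (QuotientGroup.mk'_surjective N), ← htop, hH, Subgroup.map_sup,
          QuotientGroup.map_mk'_self, bot_sup_eq]
      rw [Subgroup.index_eq_card, h, ← hj, ← Nat.card_zpowers]
      exact Subgroup.card_map_dvd _ _
    rw [← Subgroup.relIndex_mul_index hNM.le, hqa] at h1
    exact hqp ((Nat.prime_dvd_prime_iff_eq hq hp.out).1
      (hq.dvd_of_dvd_pow (((dvd_pow_self q ha.ne').mul_right _).trans h1)))
  -- the action of `x` on `M / N` is fixed-point-free
  let W : Subgroup G :=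
    { carrier := {m | m ∈ M ∧ ⁅x, m⁆ ∈ N}
      one_mem' := ⟨M.one_mem, by simp [N.one_mem]⟩
      mul_mem' := fun {a b} ha hb => ⟨M.mul_mem ha.1 hb.1, by
        rw [show ⁅x, a * b⁆ = ⁅x, a⁆ * (a * ⁅x, b⁆ * a⁻¹) by
          simp only [commutatorElement_def]; group]
        exact N.mul_mem ha.2 (hNn.conj_mem _ hb.2 a)⟩
      inv_mem' := fun {a} ha => ⟨M.inv_mem ha.1, by
        rw [show ⁅x, a⁻¹⁆ = a⁻¹ * ⁅x, a⁆⁻¹ * a⁻¹⁻¹ by simp only [commutatorElement_def]; group]
        exact hNn.conj_mem _ (N.inv_mem ha.2) _⟩ }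
  have hNW : N ≤ W := fun b hb => ⟨hNM.le hb, by
    rw [commutatorElement_def]; exact N.mul_mem (hNn.conj_mem b hb x) (N.inv_mem hb)⟩
  have hWM : ∀ b ∈ W, ⁅x, b⁆ ∈ N := fun b hb => hb.2
  have hW : W = N := by
    have hWn : W.Normal := by
      have h : Subgroup.normalizer (W : Set G) = ⊤ := by
        refine index_prime_lt hMprime (lt_of_le_of_ne ?_ ?_)
        · intro m hm
          rw [Subgroup.mem_normalizer_iff]
          intro b
          have key : ∀ m ∈ M, ∀ b ∈ W, m * b * m⁻¹ ∈ W := by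
            intro m hm b hb
            rw [show m * b * m⁻¹ = ⁅m, b⁆ * b by rw [commutatorElement_def]; group]
            exact W.mul_mem (hNW (hMab m hm b hb.1)) hb
          exact ⟨key m hm b, fun h => by simpa [mul_assoc] using key m⁻¹ (M.inv_mem hm) _ h⟩
        · intro e
          refine hxM (e ▸ (?_ : x ∈ Subgroup.normalizer (W : Set G)))
          rw [Subgroup.mem_normalizer_iff]
          intro b
          have e1 : ⁅x, x * b * x⁻¹⁆ = x * ⁅x, b⁆ * x⁻¹ := by
            simp only [commutatorElement_def]; group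
          constructor
          · intro hb
            exact ⟨hMn.conj_mem b hb.1 x, e1 ▸ hNn.conj_mem _ hb.2 x⟩
          · intro hb
            refine ⟨by simpa [mul_assoc] using hMn.conj_mem _ hb.1 x⁻¹, ?_⟩
            have := hNn.conj_mem _ hb.2 x⁻¹
            rw [e1] at this
            simpa [mul_assoc] using this
      exact Subgroup.normalizer_eq_top_iff.1 h
    refine (hchief W hWn hNW fun b hb => hb.1).resolve_right fun hWeq => ?_
    have hHn : H.Normal := by
      have hc : ∀ g b : G, b ∈ H → g * b * g⁻¹ ∈ H := by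
        intro g b hb
        have hgen : ∀ g : G, g * x * g⁻¹ * x⁻¹ ∈ N := by
          intro g
          have hg : g ∈ M ⊔ Subgroup.zpowers x := by
            rw [sup_comm, hjoin _ fun h => hxM (h (Subgroup.mem_zpowers x))]; exact Subgroup.mem_top g
          rw [← SetLike.mem_coe, Subgroup.normal_mul] at hg
          obtain ⟨m, hm, z, hz, rfl⟩ := Set.mem_mul.1 hg
          have h1 := hWM m (hWeq.symm ▸ hm)
          obtain ⟨i, rfl⟩ := Subgroup.mem_zpowers_iff.1 hz
          rw [show m * x ^ i * x * (m * x ^ i)⁻¹ * x⁻¹ = ⁅x, m⁆⁻¹ by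
            rw [commutatorElement_def]; group]
          exact N.inv_mem h1
        have hmap : H.map (MulAut.conj g).toMonoidHom ≤ H := by
          rw [hH, Subgroup.map_sup]
          refine sup_le (fun z hz => ?_) ?_
          · obtain ⟨w, hw, rfl⟩ := hz
            exact Subgroup.mem_sup_left (hNn.conj_mem w hw g)
          · rw [MonoidHom.map_zpowers, Subgroup.zpowers_le]
            show g * x * g⁻¹ ∈ N ⊔ Subgroup.zpowers x
            rw [show g * x * g⁻¹ = g * x * g⁻¹ * x⁻¹ * x by group]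
            exact mul_mem (Subgroup.mem_sup_left (hgen g))
              (Subgroup.mem_sup_right (Subgroup.mem_zpowers x))
        exact hmap ⟨b, hb, rfl⟩
      exact ⟨fun b hb g => hc g b hb⟩
    have h1 := hidxp H hHn hHtop
    have h2 : H.index = H.relIndex M := by
      rw [← Subgroup.relIndex_sup_left (K := H) (H := M), hjoin H fun h =>
        hxM (h (Subgroup.mem_sup_right (Subgroup.mem_zpowers x))), Subgroup.relIndex_top_right]
    rw [h2] at h1
    have h3 := h1.trans (Subgroup.relIndex_dvd_of_le_left M (show N ≤ H from le_sup_left))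
    rw [hqa] at h3
    exact hqp ((Nat.prime_dvd_prime_iff_eq hp.out hq).1 (hp.out.dvd_of_dvd_pow h3)).symm
  have hpq : p ∣ q ^ a - 1 := by
    let f : M →* M := (MulAut.conjNormal x : MulAut M).toMonoidHom
    let σ : Function.End (M ⧸ N') := fun z => QuotientGroup.map N' N' f (fun b hb => by
      rw [Subgroup.mem_comap, Subgroup.mem_subgroupOf]
      show ((MulAut.conjNormal x b : M) : G) ∈ N
      rw [MulAut.conjNormal_apply]
      exact hNn.conj_mem _ (Subgroup.mem_subgroupOf.1 hb) x) z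
    have hσ : ∀ (i : ℕ) (b : M), (σ ^ i) (b : M ⧸ N') =
        ((MulAut.conjNormal (x ^ i) b : M) : M ⧸ N') := by
      intro i
      induction i with
      | zero => intro b; rw [pow_zero, pow_zero, map_one]; rfl
      | succ i ihi =>
        intro b
        rw [pow_succ, pow_succ, map_mul, MulAut.mul_apply, ← ihi]
        show (σ ^ i) (σ (b : M ⧸ N')) = _
        rfl
    obtain ⟨j, hj⟩ := IsPGroup.iff_orderOf.1 P.2 ⟨x, hxP⟩
    rw [Subgroup.orderOf_mk] at hj
    have hσp : σ ^ p ^ j = 1 := funext fun z => by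
      obtain ⟨b, rfl⟩ := QuotientGroup.mk_surjective z
      rw [hσ, ← hj, pow_orderOf_eq_one, map_one]
      rfl
    have h := Equiv.Perm.card_fixedPoints_modEq hσp
    have hfixed : Nat.card σ.fixedPoints = 1 := by
      rw [Nat.card_eq_fintype_card, Fintype.card_eq_one_iff]
      refine ⟨⟨((1 : M) : M ⧸ N'), congrArg QuotientGroup.mk (map_one f)⟩, fun z => Subtype.ext ?_⟩
      obtain ⟨b, hb⟩ := QuotientGroup.mk_surjective z.1
      have hz : σ z.1 = z.1 := z.2
      rw [← hb] at hz ⊢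
      show (b : M ⧸ N') = ((1 : M) : M ⧸ N')
      rw [QuotientGroup.mk_one, QuotientGroup.eq_one_iff, Subgroup.mem_subgroupOf, ← hW]
      refine ⟨b.2, ?_⟩
      have h1 : (f b)⁻¹ * b ∈ N' := QuotientGroup.eq.1 hz
      rw [Subgroup.mem_subgroupOf] at h1
      have h2 : ((f b : M) : G) = x * b * x⁻¹ := MulAut.conjNormal_apply x b
      rw [Subgroup.coe_mul, Subgroup.coe_inv, h2] at h1
      rw [show ⁅x, (b : G)⁆ = x * b * x⁻¹ * ((x * b * x⁻¹)⁻¹ * b)⁻¹ * (x * b * x⁻¹)⁻¹ by
        rw [commutatorElement_def]; group]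
      exact hNn.conj_mem _ (N.inv_mem h1) _
    rw [← Nat.card_eq_fintype_card, ← Nat.card_eq_fintype_card, hfixed, hQcard, hqa] at h
    exact (Nat.modEq_iff_dvd' (Nat.one_le_pow _ _ hq.pos)).1 h.symm
  -- restriction to `M` and to `N`
  obtain ⟨θ, hθ⟩ := exists_irr_restrict M χ (by
    rw [hMidx]; exact (hp.out.coprime_iff_not_dvd.2 hpn).symm)
  obtain ⟨η, hη⟩ := exists_restrMult_ne_zero N χ
  have hcon : Cfsg.classInner (fun b : N => χ.1 b) η.1 ≠ 0 := by
    rw [classInner_eq_mult (isCharacter_restr N χ), Nat.cast_ne_zero]; exact hη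
  set T := H44.inertia N η.1 with hT
  have hTdvd := H44.degree_mul_index_inertia_dvd N χ η hcon
  have hNT : N ≤ T := H44.le_inertia N (H26.irr_isClassFunction η)
  have hTi : ¬ p ∣ T.index := fun h => hpn ((h.mul_right _).trans hTdvd)
  have hTM : ¬ T ≤ M := fun h => hTi (hMidx ▸ Subgroup.index_dvd_of_le h)
  have hTMn : (T ⊓ M).Normal := by
    rw [← Subgroup.normalizer_eq_top_iff, eq_top_iff, ← hjoin T hTM]
    refine sup_le ?_ ?_
    · exact le_trans (le_inf Subgroup.le_normalizer (by rw [Subgroup.normalizer_eq_top M]; exact le_top))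
        Subgroup.inf_normalizer_le_normalizer_inf
    · intro m hm
      rw [Subgroup.mem_normalizer_iff]
      intro b
      have key : ∀ m ∈ M, ∀ b ∈ T ⊓ M, m * b * m⁻¹ ∈ T ⊓ M := by
        intro m hm b hb
        rw [show m * b * m⁻¹ = ⁅m, b⁆ * b by rw [commutatorElement_def]; group]
        exact Subgroup.mul_mem _ ⟨hNT (hMab m hm b hb.2), hNM.le (hMab m hm b hb.2)⟩ hb
      exact ⟨key m hm b, fun h => by simpa [mul_assoc] using key m⁻¹ (M.inv_mem hm) _ h⟩
  rcases hchief (T ⊓ M) hTMn (le_inf hNT hNM.le) inf_le_right with hTN | hTN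
  · -- the orbit has size `q ^ a`
    have h1 : T.index = q ^ a := by
      have e1 : M.relIndex T = p := by
        rw [← Subgroup.relIndex_sup_left (K := M) (H := T), sup_comm, hjoin T hTM,
          Subgroup.relIndex_top_right, hMidx]
      have e2 := Subgroup.relIndex_mul_index (inf_le_left : T ⊓ M ≤ T)
      rw [Subgroup.inf_relIndex_left, e1, hTN, ← Subgroup.relIndex_mul_index hNM.le, hqa, hMidx,
        mul_comm] at e2
      exact Nat.eq_of_mul_eq_mul_right hp.out.pos e2
    exact ⟨q ^ a, hq.isPrimePow.pow ha.ne', (dvd_of_eq h1.symm).trans ((dvd_mul_right _ _).trans hTdvd),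
      Or.inr (Or.inr (Int.modEq_iff_dvd.2 (dvd_sub_comm.1 (by
        have h' : (p : ℤ) ∣ ((q ^ a - 1 : ℕ) : ℤ) := Int.natCast_dvd_natCast.2 hpq
        rwa [Nat.cast_sub (Nat.one_le_pow _ _ hq.pos), Nat.cast_one] at h'))))⟩
  have hTtop : T = ⊤ := by
    rw [← hjoin T hTM, left_eq_sup]
    exact fun m hm => (hTN.symm ▸ hm : m ∈ T ⊓ M).1
  -- `χ` is a multiple of `η` on `N`
  set e := restrMult N χ η with he
  have hres : ∀ b : N, χ.1 b = (e : ℂ) * η.1 b := by
    intro b
    have h : (fun b : N => χ.1 b) = (e : ℂ) • η.1 := by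
      rw [eq_sum_mult (isCharacter_restr N χ), Finset.sum_eq_single η (fun η' _ hne => ?_)
        (fun h => absurd (Finset.mem_univ η) h)]
      · rfl
      · by_cases h0 : restrMult N χ η' = 0
        · rw [show mult (fun b : N => χ.1 b) η' = 0 from h0, Nat.cast_zero, zero_smul]
        obtain ⟨g, hg⟩ := exists_irrConj_of_restrMult_ne_zero N χ hη h0
        refine absurd ?_ hne
        rw [← hg]
        refine Subtype.ext ?_
        exact (H44.mem_inertia N).1 (hTtop.symm ▸ Subgroup.mem_top g : g ∈ T)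
    exact congrFun h b
  have hedvd : e ∣ n := (dvd_mul_right _ _).trans (restrMult_mul_degree_dvd N χ hη)
  have hnorm : ∑ b : N, χ.1 b * conj (χ.1 b) = (e : ℂ) ^ 2 * Nat.card N := by
    have h := H26.classInner_irr η η
    rw [if_pos rfl, Cfsg.classInner, inv_mul_eq_iff_eq_mul₀ (Nat.cast_ne_zero.2 Nat.card_pos.ne'),
      mul_one] at h
    rw [← h, Finset.mul_sum]
    exact Finset.sum_congr rfl fun b _ => by rw [hres b, map_mul, Complex.conj_natCast]; ring
  have hnorm' : ∑ m ∈ Finset.univ.filter (· ∈ N'), θ.1 m * conj (θ.1 m) =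
      (e : ℂ) ^ 2 * Nat.card N := by
    rw [← hnorm]
    refine Finset.sum_bij' (fun m hm => (⟨m, Subgroup.mem_subgroupOf.1 (Finset.mem_filter.1 hm).2⟩ : N))
      (fun b _ => (⟨b, hNM.le b.2⟩ : M)) ?_ ?_ ?_ ?_ ?_
    · intros; exact Finset.mem_univ _
    · intro b _; simp [hN', Subgroup.mem_subgroupOf]
    · intros; rfl
    · intros; rfl
    · intro m hm; rw [← hθ m]
  have hMN : (Nat.card M : ℂ) = (Nat.card N : ℂ) * (q ^ a : ℕ) := by
    rw [← hqa, ← hQcard, ← Nat.cast_mul, Nat.cast_inj, N'.card_eq_card_quotient_mul_card_subgroup,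
      Nat.card_congr (Subgroup.subgroupOfEquivOfLe hNM.le).toEquiv, mul_comm]
  haveI : Finite ((M ⧸ N') →* ℂˣ) := Nat.finite_of_card_ne_zero (by
    rw [CommGroup.card_monoidHom_of_hasEnoughRootsOfUnity (M ⧸ N') ℂ]; exact Nat.card_pos.ne')
  let tw : ((M ⧸ N') →* ℂˣ) → Cfsg.IrrCharacter M := fun f =>
    ⟨fun m => (f (m : M ⧸ N') : ℂ) * θ.1 m,
      H56.isIrrCharacter_hom_mul θ.2 (f.comp (QuotientGroup.mk' N'))⟩
  set St := Finset.univ.filter fun f : (M ⧸ N') →* ℂˣ => tw f = θ with hSt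
  have hcount : St.card = e ^ 2 := by
    have h1 : ∑ f : (M ⧸ N') →* ℂˣ, Cfsg.classInner (tw f).1 θ.1 = (St.card : ℂ) := by
      simp only [H26.classInner_irr, Finset.sum_boole, hSt]
    have h2 : ∑ f : (M ⧸ N') →* ℂˣ, Cfsg.classInner (tw f).1 θ.1 =
        (Nat.card M : ℂ)⁻¹ * ((q ^ a : ℕ) * ((e : ℂ) ^ 2 * Nat.card N)) := by
      simp only [Cfsg.classInner, tw, ← Finset.mul_sum]
      congr 1
      rw [Finset.sum_comm, ← hnorm', Finset.mul_sum, Finset.sum_filter]
      refine Finset.sum_congr rfl fun m _ => ?_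
      rw [Finset.sum_congr rfl fun f _ => mul_assoc ((f (m : M ⧸ N') : ℂ)) (θ.1 m) (conj (θ.1 m)),
        ← Finset.sum_mul, sum_hom_apply, hQcard, hqa]
      by_cases hm : m ∈ N'
      · rw [if_pos ((QuotientGroup.eq_one_iff m).2 hm), if_pos hm]
      · rw [if_neg fun h => hm ((QuotientGroup.eq_one_iff m).1 h), if_neg hm, zero_mul]
    rw [← Nat.cast_inj (R := ℂ), ← h1, h2, hMN, Nat.cast_pow e 2]
    have hN0 : (Nat.card N : ℂ) ≠ 0 := Nat.cast_ne_zero.2 Nat.card_pos.ne'
    have hq0 : ((q ^ a : ℕ) : ℂ) ≠ 0 := Nat.cast_ne_zero.2 (pow_pos hq.pos a).ne'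
    field_simp
  by_cases he1 : e = 1
  swap
  · -- fully ramified
    let K : Subgroup M :=
      { carrier := {m | ∀ f ∈ St, f (m : M ⧸ N') = 1}
        one_mem' := fun f _ => map_one f
        mul_mem' := fun {b c} hb hc f hf => by rw [QuotientGroup.mk_mul, map_mul, hb f hf, hc f hf, one_mul]
        inv_mem' := fun {b} hb f hf => by rw [QuotientGroup.mk_inv, map_inv, hb f hf, inv_one] }
    set K₁ := K.map M.subtype with hK₁
    have hK₁n : K₁.Normal := ⟨fun v hv g => by
      obtain ⟨w, hw, rfl⟩ := hv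
      refine ⟨MulAut.conjNormal g w, fun f hf => ?_, MulAut.conjNormal_apply g w⟩
      have hcomap : N' ≤ N'.comap (MulAut.conjNormal g : MulAut M).toMonoidHom := fun b hb => by
        rw [Subgroup.mem_comap, Subgroup.mem_subgroupOf]
        show ((MulAut.conjNormal g b : M) : G) ∈ N
        rw [MulAut.conjNormal_apply]
        exact hNn.conj_mem _ (Subgroup.mem_subgroupOf.1 hb) g
      have hf' : f.comp (QuotientGroup.map N' N' (MulAut.conjNormal g : MulAut M).toMonoidHom hcomap)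
          ∈ St := by
        refine Finset.mem_filter.2 ⟨Finset.mem_univ _, Subtype.ext (funext fun b => ?_)⟩
        have h := congrFun (congrArg Subtype.val (Finset.mem_filter.1 hf).2) (MulAut.conjNormal g b)
        have hinv : θ.1 (MulAut.conjNormal g b) = θ.1 b := by
          rw [← hθ, ← hθ, MulAut.conjNormal_apply, H26.irr_conj]
        simp only [tw] at h ⊢
        rw [hinv] at h
        exact h
      exact hw _ hf'⟩
    have hNK : N ≤ K₁ := fun b hb => ⟨⟨b, hNM.le hb⟩, fun f _ => by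
      rw [(QuotientGroup.eq_one_iff _).2 (Subgroup.mem_subgroupOf.2 hb), map_one], rfl⟩
    rcases hchief K₁ hK₁n hNK (Subgroup.map_subtype_le _) with hK | hK
    swap
    · exfalso
      refine he1 ((Nat.pow_eq_one.1 (hcount.symm.trans ?_)).resolve_right (by norm_num))
      rw [Finset.card_eq_one]
      refine ⟨1, Finset.eq_singleton_iff_unique_mem.2 ⟨Finset.mem_filter.2 ⟨Finset.mem_univ _,
        Subtype.ext (funext fun b => by simp [tw])⟩, fun f hf => ?_⟩⟩
      refine MonoidHom.ext fun z => ?_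
      obtain ⟨w, rfl⟩ := QuotientGroup.mk_surjective z
      obtain ⟨w', hw', hww⟩ := (hK.symm ▸ w.2 : (w : G) ∈ K₁)
      obtain rfl : w' = w := Subtype.ext hww
      exact hw' f hf
    have hvanish : ∀ m : M, m ∉ N' → θ.1 m = 0 := by
      intro m hm
      by_contra h0
      refine hm (Subgroup.mem_subgroupOf.2 ?_)
      rw [← hK]
      refine ⟨m, fun f hf => ?_, rfl⟩
      have h := congrFun (congrArg Subtype.val (Finset.mem_filter.1 hf).2) m
      exact Units.ext ((mul_eq_right₀ h0).1 h)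
    have h := H26.classInner_irr θ θ
    rw [if_pos rfl, Cfsg.classInner, inv_mul_eq_iff_eq_mul₀ (Nat.cast_ne_zero.2 Nat.card_pos.ne'),
      mul_one, ← Finset.sum_subset (Finset.subset_univ (Finset.univ.filter (· ∈ N'))) (fun m _ hm => by
        rw [hvanish m (by simpa using hm), zero_mul]), hnorm', hMN, mul_comm] at h
    have he2 : e ^ 2 = q ^ a := by
      have := mul_left_cancel₀ (Nat.cast_ne_zero.2 Nat.card_pos.ne') h
      exact_mod_cast this
    refine good_of_sq hp.out ?_ hedvd (he2 ▸ hpq)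
    obtain ⟨b, -, hb⟩ := (Nat.dvd_prime_pow hq).1 (he2 ▸ dvd_pow_self e two_ne_zero)
    rw [hb] at he1 ⊢
    exact hq.isPrimePow.pow fun h0 => he1 (by rw [h0, pow_zero])
  -- the restriction to `N` is irreducible
  have hres1 : ∀ b : N, χ.1 b = η.1 b := fun b => by rw [hres b, he1, Nat.cast_one, one_mul]
  have hnη : n = Cfsg.charDegree (η : N → ℂ) := by
    rw [← Nat.cast_inj (R := ℂ), hn, H44.cast_charDegree, H44.cast_charDegree, ← hres1 1,
      OneMemClass.coe_one]
  have hNH : N ≤ H := le_sup_left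
  let η' : Cfsg.IrrCharacter (N.subgroupOf H) := irrCongr (Subgroup.subgroupOfEquivOfLe hNH) η
  have hφ : Cfsg.IsIrrCharacter H (fun b : H => χ.1 b) :=
    isIrr_of_restrict (N.subgroupOf H) (H26.isCharacter_comp (H26.irr_isCharacter χ) H.subtype) η'
      fun b => hres1 ⟨((b : H) : G), Subgroup.mem_subgroupOf.1 b.2⟩
  obtain ⟨SH⟩ : Nonempty (Sylow p H) := inferInstance
  by_cases hSH : (SH : Subgroup H).Normal
  swap
  · haveI : Group.IsSolvable H := solvable_of_solvable_injective H.subtype_injective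
    have hd : Cfsg.charDegree (fun b : H => χ.1 b) = n := by simp [hn, Cfsg.charDegree]
    exact hd ▸ ih H (hsubk H hHtop) ‹_› ⟨_, hφ⟩ (fun b hb => Subtype.ext (hfaith _ hb)) SH hSH
  exfalso
  haveI := hSH
  have hxH : x ∈ H := Subgroup.mem_sup_right (Subgroup.mem_zpowers x)
  have hxS : (⟨x, hxH⟩ : H) ∈ (SH : Subgroup H) := by
    have hpx : IsPGroup p (Subgroup.zpowers (⟨x, hxH⟩ : H)) := by
      obtain ⟨j, hj⟩ := IsPGroup.iff_orderOf.1 P.2 ⟨x, hxP⟩
      rw [Subgroup.orderOf_mk] at hj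
      exact IsPGroup.of_card (n := j) (by rw [Nat.card_zpowers, Subgroup.orderOf_mk, hj])
    exact (SH.3 (hpx.to_sup_of_normal_right SH.2) le_sup_right) ▸
      Subgroup.mem_sup_left (Subgroup.mem_zpowers _)
  have hxN : ∀ b ∈ N, ⁅x, b⁆ ∈ P₀ := by
    intro b hb
    have hcN : ⁅x, b⁆ ∈ N := by
      rw [commutatorElement_def]; exact N.mul_mem (hNn.conj_mem b hb x) (N.inv_mem hb)
    have hcS : (⁅(⟨x, hxH⟩ : H), ⟨b, hNH hb⟩⁆ : H) ∈ (SH : Subgroup H) := by
      rw [show ⁅(⟨x, hxH⟩ : H), ⟨b, hNH hb⟩⁆ =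
        ⟨x, hxH⟩ * (⟨b, hNH hb⟩ * (⟨x, hxH⟩ : H)⁻¹ * (⟨b, hNH hb⟩ : H)⁻¹) by
        rw [commutatorElement_def]; group]
      exact Subgroup.mul_mem _ hxS (hSH.conj_mem _ (Subgroup.inv_mem _ hxS) _)
    obtain ⟨j, hj⟩ := SH.2 ⟨_, hcS⟩
    have hj' : ⁅x, b⁆ ^ p ^ j = 1 := congrArg (fun z : (SH : Subgroup H) => ((z : H) : G)) hj
    let c : M := ⟨⁅x, b⁆, hNM.le hcN⟩
    have hcS' : c ∈ (S : Subgroup M) := by
      have hpc : IsPGroup p (Subgroup.zpowers c) := by
        obtain ⟨i, -, hi⟩ := (Nat.dvd_prime_pow hp.out).1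
          (orderOf_dvd_of_pow_eq_one (x := c) (n := p ^ j) (Subtype.ext hj'))
        exact IsPGroup.of_card (n := i) (by rw [Nat.card_zpowers, hi])
      haveI := hSn
      exact (S.3 (hpc.to_sup_of_normal_right S.2) le_sup_right) ▸
        Subgroup.mem_sup_left (Subgroup.mem_zpowers _)
    exact ⟨c, hcS', rfl⟩
  have hNc : ∀ (g : G), ∀ b ∈ N, ⁅g, b⁆ ∈ P₀ := by
    let C : Subgroup G := (Subgroup.centralizer
      ((N.map (QuotientGroup.mk' P₀) : Subgroup (G ⧸ P₀)) : Set (G ⧸ P₀))).comap (QuotientGroup.mk' P₀)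
    have hCmem : ∀ g, g ∈ C ↔ ∀ b ∈ N, ⁅g, b⁆ ∈ P₀ := by
      intro g
      simp only [C, Subgroup.mem_comap, Subgroup.mem_centralizer_iff, Subgroup.coe_map,
        Set.forall_mem_image, SetLike.mem_coe]
      refine forall₂_congr fun b _ => ?_
      rw [← QuotientGroup.eq_one_iff, ← QuotientGroup.mk'_apply, map_commutatorElement,
        commutatorElement_eq_one_iff_mul_comm]
      exact eq_comm
    haveI : (N.map (QuotientGroup.mk' P₀)).Normal := hNn.map _ (QuotientGroup.mk'_surjective P₀)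
    have hCn : C.Normal := Subgroup.Normal.comap inferInstance _
    have hCx : x ∈ C := (hCmem x).2 hxN
    have hCtop : C = ⊤ := by
      by_contra hne
      have h1 := hidxp C hCn hne
      have hPC : P₀ ≤ C := fun b hb => (hCmem b).2 fun c hc => by
        rw [show ⁅b, c⁆ = b * (c * b⁻¹ * c⁻¹) by rw [commutatorElement_def]; group]
        exact P₀.mul_mem hb (hP₀n.conj_mem _ (P₀.inv_mem hb) c)
      have h2 : C.index = C.relIndex M := by
        rw [← Subgroup.relIndex_sup_left (K := C) (H := M), hjoin C fun h => hxM (h hCx),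
          Subgroup.relIndex_top_right]
      rw [h2] at h1
      exact hP₀i (h1.trans (Subgroup.relIndex_dvd_of_le_left M hPC))
    exact fun g => (hCmem g).1 (hCtop.symm ▸ Subgroup.mem_top g)
  -- the Sylow subgroup is central
  obtain ⟨l, hl⟩ := exists_restrMult_ne_zero P₀ χ
  have hlcon : Cfsg.classInner (fun b : P₀ => χ.1 b) l.1 ≠ 0 := by
    rw [classInner_eq_mult (isCharacter_restr P₀ χ), Nat.cast_ne_zero]; exact hl
  have hlin : ∀ l' : Cfsg.IrrCharacter P₀, restrMult P₀ χ l' ≠ 0 → l'.1 1 = 1 := by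
    intro l' hl'
    obtain ⟨j, hj⟩ := IsPGroup.iff_card.1 hP₀p
    obtain ⟨i, -, hi⟩ := (Nat.dvd_prime_pow hp.out).1 (hj ▸ H44.charDegree_dvd_card l')
    rw [← H44.cast_charDegree, Nat.cast_eq_one, hi]
    rcases Nat.eq_zero_or_pos i with rfl | hi0
    · rfl
    · exact absurd ((hi ▸ dvd_pow_self p hi0.ne' : p ∣ Cfsg.charDegree (l' : P₀ → ℂ)).trans
        ((dvd_mul_left _ _).trans (restrMult_mul_degree_dvd P₀ χ hl'))) hpn
  set R := H44.inertia P₀ l.1 with hR
  have hPR : P₀ ≤ R := H44.le_inertia P₀ (H26.irr_isClassFunction l)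
  have hRdvd := H44.degree_mul_index_inertia_dvd P₀ χ l hlcon
  have hRi : ¬ p ∣ R.index := fun h => hpn ((h.mul_right _).trans hRdvd)
  have hRN : ∀ b ∈ R ⊓ N, ∀ g : G, g * b * g⁻¹ ∈ R ⊓ N := fun b hb g => by
    rw [show g * b * g⁻¹ = ⁅g, b⁆ * b by rw [commutatorElement_def]; group]
    exact Subgroup.mul_mem _ ⟨hPR (hNc g b hb.2), hPN (hNc g b hb.2)⟩ hb
  -- every element of `R ⊓ N` fixes all the constituents, so centralizes `P₀`
  have hcent : ∀ b ∈ R ⊓ N, ∀ c ∈ P₀, b * c = c * b := by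
    intro b hb c hc
    have h : χ.1 ⁅b, c⁆ = χ.1 1 := by
      have hcP : ⁅b, c⁆ ∈ P₀ := by
        rw [commutatorElement_def]; exact P₀.mul_mem (hP₀n.conj_mem c hc b) (P₀.inv_mem hc)
      have hdec := eq_sum_mult (isCharacter_restr P₀ χ)
      have e1 := congrFun hdec ⟨⁅b, c⁆, hcP⟩
      have e2 := congrFun hdec 1
      simp only [Finset.sum_apply, Pi.smul_apply, smul_eq_mul, OneMemClass.coe_one] at e1 e2
      rw [e1, e2]
      refine Finset.sum_congr rfl fun l' _ => ?_
      by_cases hl' : mult (fun b : P₀ => χ.1 b) l' = 0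
      · simp [hl']
      congr 1
      obtain ⟨g, hg⟩ := exists_irrConj_of_restrMult_ne_zero P₀ χ hl hl'
      obtain ⟨f, hf⟩ := H26.exists_hom_of_isCharacter_one (H26.irr_isCharacter l) (hlin l hl)
      rw [← hg, irrConj_apply, irrConj_apply, map_one, ← hf, ← hf, map_one, Units.val_one]
      set b' := g * b * g⁻¹
      have hb' : b' ∈ R := (hRN b hb g).1
      set c' : P₀ := MulAut.conjNormal g ⟨c, hc⟩
      have hfix : l.1 ⟨b' * c' * b'⁻¹, hP₀n.conj_mem _ c'.2 b'⟩ = l.1 c' :=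
        congrFun ((H44.mem_inertia P₀).1 hb') c'
      rw [← hf, ← hf] at hfix
      have e3 : MulAut.conjNormal g (⟨⁅b, c⁆, hcP⟩ : P₀) =
          ⟨b' * c' * b'⁻¹, hP₀n.conj_mem _ c'.2 b'⟩ * c'⁻¹ := Subtype.ext (by
        simp only [b', c', MulAut.conjNormal_apply, Subgroup.coe_mul, Subgroup.coe_inv,
          commutatorElement_def]
        group)
      rw [e3, map_mul, map_inv, Units.ext hfix, mul_inv_cancel, Units.val_one]
    exact commutatorElement_eq_one_iff_mul_comm.1 (hfaith _ h)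
  have hP₀cop : (Nat.card (P₀.subgroupOf N)).Coprime (P₀.subgroupOf N).index := by
    obtain ⟨j, hj⟩ := IsPGroup.iff_card.1 hP₀p
    rw [Nat.card_congr (Subgroup.subgroupOfEquivOfLe hPN).toEquiv, hj]
    refine (hp.out.coprime_iff_not_dvd.2 fun h => hP₀i ?_).pow_left j
    exact h.trans (Dvd.intro _ (Subgroup.relIndex_mul_relIndex P₀ N M hPN hNM.le))
  haveI : (P₀.subgroupOf N).Normal := Subgroup.normal_subgroupOf
  set A := (R ⊓ N).subgroupOf N with hA
  have hAab : ∀ u ∈ A, ∀ v ∈ A, u * v = v * u :=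
    TwoDeg.comm_of_central_hall (P₀.subgroupOf N) hP₀cop A
      (fun u hu => Subgroup.mem_subgroupOf.2 ⟨hPR (Subgroup.mem_subgroupOf.1 hu), u.2⟩)
      (fun u hu v hv => Subtype.ext
        (hcent _ (Subgroup.mem_subgroupOf.1 hu) _ (Subgroup.mem_subgroupOf.1 hv)))
      (fun u _ v _ => Subgroup.mem_subgroupOf.2 (by simpa [commutatorElement_def] using hNc u v v.2))
  have hle := TwoDeg.degree_le_index_of_comm A hAab η
  rw [← hnη, hA] at hle
  change n ≤ (R ⊓ N).relIndex N at hle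
  rw [Subgroup.inf_relIndex_right] at hle
  have hge : R.index ≤ n :=
    Nat.le_of_dvd hn0 ((dvd_mul_right _ _).trans hRdvd)
  have hU : R ⊔ N = ⊤ := by
    have h := Subgroup.relIndex_mul_index (le_sup_left : R ≤ R ⊔ N)
    have h1 : R.relIndex N ≤ R.relIndex (R ⊔ N) :=
      Subgroup.relIndex_le_of_le_right le_sup_right Subgroup.index_ne_zero_of_finite
    have h2 : 0 < (R ⊔ N).index := Nat.pos_of_ne_zero Subgroup.index_ne_zero_of_finite
    rw [← Subgroup.index_eq_one]
    by_contra h3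
    have h4 : R.relIndex (R ⊔ N) * 2 ≤ R.index := h ▸ Nat.mul_le_mul_left _ (by omega)
    have h5 : 0 < R.relIndex (R ⊔ N) :=
      Nat.pos_of_ne_zero Subgroup.index_ne_zero_of_finite
    omega
  have hRn : R.Normal := by
    rw [← Subgroup.normalizer_eq_top_iff, eq_top_iff, ← hU]
    refine sup_le Subgroup.le_normalizer fun b hb => ?_
    rw [Subgroup.mem_normalizer_iff]
    intro r
    have key : ∀ b ∈ N, ∀ r ∈ R, b * r * b⁻¹ ∈ R := by
      intro b hb r hr
      rw [show b * r * b⁻¹ = ⁅r, b⁆⁻¹ * r by rw [commutatorElement_def]; group]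
      exact R.mul_mem (R.inv_mem (hPR (hNc r b hb))) hr
    exact ⟨key b hb r, fun h => by simpa [mul_assoc] using key b⁻¹ (N.inv_mem hb) _ h⟩
  have hRtop : R = ⊤ := by
    by_contra hne
    exact hRi (hidxp R hRn hne)
  rw [hRtop, Subgroup.relIndex_top_left] at hle
  have hn1 : n = 1 := by omega
  obtain ⟨f, hf⟩ := H26.exists_hom_of_isCharacter_one (H26.irr_isCharacter χ)
    (by rw [← H44.cast_charDegree, ← hn, hn1, Nat.cast_one])
  refine hP ⟨fun v hv g => ?_⟩
  have h : g * v * g⁻¹ = v := by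
    refine mul_inv_eq_one.1 (hfaith _ ?_)
    rw [← hf, ← hf, map_one, map_mul, map_mul, map_mul, map_inv, map_inv,
      mul_comm (f g) (f v), mul_inv_cancel_right, mul_inv_cancel]
  rwa [h]

end Cfsg.Agent.H43.SolvDiv
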